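import Cfsg.Agent.Lib.FreeInertial.Mult
import Cfsg.Agent.Lib.FreeInertial.Fourier

/-!
# Decomposition numbers below a maximal pair
-/

set_option autoImplicit false
set_option linter.unusedSectionVars false
set_option linter.style.haveILetI false
set_option maxHeartbeats 800000

namespace Cfsg.Agent.Lib.FreeInertial

open Cfsg Cfsg.Agent.Lib Cfsg.Agent.Lib.Block Cfsg.Agent.Lib.BrauerPairs Cfsg.Agent.Lib.Star
open Cfsg.Agent.Lib.Watanabe (orb mem_orb self_mem_orb below_stab stableFn_of_stab sum_sec_rank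
  conj_mem_of_stab)
open scoped ComplexConjugate

universe u

variable {p : ℕ} {M : Ideal AlgInt} [M.IsPrime] {G : Type u} [Group G] [Finite G]
  {B : Set (IrrCharacter G)} {P : Subgroup G} {e : CBlock P}

open scoped Classical in
/-- The block below the maximal pair. -/
noncomputable def bel (p : ℕ) (M : Ideal AlgInt) [M.IsPrime] (P : Subgroup G) (e : CBlock P)
    (Q : Subgroup G) : CBlock Q :=
  if h : ∃ f : CBlock Q, IsPBlock M f ∧ SubpairLE p M Q f P e then h.choose else ∅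

theorem bel_spec (hM : IsPModular p M) (hP : IsPGroup p P) (he : IsPBlock M e) {Q : Subgroup G}
    (hQ : Q ≤ P) : IsPBlock M (bel p M P e Q) ∧ SubpairLE p M Q (bel p M P e Q) P e := by
  have h := exists_le hM hP he Q hQ
  rw [bel, dif_pos h]
  exact h.choose_spec

theorem bel_unique (hM : IsPModular p M) (hP : IsPGroup p P) (he : IsPBlock M e) {Q : Subgroup G}
    {f : CBlock Q} (hle : SubpairLE p M Q f P e) : bel p M P e Q = f :=
  le_unique hM hP he Q _ _ (bel_spec hM hP he (subgroup_le hle)).2 hle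

/-- The decomposition number of `φ` at the subsection of `u`. -/
noncomputable def dv (p : ℕ) (M : Ideal AlgInt) [M.IsPrime] (P : Subgroup G) (e : CBlock P)
    (φ : G → ℂ) (u : G) : ℂ :=
  mult (Subgroup.zpowers u) (bel p M P e (Subgroup.zpowers u)) φ u

/-- The inertia group meets the centraliser only in the centraliser of `P`. -/
def FreeAt (M : Ideal AlgInt) [M.IsPrime] (P : Subgroup G) (e : CBlock P) (Q : Subgroup G) : Prop :=
  stab M P e ⊓ Subgroup.centralizer (Q : Set G) ≤ Subgroup.centralizer (P : Set G)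

theorem irr_one_of_comm {H : Type u} [Group H] [Finite H] (hc : ∀ x y : H, x * y = y * x)
    (ν : IrrCharacter H) : (ν : H → ℂ) 1 = 1 := by
  classical
  haveI := Fintype.ofFinite H
  rw [← Char.charDegree_eq_one_iff ν.2]
  by_contra hne
  have hsum := Char.sum_charDegree_sq (G := H)
  have hcard := Char.card_charDegree_one (G := H)
  have hcom : commutator H = ⊥ := by
    rw [eq_bot_iff, commutator_def]
    refine Subgroup.commutator_le.2 fun a _ b _ => ?_
    rw [Subgroup.mem_bot, commutatorElement_def, hc a b]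
    group
  rw [hcom, Subgroup.index_bot, Nat.card_eq_fintype_card, Fintype.card_subtype] at hcard
  rw [← Finset.sum_filter_add_sum_filter_not Finset.univ
    (fun χ : IrrCharacter H => charDegree (χ : H → ℂ) = 1),
    Finset.sum_congr rfl (fun χ hχ => by rw [(Finset.mem_filter.1 hχ).2, one_pow] :
      ∀ χ ∈ Finset.univ.filter (fun χ : IrrCharacter H => charDegree (χ : H → ℂ) = 1),
        charDegree (χ : H → ℂ) ^ 2 = 1), Finset.sum_const, smul_eq_mul, mul_one, hcard] at hsum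
  have h1 := Finset.single_le_sum (f := fun χ : IrrCharacter H => charDegree (χ : H → ℂ) ^ 2)
    (s := Finset.univ.filter fun χ : IrrCharacter H => ¬ charDegree (χ : H → ℂ) = 1)
    (fun χ _ => Nat.zero_le _) (Finset.mem_filter.2 ⟨Finset.mem_univ ν, hne⟩)
  have h2 : 0 < charDegree (ν : H → ℂ) ^ 2 := pow_pos (charDegree_pos ν) 2
  omega

/-- A block with abelian defect group and inertial index one. -/
theorem inertial_one_facts (hM : IsPModular p M) (hmax : IsMaximalBrauerPair p M B P e)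
    (hab : ∀ x ∈ P, ∀ y ∈ P, x * y = y * x)
    (hT : stab M P e ≤ Subgroup.centralizer (P : Set G)) :
    Flat p B ∧ blockRank p B = 1 ∧ Nat.card B = Nat.card P ∧
      ∀ χ ∈ B, blockHeight p B (χ : G → ℂ) = 0 := by
  obtain ⟨h1, h2⟩ := rank_one_of_inertial_one hM hmax hab hT
  obtain ⟨χ₀, hχ₀, h0, Φ, -, hΦ, hreg⟩ :=
    nilpotent_main hM hmax ((isNilpotentBlock_iff_of_abelian hM hmax hab).2 hT)
  have hval : ∀ χ ∈ B, ∀ g : G, ¬ p ∣ orderOf g → (χ : G → ℂ) g = (χ₀ : G → ℂ) g := by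
    intro χ hχ g hg
    obtain ⟨ν, rfl⟩ := (hΦ χ).1 hχ
    rw [hreg ν g hg, irr_one_of_comm (fun x y => Subtype.ext (hab _ x.2 _ y.2)) ν, one_mul]
  refine ⟨fun η hη η' hη' s hs => by rw [hval η hη s hs, hval η' hη' s hs], h1, h2, fun χ hχ => ?_⟩
  have h := hval χ hχ 1 (by rw [orderOf_one, Nat.dvd_one]; exact hM.1.ne_one)
  rw [irr_one_eq_natCast, irr_one_eq_natCast, Nat.cast_inj] at h
  rw [← h0, blockHeight, blockHeight, h]

/-- The blocks below at free places. -/
theorem bel_facts (hM : IsPModular p M) (hmax : IsMaximalBrauerPair p M B P e)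
    (hab : ∀ x ∈ P, ∀ y ∈ P, x * y = y * x) {Q : Subgroup G} (hQ : Q ≤ P)
    (hfree : FreeAt M P e Q) :
    Flat p (bel p M P e Q) ∧ blockRank p (bel p M P e Q) = 1 ∧
      Nat.card (bel p M P e Q) = Nat.card P := by
  obtain ⟨hP, he, -, -⟩ := (isBrauerPairOf_iff hM).1 hmax.1
  obtain ⟨-, hle⟩ := bel_spec hM hP he hQ
  obtain ⟨e', he', hst⟩ := exists_pull_maximal hM hmax hab hle
  obtain ⟨h1, h2, h3, -⟩ := inertial_one_facts hM he'
    (fun x hx y hy => Subtype.ext
      (hab _ (Subgroup.mem_subgroupOf.1 hx) _ (Subgroup.mem_subgroupOf.1 hy))) fun x hx =>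
    Subgroup.mem_centralizer_iff.2 fun u hu => Subtype.ext
      (Subgroup.mem_centralizer_iff.1 (hfree ⟨(hst x).1 hx, x.2⟩) u (Subgroup.mem_subgroupOf.1 hu))
  exact ⟨h1, h2, by rw [h3, card_subgroupOf (le_centralizer_of_abelian hab hQ)]⟩

section Values

variable (hM : IsPModular p M) (hmax : IsMaximalBrauerPair p M B P e)
  (hab : ∀ x ∈ P, ∀ y ∈ P, x * y = y * x)

include hM hmax hab

theorem exists_mem_bel {Q : Subgroup G} (hQ : Q ≤ P) :
    ∃ η, η ∈ bel p M P e Q :=
  isPBlock_nonempty (bel_spec hM hmax.1.1.1 hmax.1.1.2 hQ).1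

theorem sec_below {φ : G → ℂ} (hφ : IsClassFunction G φ) {u : G} (hu : u ∈ P)
    (hfree : FreeAt M P e (Subgroup.zpowers u))
    {η₀ : IrrCharacter (Subgroup.centralizer (Subgroup.zpowers u : Set G))}
    (h₀ : η₀ ∈ bel p M P e (Subgroup.zpowers u))
    {s : Subgroup.centralizer (Subgroup.zpowers u : Set G)} (hs : ¬ p ∣ orderOf s) :
    sec M φ u (below p M P e u) (u * (s : G)) =
      dv p M P e φ u * (η₀ : Subgroup.centralizer (Subgroup.zpowers u : Set G) → ℂ) s := by
  have hQ := Subgroup.zpowers_le.2 hu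
  obtain ⟨hf, hle⟩ := bel_spec hM hmax.1.1.1 hmax.1.1.2 hQ
  rw [below_eq hM hmax.1.1.1 hmax.1.1.2 rfl hf hle]
  exact sec_eq_mult hφ hf (bel_facts hM hmax hab hQ hfree).1 h₀ hs

theorem sec_below_one {φ : G → ℂ} (hφ : IsClassFunction G φ) {u : G} (hu : u ∈ P)
    (hfree : FreeAt M P e (Subgroup.zpowers u)) :
    ∃ n : ℂ, n ≠ 0 ∧ sec M φ u (below p M P e u) u = dv p M P e φ u * n ∧
      ∀ ψ : G → ℂ, IsClassFunction G ψ →
        sec M ψ u (below p M P e u) u = dv p M P e ψ u * n := by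
  obtain ⟨η₀, h₀⟩ := exists_mem_bel hM hmax hab (Subgroup.zpowers_le.2 hu)
  have hs : ¬ p ∣ orderOf (1 : Subgroup.centralizer (Subgroup.zpowers u : Set G)) := by
    rw [orderOf_one, Nat.dvd_one]; exact hM.1.ne_one
  have key : ∀ ψ : G → ℂ, IsClassFunction G ψ → sec M ψ u (below p M P e u) u =
      dv p M P e ψ u * (η₀ : Subgroup.centralizer (Subgroup.zpowers u : Set G) → ℂ) 1 := by
    intro ψ hψ
    have h := sec_below hM hmax hab hψ hu hfree h₀ hs
    rwa [OneMemClass.coe_one, mul_one] at h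
  exact ⟨_, deg_ne_zero η₀, key φ hφ, key⟩

theorem dv_eq_zero_of_not_mem {χ : IrrCharacter G} (hχ : χ ∉ B) {u : G} (hu : u ∈ P)
    (hfree : FreeAt M P e (Subgroup.zpowers u)) : dv p M P e (χ : G → ℂ) u = 0 := by
  haveI : Fact p.Prime := ⟨hM.1⟩
  have hQ := Subgroup.zpowers_le.2 hu
  obtain ⟨hf, hle⟩ := bel_spec hM hmax.1.1.1 hmax.1.1.2 hQ
  obtain ⟨η₀, h₀⟩ := exists_mem_bel hM hmax hab hQ
  have hs : ¬ p ∣ orderOf (1 : Subgroup.centralizer (Subgroup.zpowers u : Set G)) := by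
    rw [orderOf_one, Nat.dvd_one]; exact hM.1.ne_one
  have h := sec_below hM hmax hab (Char.isClassFunction_of_isIrr χ.2) hu hfree h₀ hs
  rw [below_eq hM hmax.1.1.1 hmax.1.1.2 rfl hf hle, sec_eq_zero_of_not_mem hM hmax.1.2.1 hχ
    (Block.isPElem_of_mem hmax.1.1.1 hu) ((pairOf_iff_of_le hM hmax.1.1.1 hmax.1.1.2 hle).2 hmax.1)
    hs] at h
  exact (mul_eq_zero.1 h.symm).resolve_right (deg_ne_zero η₀)

open scoped Classical in
theorem sum_section [Fintype G] {u : G} (hu : u ∈ P) (hfree : FreeAt M P e (Subgroup.zpowers u))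
    [Fintype (Subgroup.centralizer (Subgroup.zpowers u : Set G))]
    (χ : IrrCharacter G) {η₀ : IrrCharacter (Subgroup.centralizer (Subgroup.zpowers u : Set G))}
    (h₀ : η₀ ∈ bel p M P e (Subgroup.zpowers u)) :
    (∑ g : G, if pp p g = u then
      sec M (χ : G → ℂ) u (below p M P e u) g * conj (sec M (χ : G → ℂ) u (below p M P e u) g)
        else 0) =
      dv p M P e (χ : G → ℂ) u * conj (dv p M P e (χ : G → ℂ) u) *
        ((Nat.card (Subgroup.centralizer (Subgroup.zpowers u : Set G)) : ℂ) *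
          regInner p (η₀ : Subgroup.centralizer (Subgroup.zpowers u : Set G) → ℂ)
            (η₀ : Subgroup.centralizer (Subgroup.zpowers u : Set G) → ℂ)) := by
  haveI : Fact p.Prime := ⟨hM.1⟩
  have hup := Block.isPElem_of_mem hmax.1.1.1 hu
  have hc := Char.isClassFunction_of_isIrr χ.2
  rw [← Finset.sum_filter, regInner, classInner, ← mul_assoc (Nat.card _ : ℂ),
    mul_inv_cancel₀ (Nat.cast_ne_zero.2 Nat.card_pos.ne'), one_mul, Finset.mul_sum,
    ← Finset.sum_filter_of_ne (s := Finset.univ)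
      (p := fun s : Subgroup.centralizer (Subgroup.zpowers u : Set G) => ¬ p ∣ orderOf s)
      fun s _ hne hd => hne (by rw [if_pos hd, zero_mul, mul_zero])]
  symm
  refine Finset.sum_bij (fun s _ => u * (s : G)) (fun s hs => ?_)
    (fun s _ t _ h' => Subtype.ext (mul_left_cancel h')) (fun g hg => ?_) fun s hs => ?_
  · exact Finset.mem_filter.2 ⟨Finset.mem_univ _, pp_mul hM hup (Finset.mem_filter.1 hs).2⟩
  · obtain ⟨-, hg⟩ := Finset.mem_filter.1 hg
    obtain ⟨s, hs, hsg⟩ := exists_parts hM g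
    subst hg
    exact ⟨s, Finset.mem_filter.2 ⟨Finset.mem_univ _, hs⟩, hsg⟩
  · rw [if_neg (Finset.mem_filter.1 hs).2, sec_below hM hmax hab hc hu hfree h₀
      (Finset.mem_filter.1 hs).2, map_mul]
    ring

open scoped Classical in
theorem regInner_bel {u : G} (hu : u ∈ P) (hfree : FreeAt M P e (Subgroup.zpowers u))
    [Fintype (Subgroup.centralizer (Subgroup.zpowers u : Set G))]
    {η₀ : IrrCharacter (Subgroup.centralizer (Subgroup.zpowers u : Set G))}
    (h₀ : η₀ ∈ bel p M P e (Subgroup.zpowers u)) :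
    (Nat.card P : ℂ) * regInner p (η₀ : Subgroup.centralizer (Subgroup.zpowers u : Set G) → ℂ)
      (η₀ : Subgroup.centralizer (Subgroup.zpowers u : Set G) → ℂ) = 1 := by
  have hQ := Subgroup.zpowers_le.2 hu
  obtain ⟨hfl, hl, hcard⟩ := bel_facts hM hmax hab hQ hfree
  have h := sum_regInner_self hM (bel_spec hM hmax.1.1.1 hmax.1.1.2 hQ).1
  rw [hl, Nat.cast_one, ← Finset.sum_filter] at h
  have h3 : ∀ ξ ∈ Finset.univ.filter
      (fun ξ : IrrCharacter (Subgroup.centralizer (Subgroup.zpowers u : Set G)) =>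
        ξ ∈ bel p M P e (Subgroup.zpowers u)),
      regInner p (ξ : Subgroup.centralizer (Subgroup.zpowers u : Set G) → ℂ)
        (ξ : Subgroup.centralizer (Subgroup.zpowers u : Set G) → ℂ) =
      regInner p (η₀ : Subgroup.centralizer (Subgroup.zpowers u : Set G) → ℂ)
        (η₀ : Subgroup.centralizer (Subgroup.zpowers u : Set G) → ℂ) := by
    intro ξ hξ
    simp only [regInner, classInner]
    congr 1
    refine Finset.sum_congr rfl fun s _ => ?_
    split_ifs with hs
    · simp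
    · rw [hfl ξ (Finset.mem_filter.1 hξ).2 η₀ h₀ s hs]
  rw [Finset.sum_congr rfl h3] at h
  rw [Finset.sum_const, nsmul_eq_mul] at h
  rwa [← hcard, Nat.card_eq_fintype_card, Fintype.card_subtype]

open scoped Classical in
/-- The decomposition numbers of one subsection. -/
theorem sum_dv_mul_conj [Fintype (IrrCharacter G)] {u : G} (hu : u ∈ P)
    (hfree : FreeAt M P e (Subgroup.zpowers u)) :
    ∑ χ : IrrCharacter G, dv p M P e (χ : G → ℂ) u * conj (dv p M P e (χ : G → ℂ) u) =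
      (Nat.card P : ℂ) := by
  haveI : Fact p.Prime := ⟨hM.1⟩
  haveI := Fintype.ofFinite G
  haveI := Fintype.ofFinite (Subgroup.centralizer (Subgroup.zpowers u : Set G))
  have hQ := Subgroup.zpowers_le.2 hu
  obtain ⟨hf, hle⟩ := bel_spec hM hmax.1.1.1 hmax.1.1.2 hQ
  obtain ⟨η₀, h₀⟩ := exists_mem_bel hM hmax hab hQ
  have hup := Block.isPElem_of_mem hmax.1.1.1 hu
  have h := sum_sec_rank hM hmax.1.2.1 hup
    ((pairOf_iff_of_le hM hmax.1.1.1 hmax.1.1.2 hle).2 hmax.1)
  rw [← below_eq hM hmax.1.1.1 hmax.1.1.2 rfl hf hle, (bel_facts hM hmax hab hQ hfree).2.1,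
    Nat.cast_one, mul_one] at h
  have h2 : ∀ χ : IrrCharacter G, (if χ ∈ B then ∑ g : G, (if pp p g = u then
      sec M (χ : G → ℂ) u (below p M P e u) g * conj (sec M (χ : G → ℂ) u (below p M P e u) g)
        else 0) else 0) = dv p M P e (χ : G → ℂ) u * conj (dv p M P e (χ : G → ℂ) u) *
          ((Nat.card (Subgroup.centralizer (Subgroup.zpowers u : Set G)) : ℂ) *
            regInner p (η₀ : Subgroup.centralizer (Subgroup.zpowers u : Set G) → ℂ)
              (η₀ : Subgroup.centralizer (Subgroup.zpowers u : Set G) → ℂ)) := by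
    intro χ
    by_cases hχ : χ ∈ B
    · rw [if_pos hχ]
      exact sum_section hM hmax hab hu hfree χ h₀
    · rw [if_neg hχ, dv_eq_zero_of_not_mem hM hmax hab hχ hu hfree, zero_mul, zero_mul]
  rw [← centralizer_zpowers_eq u] at h
  replace h := (Finset.sum_congr (Finset.ext fun _ => by simp) fun χ _ => (h2 χ).symm :
    (∑ χ : IrrCharacter G, dv p M P e (χ : G → ℂ) u * conj (dv p M P e (χ : G → ℂ) u) *
      ((Nat.card (Subgroup.centralizer (Subgroup.zpowers u : Set G)) : ℂ) *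
        regInner p (η₀ : Subgroup.centralizer (Subgroup.zpowers u : Set G) → ℂ)
          (η₀ : Subgroup.centralizer (Subgroup.zpowers u : Set G) → ℂ))) = _).trans h
  rw [← Finset.sum_mul] at h
  have hC : (Nat.card (Subgroup.centralizer (Subgroup.zpowers u : Set G)) : ℂ) ≠ 0 :=
    Nat.cast_ne_zero.2 Nat.card_pos.ne'
  set R := regInner p (η₀ : Subgroup.centralizer (Subgroup.zpowers u : Set G) → ℂ)
    (η₀ : Subgroup.centralizer (Subgroup.zpowers u : Set G) → ℂ) with hR
  have hr := regInner_bel hM hmax hab hu hfree h₀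
  rw [← hR] at hr
  calc _ = (∑ χ : IrrCharacter G, dv p M P e (χ : G → ℂ) u * conj (dv p M P e (χ : G → ℂ) u)) *
        ((Nat.card P : ℂ) * R) := by rw [hr, mul_one]
    _ = (Nat.card (Subgroup.centralizer (Subgroup.zpowers u : Set G)) : ℂ)⁻¹ *
        ((∑ χ : IrrCharacter G, dv p M P e (χ : G → ℂ) u * conj (dv p M P e (χ : G → ℂ) u)) *
          ((Nat.card (Subgroup.centralizer (Subgroup.zpowers u : Set G)) : ℂ) * R)) *
            (Nat.card P : ℂ) := by field_simp
    _ = _ := by rw [h, inv_mul_cancel₀ hC, one_mul]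

theorem dv_ne_zero {χ : IrrCharacter G} (hχ : χ ∈ B)
    (h0 : blockHeight p B (χ : G → ℂ) = 0) {u : G} (hu : u ∈ P)
    (hfree : FreeAt M P e (Subgroup.zpowers u)) : dv p M P e (χ : G → ℂ) u ≠ 0 := by
  classical
  haveI : Fact p.Prime := ⟨hM.1⟩
  haveI := Fintype.ofFinite G
  haveI := Fintype.ofFinite (Subgroup.centralizer (Subgroup.zpowers u : Set G))
  haveI := Fintype.ofFinite (Subgroup.centralizer ({u} : Set G))
  have hQ := Subgroup.zpowers_le.2 hu
  obtain ⟨hf, hle⟩ := bel_spec hM hmax.1.1.1 hmax.1.1.2 hQ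
  obtain ⟨η₀, h₀⟩ := exists_mem_bel hM hmax hab hQ
  have hup := Block.isPElem_of_mem hmax.1.1.1 hu
  obtain ⟨b, hind, -, hfb⟩ := exists_major hM hmax.1.2.1 hup
    ((pairOf_iff_of_le hM hmax.1.1.1 hmax.1.1.2 hle).2 hmax.1)
  intro hd
  have h := sum_section hM hmax hab hu hfree χ h₀
  rw [hd, zero_mul, zero_mul, below_eq hM hmax.1.1.1 hmax.1.1.2 rfl hf hle,
    sec_sum_eq hM hup hf hfb] at h
  exact contrib_ne_zero hM hup hind rfl hχ hχ h0 h0
    ((mul_eq_zero.1 h).resolve_left (Nat.cast_ne_zero.2 Nat.card_pos.ne'))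

theorem dv_sum {ι : Type*} (s : Finset ι) (c : ι → ℂ) (φ : ι → G → ℂ) (u : G) :
    dv p M P e (∑ i ∈ s, c i • φ i) u = ∑ i ∈ s, c i * dv p M P e (φ i) u := by
  classical
  letI := Fintype.ofFinite (Subgroup.centralizer (Subgroup.zpowers u : Set G))
  simp only [dv, mult, Finset.mul_sum]
  rw [Finset.sum_comm]
  refine Finset.sum_congr rfl fun η _ => ?_
  split_ifs with hη
  · rw [show (fun c' : Subgroup.centralizer (Subgroup.zpowers u : Set G) =>
        (∑ i ∈ s, c i • φ i) (u * (c' : G))) =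
      ∑ i ∈ s, c i • fun c' : Subgroup.centralizer (Subgroup.zpowers u : Set G) =>
        φ i (u * (c' : G)) by funext c'; simp [Finset.sum_apply], Char.classInner_sum_left]
    exact Finset.sum_congr rfl fun i _ => Char.classInner_smul_left _ _ _
  · simp

/-- A twist supported on the orbit of `w` is proportional to one function. -/
theorem twist_prop [Fintype G] {lam : G → ℂ} (hst : StableFn p M P e lam) {w : G} (hw : w ∈ P)
    (hfw : FreeAt M P e (Subgroup.zpowers w))
    (hsupp : ∀ z ∈ P, z ∉ orb (stab M P e) w → lam z = 0)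
    {η₀ : IrrCharacter (Subgroup.centralizer (Subgroup.zpowers w : Set G))}
    (h₀ : η₀ ∈ bel p M P e (Subgroup.zpowers w)) (χ ψ : IrrCharacter G) (g : G) :
    dv p M P e (χ : G → ℂ) w * starFn p M (weight p M P e lam) (ψ : G → ℂ) g =
      dv p M P e (ψ : G → ℂ) w * starFn p M (weight p M P e lam) (χ : G → ℂ) g := by
  classical
  haveI : Fact p.Prime := ⟨hM.1⟩
  obtain ⟨hP, he, hB, -⟩ := (isBrauerPairOf_iff hM).1 hmax.1
  have hc : ∀ χ : IrrCharacter G, IsClassFunction G (χ : G → ℂ) := fun χ =>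
    Char.isClassFunction_of_isIrr χ.2
  simp only [starFn_eq_sec, Finset.mul_sum]
  refine Finset.sum_congr rfl fun a ha => ?_
  by_cases h : ∃ y : G, y * pp p g * y⁻¹ ∈ P ∧ cj y a = below p M P e (y * pp p g * y⁻¹)
  swap
  · rw [weight_eq_zero h, zero_mul, zero_mul, mul_zero, mul_zero]
  obtain ⟨y, hy, hya⟩ := h
  by_cases ho : y * pp p g * y⁻¹ ∈ orb (stab M P e) w
  swap
  · rw [weight_eq hst hy hya, hsupp _ hy ho, zero_mul, zero_mul, mul_zero, mul_zero]
  obtain ⟨t, ht, htw⟩ := mem_orb.1 ho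
  set x := t⁻¹ * y with hx
  have hxu : x * pp p g * x⁻¹ = w := by
    calc x * pp p g * x⁻¹ = t⁻¹ * (y * pp p g * y⁻¹) * t := by rw [hx]; group
      _ = w := by rw [← htw]; group
  have hxa : cj x a = below p M P e w := by
    rw [hx, ← cj_cj, hya, ← htw, ← below_stab hM hP he hw ht, cj_cj, inv_mul_cancel,
      cj_one_apply]
  have hpx : pp p (x * g * x⁻¹) = w := by
    rw [pp_eq (IsPPart.conj (isPPart_pp (p := p) g) x), hxu]
  obtain ⟨s, hs, hsg⟩ := exists_parts hM (x * g * x⁻¹)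
  have key : ∀ φ : IrrCharacter G, ∃ r : ℂ, sec M (φ : G → ℂ) (pp p g) a g =
      dv p M P e (φ : G → ℂ) w * r ∧
      ∀ φ' : IrrCharacter G, sec M (φ' : G → ℂ) (pp p g) a g =
        dv p M P e (φ' : G → ℂ) w * r := by
    intro φ
    have hgen : ∀ φ' : IrrCharacter G, sec M (φ' : G → ℂ) (pp p g) a g =
        sec M (φ' : G → ℂ) w (below p M P e w) (x * g * x⁻¹) := fun φ' => by
      rw [← sec_conj (hc φ') x ha g, hxu, hxa]
    obtain ⟨s', hs', hsg'⟩ : ∃ s' : Subgroup.centralizer (Subgroup.zpowers w : Set G),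
        ¬ p ∣ orderOf s' ∧ w * (s' : G) = x * g * x⁻¹ := by
      subst hpx
      exact ⟨s, hs, hsg⟩
    have hall : ∀ φ' : IrrCharacter G, sec M (φ' : G → ℂ) (pp p g) a g =
        dv p M P e (φ' : G → ℂ) w *
          (η₀ : Subgroup.centralizer (Subgroup.zpowers w : Set G) → ℂ) s' := fun φ' => by
      rw [hgen φ', ← hsg', sec_below hM hmax hab (hc φ') hw hfw h₀ hs']
    exact ⟨_, hall φ, hall⟩
  obtain ⟨r, -, hr⟩ := key χ
  rw [hr χ, hr ψ]
  ring

omit hmax hab in
/-- A twist by real weights is self adjoint. -/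
theorem twist_adj [Fintype G] {Λ : G → KG M G → ℂ} (hΛreal : ∀ u a, conj (Λ u a) = Λ u a)
    (χ ψ : IrrCharacter G) :
    classInner (starFn p M Λ (χ : G → ℂ)) (ψ : G → ℂ) =
      conj (classInner (starFn p M Λ (ψ : G → ℂ)) (χ : G → ℂ)) := by
  classical
  have hc : ∀ χ : IrrCharacter G, IsClassFunction G (χ : G → ℂ) := fun χ =>
    Char.isClassFunction_of_isIrr χ.2
  have h1 : ∀ φ : IrrCharacter G, (φ : G → ℂ) = starFn p M (fun _ _ => 1) (φ : G → ℂ) :=
    fun φ => funext fun g => (starFn_one hM (hc φ) g).symm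
  have e1 := classInner_starFn hM Λ (fun _ _ => (1 : ℂ)) (hc χ) (hc ψ)
  have e2 := classInner_starFn hM Λ (fun _ _ => (1 : ℂ)) (hc ψ) (hc χ)
  rw [← h1 ψ] at e1
  rw [← h1 χ] at e2
  rw [e1, e2, map_mul, map_inv₀, map_natCast, map_sum]
  refine congrArg (fun z : ℂ => (Nat.card G : ℂ)⁻¹ * z) ?_
  refine Finset.sum_congr rfl fun g _ => ?_
  rw [map_sum]
  refine Finset.sum_congr rfl fun a _ => ?_
  simp only [map_one, mul_one, map_mul, Complex.conj_conj, hΛreal]
  ring

/-- Decomposition numbers of different subsections are orthogonal. -/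
theorem sum_dv_orth [Fintype G] [Fintype (IrrCharacter G)] {v w : G} (hv : v ∈ P) (hw : w ∈ P)
    (hfv : FreeAt M P e (Subgroup.zpowers v)) (hfw : FreeAt M P e (Subgroup.zpowers w))
    (hne : v ∉ orb (stab M P e) w) :
    ∑ χ : IrrCharacter G, dv p M P e (χ : G → ℂ) v * conj (dv p M P e (χ : G → ℂ) w) = 0 := by
  classical
  haveI : Fact p.Prime := ⟨hM.1⟩
  obtain ⟨hP, he, hB, -⟩ := (isBrauerPairOf_iff hM).1 hmax.1
  let lam : G → ℂ := fun z => if z ∈ orb (stab M P e) w then 1 else 0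
  have hlam : ∀ t ∈ stab M P e, ∀ z ∈ P, lam (t * z * t⁻¹) = lam z := by
    intro t ht z _
    simp only [lam]
    refine if_congr ⟨fun h => ?_, fun h => ?_⟩ rfl rfl
    · obtain ⟨s, hs, h'⟩ := mem_orb.1 h
      exact mem_orb.2 ⟨t⁻¹ * s, mul_mem (inv_mem ht) hs, by
        calc t⁻¹ * s * w * (t⁻¹ * s)⁻¹ = t⁻¹ * (s * w * s⁻¹) * t := by group
          _ = z := by rw [h']; group⟩
    · obtain ⟨s, hs, h'⟩ := mem_orb.1 h
      exact mem_orb.2 ⟨t * s, mul_mem ht hs, by rw [← h']; group⟩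
  have hst := stableFn_of_stab hM hmax hab hlam
  set Λ := weight p M P e lam with hΛdef
  have hΛ := isEquivariant_weight hst
  have hΛreal : ∀ u a, conj (Λ u a) = Λ u a := fun u a => by
    rw [hΛdef, weight]
    split_ifs with h
    · simp only [lam]; split_ifs <;> simp
    · simp
  let S : IrrCharacter G → G → ℂ := fun χ => starFn p M Λ (χ : G → ℂ)
  have hc : ∀ χ : IrrCharacter G, IsClassFunction G (χ : G → ℂ) := fun χ =>
    Char.isClassFunction_of_isIrr χ.2
  obtain ⟨η₀, h₀⟩ := exists_mem_bel hM hmax hab (Subgroup.zpowers_le.2 hw)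
  have hprop : ∀ (χ ψ : IrrCharacter G) (g : G),
      dv p M P e (χ : G → ℂ) w * S ψ g = dv p M P e (ψ : G → ℂ) w * S χ g :=
    twist_prop hM hmax hab hst hw hfw (fun z _ hz => if_neg hz) h₀
  have hadj : ∀ χ ψ : IrrCharacter G,
      classInner (S χ) (ψ : G → ℂ) = conj (classInner (S ψ) (χ : G → ℂ)) :=
    twist_adj hM hΛreal
  -- a character seen by `w`
  obtain ⟨χ₀, hχ₀⟩ : ∃ χ₀ : IrrCharacter G, dv p M P e (χ₀ : G → ℂ) w ≠ 0 := by
    by_contra hall
    push Not at hall
    have h := sum_dv_mul_conj hM hmax hab hw hfw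
    simp only [hall, zero_mul, Finset.sum_const_zero] at h
    exact Nat.card_pos.ne' (Nat.cast_eq_zero.1 h.symm)
  set a₀ := classInner (S χ₀) (χ₀ : G → ℂ) with ha₀
  have hscal : ∀ χ ψ φ : IrrCharacter G,
      dv p M P e (χ : G → ℂ) w * classInner (S ψ) (φ : G → ℂ) =
        dv p M P e (ψ : G → ℂ) w * classInner (S χ) (φ : G → ℂ) := fun χ ψ φ => by
    rw [← Char.classInner_smul_left, ← Char.classInner_smul_left]
    congr 1
    exact funext fun g => hprop χ ψ g
  have hcoef : ∀ ψ : IrrCharacter G, conj (dv p M P e (χ₀ : G → ℂ) w) *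
      classInner (S χ₀) (ψ : G → ℂ) = conj (dv p M P e (ψ : G → ℂ) w) * conj a₀ := fun ψ => by
    rw [hadj χ₀ ψ, ← map_mul, hscal χ₀ ψ χ₀, map_mul]
  have hSexp : S χ₀ = _ := Char.eq_sum_classInner_smul (isClassFunction_starFn hM hΛ (hc χ₀))
  have hdvS : ∀ z : G, z ∈ P → FreeAt M P e (Subgroup.zpowers z) →
      dv p M P e (S χ₀) z = lam z * dv p M P e (χ₀ : G → ℂ) z := by
    intro z hz hfz
    obtain ⟨n, hn, h1, hall⟩ := sec_below_one hM hmax hab (hc χ₀) hz hfz
    obtain ⟨f, hf, hle, hb⟩ := exists_below hM hP he hz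
    have hs : ¬ p ∣ orderOf (1 : Subgroup.centralizer (Subgroup.zpowers z : Set G)) := by
      rw [orderOf_one, Nat.dvd_one]; exact hM.1.ne_one
    have h := sec_starFn hM hΛ (hc χ₀) (Block.isPElem_of_mem hP hz)
      (below_mem hM hP he hz) hs
    rw [OneMemClass.coe_one, mul_one, hall _ (isClassFunction_starFn hM hΛ (hc χ₀)), h1,
      weight_eq hst (y := 1) (by simpa using hz) (by simp [cj_one_apply])] at h
    simp only [one_mul, inv_one, mul_one] at h
    exact mul_right_cancel₀ hn (h.trans (mul_assoc _ _ _).symm)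
  have ha0 : a₀ ≠ 0 := by
    intro h0
    have hz : S χ₀ = 0 := by
      rw [hSexp, Finset.sum_eq_zero]
      intro ψ _
      have := hcoef ψ
      rw [h0, map_zero, mul_zero, mul_eq_zero] at this
      rw [this.resolve_left (star_ne_zero.2 hχ₀), zero_smul]
    have := hdvS w hw hfw
    rw [hz, show (0 : G → ℂ) = ∑ i ∈ (∅ : Finset (IrrCharacter G)), (0 : ℂ) • (i : G → ℂ) by simp,
      dv_sum hM hmax hab, Finset.sum_empty] at this
    simp only [lam, if_pos (self_mem_orb), one_mul] at this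
    exact hχ₀ this.symm
  have hzero := hdvS v hv hfv
  rw [show lam v = 0 from if_neg hne, zero_mul, hSexp, dv_sum hM hmax hab] at hzero
  have : conj a₀ * ∑ χ : IrrCharacter G,
      dv p M P e (χ : G → ℂ) v * conj (dv p M P e (χ : G → ℂ) w) = 0 := by
    rw [Finset.mul_sum, ← mul_zero (conj (dv p M P e (χ₀ : G → ℂ) w)), ← hzero, Finset.mul_sum]
    refine Finset.sum_congr (Finset.ext fun _ => by simp) fun ψ _ => ?_
    rw [← mul_assoc (conj (dv p M P e (χ₀ : G → ℂ) w)), hcoef ψ]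
    ring
  exact (mul_eq_zero.1 this).resolve_left (star_ne_zero.2 ha0)

theorem zpowers_pow_eq {u : G} (hu : u ∈ P) {k : ℕ} (hk : Nat.Coprime k (Nat.card P)) :
    Subgroup.zpowers (u ^ k) = Subgroup.zpowers u := by
  have hd : orderOf u ∣ Nat.card P := by
    have := orderOf_dvd_natCard (⟨u, hu⟩ : P)
    rwa [Subgroup.orderOf_mk] at this
  refine Subgroup.eq_of_le_of_card_ge (Subgroup.zpowers_le.2 (pow_mem (Subgroup.mem_zpowers u) k)) ?_
  rw [Nat.card_zpowers, Nat.card_zpowers, (Nat.Coprime.coprime_dvd_right hd hk).symm.orderOf_pow]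

/-- Automorphisms of `ℂ` act by powers. -/
theorem aut_dv {φ : G → ℂ} (hφ : IsCharacter G φ) {u : G} (hu : u ∈ P) (σ : ℂ ≃+* ℂ) {k : ℕ}
    (hk : Nat.Coprime k (Nat.card P)) (hσ : ∀ μ : ℂ, μ ^ Nat.card P = 1 → σ μ = μ ^ k) :
    σ (dv p M P e φ u) = dv p M P e φ (u ^ k) := by
  have hun : u ^ Nat.card P = 1 :=
    congrArg Subtype.val (pow_card_eq_one' (G := P) (x := ⟨u, hu⟩))
  rw [dv, aut_mult _ hφ (Subgroup.mem_zpowers u)
    (mem_centralizer_zpowers.2 (Commute.refl u)) hun σ hσ, dv]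
  generalize hQ : Subgroup.zpowers (u ^ k) = Q
  rw [zpowers_pow_eq hM hmax hab hu hk] at hQ
  subst hQ
  rfl

theorem conj_dv {φ : G → ℂ} (hφ : IsCharacter G φ) {u : G} :
    conj (dv p M P e φ u) = dv p M P e φ u⁻¹ := by
  rw [dv, conj_mult _ hφ (Subgroup.mem_zpowers u) (mem_centralizer_zpowers.2 (Commute.refl u)), dv]
  generalize hQ : Subgroup.zpowers u⁻¹ = Q
  rw [Subgroup.zpowers_inv] at hQ
  subst hQ
  rfl

theorem isIntegral_dv {φ : G → ℂ} (hφ : IsCharacter G φ) (u : G) :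
    IsIntegral ℤ (dv p M P e φ u) :=
  isIntegral_mult _ hφ (Subgroup.mem_zpowers u) (mem_centralizer_zpowers.2 (Commute.refl u))

/-- With inertial index one all decomposition numbers have absolute value one. -/
theorem dv_mul_conj_eq_one (hT : stab M P e ≤ Subgroup.centralizer (P : Set G))
    {χ : IrrCharacter G} (hχ : χ ∈ B) {u : G} (hu : u ∈ P) :
    dv p M P e (χ : G → ℂ) u * conj (dv p M P e (χ : G → ℂ) u) = 1 := by
  classical
  haveI : Fact p.Prime := ⟨hM.1⟩
  haveI := Fintype.ofFinite G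
  haveI := Fintype.ofFinite P
  have hfree : ∀ Q : Subgroup G, FreeAt M P e Q := fun Q => inf_le_left.trans hT
  obtain ⟨-, -, hcard, hh⟩ := inertial_one_facts hM hmax hab hT
  let D : IrrCharacter G → P → ℂ := fun ξ z => dv p M P e (ξ : G → ℂ) (z : G)
  let r : IrrCharacter G → P → ℝ := fun ξ z => Complex.normSq (D ξ z)
  have hge : ∀ ξ ∈ B, (Fintype.card P : ℝ) ≤ ∑ z, r ξ z ∧
      ((∑ z, r ξ z = (Fintype.card P : ℝ)) → ∀ z, r ξ z = 1) := by
    intro ξ hξ
    have hpos : ∀ z, 0 < r ξ z := fun z =>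
      Complex.normSq_pos.2 (dv_ne_zero hM hmax hab hξ (hh ξ hξ) z.2 (hfree _))
    obtain ⟨m, hm⟩ := CharGalois.exists_int_of_fixed (x := ∏ z : P, D ξ z)
      (IsIntegral.prod _ fun z _ => isIntegral_dv hM hmax hab (Char.isCharacter_of_isIrr ξ.2) _)
      fun σ => by
        obtain ⟨k, hk, hσ⟩ := CharGalois.exists_pow_of_aut (Nat.card_pos (α := P)) σ
        rw [map_prod, Finset.prod_congr rfl fun z _ =>
          aut_dv hM hmax hab (Char.isCharacter_of_isIrr ξ.2) z.2 σ hk hσ]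
        exact Equiv.prod_comp (powCoprime (G := P) hk.symm) (D ξ)
    have hprod : 1 ≤ ∏ z, r ξ z := by
      have h1 : (∏ z, r ξ z) = ((m : ℝ) * m) := by
        simp only [r, ← map_prod, hm, Complex.normSq_intCast]
      have hm0 : m ≠ 0 := by
        rintro rfl
        have := Finset.prod_pos fun z (_ : z ∈ (Finset.univ : Finset P)) => hpos z
        rw [h1] at this
        simp at this
      rw [h1]
      have h2 := mul_self_pos.2 hm0
      exact_mod_cast (show (1 : ℤ) ≤ m * m by omega)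
    have hlog : 0 ≤ ∑ z, Real.log (r ξ z) := by
      rw [← Real.log_prod fun i _ => (hpos i).ne']
      exact Real.log_nonneg hprod
    refine ⟨?_, fun h z => eq_one_of_sum_le Finset.univ (r ξ) (fun i _ => hpos i) hprod
      (by rw [h, Finset.card_univ]) z (Finset.mem_univ z)⟩
    have h1 : ∑ z, Real.log (r ξ z) ≤ ∑ z, (r ξ z - 1) :=
      Finset.sum_le_sum fun z _ => Real.log_le_sub_one_of_pos (hpos z)
    rw [Finset.sum_sub_distrib, Finset.sum_const, Finset.card_univ, nsmul_eq_mul, mul_one] at h1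
    linarith
  have htot : ∑ ξ ∈ Finset.univ.filter (· ∈ B), ∑ z, r ξ z =
      ∑ _ξ ∈ Finset.univ.filter (· ∈ B), (Fintype.card P : ℝ) := by
    rw [Finset.sum_comm]
    apply Complex.ofReal_injective
    push_cast
    rw [Finset.sum_congr rfl fun z _ => show
      ∑ ξ ∈ Finset.univ.filter (· ∈ B), ((r ξ z : ℝ) : ℂ) = (Nat.card P : ℂ) by
      rw [← sum_dv_mul_conj hM hmax hab z.2 (hfree _), Finset.sum_filter]
      refine Finset.sum_congr (Finset.ext fun _ => by simp) fun ξ _ => ?_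
      split_ifs with hξ
      · simp only [r, D, Complex.mul_conj]
      · rw [dv_eq_zero_of_not_mem hM hmax hab hξ z.2 (hfree _), zero_mul]]
    rw [Finset.sum_const, Finset.sum_const, Finset.card_univ, ← Fintype.card_subtype,
      ← Nat.card_eq_fintype_card (α := {ξ // ξ ∈ B}), ← Nat.card_eq_fintype_card,
      show Nat.card {ξ // ξ ∈ B} = Nat.card P from hcard, nsmul_eq_mul]
  have hmem : χ ∈ Finset.univ.filter (· ∈ B) := Finset.mem_filter.2 ⟨Finset.mem_univ _, hχ⟩
  have heq := (Finset.sum_eq_sum_iff_of_le fun ξ hξ => (hge ξ (Finset.mem_filter.1 hξ).2).1).1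
    htot.symm χ hmem
  rw [Complex.mul_conj, show Complex.normSq (dv p M P e (χ : G → ℂ) u) = 1 from
    (hge χ hχ).2 heq.symm ⟨u, hu⟩, Complex.ofReal_one]

end Values

end Cfsg.Agent.Lib.FreeInertial
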