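import Mathlib

/-!
# Integer rows with Gram matrix `e + δ`
-/

set_option autoImplicit false
set_option maxHeartbeats 1000000

namespace Cfsg.Agent.Lib.FreeInertial

open Finset

variable {ι X : Type*} [Fintype ι] [Fintype X]

/-- A family of pairs meeting pairwise once has a common point or is a triangle. -/
theorem common_or_triangle {α β : Type*} [DecidableEq β] (A : Finset α) (S : α → Finset β)
    (h2 : ∀ i ∈ A, (S i).card = 2) (h1 : ∀ i ∈ A, ∀ j ∈ A, i ≠ j → (S i ∩ S j).card = 1)
    (hA : A.Nonempty) :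
    (∃ x, ∀ i ∈ A, x ∈ S i) ∨
      (A.card = 3 ∧ ∃ x y z, x ≠ y ∧ x ≠ z ∧ y ≠ z ∧ ∀ i ∈ A, S i ⊆ {x, y, z}) := by
  classical
  rw [or_iff_not_imp_left]
  intro hno
  push Not at hno
  obtain ⟨i, hi⟩ := hA
  obtain ⟨x, y, hxy, hSi⟩ := Finset.card_eq_two.1 (h2 i hi)
  obtain ⟨j, hj, hxj⟩ := hno x
  obtain ⟨k, hk, hyk⟩ := hno y
  have hij : i ≠ j := fun h => hxj (by rw [← h, hSi]; simp)
  have hik : i ≠ k := fun h => hyk (by rw [← h, hSi]; simp)
  have hone : ∀ a ∈ A, ∀ b ∈ A, a ≠ b → ∀ u v, u ∈ S a → u ∈ S b → v ∈ S a → v ∈ S b → u = v :=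
    fun a ha b hb hab u v hu hu' hv hv' =>
      Finset.card_le_one.1 (h1 a ha b hb hab).le u (mem_inter.2 ⟨hu, hu'⟩) v (mem_inter.2 ⟨hv, hv'⟩)
  have hmeet : ∀ a ∈ A, ∀ b ∈ A, a ≠ b → ∃ u, u ∈ S a ∧ u ∈ S b := by
    intro a ha b hb hab
    obtain ⟨u, hu⟩ := Finset.card_pos.1 (by rw [h1 a ha b hb hab]; norm_num : 0 < (S a ∩ S b).card)
    exact ⟨u, mem_inter.1 hu⟩
  have hyj : y ∈ S j := by
    obtain ⟨u, hu, hu'⟩ := hmeet i hi j hj hij
    rw [hSi, mem_insert, mem_singleton] at hu
    rcases hu with rfl | rfl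
    · exact absurd hu' hxj
    · exact hu'
  have hxk : x ∈ S k := by
    obtain ⟨u, hu, hu'⟩ := hmeet i hi k hk hik
    rw [hSi, mem_insert, mem_singleton] at hu
    rcases hu with rfl | rfl
    · exact hu'
    · exact absurd hu' hyk
  have hjk : j ≠ k := fun h => hyk (h ▸ hyj)
  obtain ⟨z, hzj, hzk⟩ := hmeet j hj k hk hjk
  have hzy : z ≠ y := fun h => hyk (h ▸ hzk)
  have hzx : z ≠ x := fun h => hxj (h ▸ hzj)
  have hSj : S j = {y, z} :=
    (Finset.eq_of_subset_of_card_le (by simp [insert_subset_iff, hyj, hzj])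
      (by rw [h2 j hj, card_pair hzy.symm])).symm
  have hSk : S k = {x, z} :=
    (Finset.eq_of_subset_of_card_le (by simp [insert_subset_iff, hxk, hzk])
      (by rw [h2 k hk, card_pair hzx.symm])).symm
  have hAeq : A = {i, j, k} := by
    refine Subset.antisymm (fun l hl => ?_) (by simp [insert_subset_iff, hi, hj, hk])
    by_contra hl'
    simp only [mem_insert, mem_singleton, not_or] at hl'
    obtain ⟨hli, hlj, hlk⟩ := hl'
    obtain ⟨u, hul, hui⟩ := hmeet l hl i hi hli
    obtain ⟨v, hvl, hvj⟩ := hmeet l hl j hj hlj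
    obtain ⟨w, hwl, hwk⟩ := hmeet l hl k hk hlk
    rw [hSi, mem_insert, mem_singleton] at hui
    rw [hSj, mem_insert, mem_singleton] at hvj
    rw [hSk, mem_insert, mem_singleton] at hwk
    -- two of the vertices lie in `S l`
    have hone' := hone l hl
    rcases hui with rfl | rfl
    · rcases hvj with rfl | rfl
      · exact hxy (hone' i hi hli _ _ hul (by simp [hSi]) hvl (by simp [hSi]))
      · exact hzx (hone' k hk hlk _ _ hvl (by simp [hSk]) hul (by simp [hSk]))
    · rcases hwk with rfl | rfl
      · exact hxy (hone' i hi hli _ _ hwl (by simp [hSi]) hul (by simp [hSi]))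
      · exact hzy (hone' j hj hlj _ _ hwl (by simp [hSj]) hul (by simp [hSj]))
  refine ⟨?_, x, y, z, hxy, hzx.symm, hzy.symm, fun l hl => ?_⟩
  · rw [hAeq]
    simp [hij, hik, hjk]
  · rw [hAeq, mem_insert, mem_insert, mem_singleton] at hl
    rcases hl with rfl | rfl | rfl <;> simp [hSi, hSj, hSk, insert_subset_iff]

theorem one_le_sq_add {a b c : ℤ} (h : a ≠ b) : 1 ≤ (a - c) ^ 2 + (b - c) ^ 2 := by
  by_contra hlt
  have h1 := sq_nonneg (a - c)
  have h2 := sq_nonneg (b - c)
  have ha : (a - c) ^ 2 = 0 := by omega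
  have hb : (b - c) ^ 2 = 0 := by omega
  rw [sq_eq_zero_iff] at ha hb
  omega

theorem sum_sum_sq_sub (Y : X → ℤ) :
    ∑ i, ∑ j, (Y i - Y j) ^ 2 = 2 * ((Fintype.card X : ℤ) * ∑ i, Y i ^ 2 - (∑ i, Y i) ^ 2) := by
  have h : ∀ i j, (Y i - Y j) ^ 2 = Y i ^ 2 - 2 * (Y i * Y j) + Y j ^ 2 := fun i j => by ring
  simp only [h, Finset.sum_add_distrib, Finset.sum_sub_distrib, ← Finset.mul_sum, ← Finset.sum_mul,
    Finset.sum_const, Finset.card_univ, nsmul_eq_mul]
  ring

/-- The spread of a non-constant integer row. -/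
theorem spread_le (Y : X → ℤ) {a b : X} (h : Y a ≠ Y b) :
    (Fintype.card X : ℤ) - 1 ≤ (Fintype.card X : ℤ) * ∑ i, Y i ^ 2 - (∑ i, Y i) ^ 2 := by
  classical
  have hab : a ≠ b := fun h' => h (h' ▸ rfl)
  have h1 : (Fintype.card X : ℤ) ≤ ∑ i ∈ ({a, b} : Finset X), ∑ j, (Y i - Y j) ^ 2 := by
    rw [sum_pair hab, ← Finset.sum_add_distrib]
    calc (Fintype.card X : ℤ) = ∑ _j : X, (1 : ℤ) := by simp
      _ ≤ _ := Finset.sum_le_sum fun j _ => one_le_sq_add h
  have h2 : (Fintype.card X : ℤ) - 2 ≤
      ∑ i ∈ univ \ ({a, b} : Finset X), ∑ j, (Y i - Y j) ^ 2 := by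
    calc (Fintype.card X : ℤ) - 2 = ∑ _i ∈ univ \ ({a, b} : Finset X), (1 : ℤ) := by
          have := Finset.card_sdiff_add_card_eq_card (Finset.subset_univ ({a, b} : Finset X))
          rw [card_pair hab, Finset.card_univ] at this
          simp only [Finset.sum_const, nsmul_eq_mul, mul_one]
          omega
      _ ≤ _ := Finset.sum_le_sum fun i _ => by
        refine le_trans ?_ (Finset.sum_le_sum_of_subset_of_nonneg
          (Finset.subset_univ ({a, b} : Finset X)) fun j _ _ => sq_nonneg _)
        rw [sum_pair hab, sub_sq_comm (Y i) (Y a), sub_sq_comm (Y i) (Y b)]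
        exact one_le_sq_add h
  have h3 := Finset.sum_sdiff (Finset.subset_univ ({a, b} : Finset X))
    (f := fun i => ∑ j, (Y i - Y j) ^ 2)
  rw [sum_sum_sq_sub] at h3
  omega

/-- Rows with Gram matrix `e + δ`. -/
theorem gram_rows (e : ℕ) (he : 0 < e) (Y : ι → X → ℤ) [DecidableEq X]
    (hne : ∀ r, ∃ i, Y r i ≠ 0)
    (hgram : ∀ i j, ∑ r, Y r i * Y r j = (e : ℤ) + if i = j then 1 else 0)
    (hlt : Fintype.card X < Fintype.card ι) :
    Fintype.card ι ≤ e + Fintype.card X ∧
      (e ≤ 3 → Fintype.card ι < e + Fintype.card X →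
        e * Fintype.card X + 1 = 7 ∨ e * Fintype.card X + 1 = 10 ∨
          e * Fintype.card X + 1 = 13) := by
  classical
  set m := Fintype.card X with hm
  set k := Fintype.card ι with hk
  obtain ⟨r0⟩ : Nonempty ι := Fintype.card_pos_iff.1 (by omega)
  obtain ⟨a, -⟩ := hne r0
  have hm1 : 1 ≤ m := Fintype.card_pos_iff.2 ⟨a⟩
  have he' : (1 : ℤ) ≤ e := by exact_mod_cast he
  -- the weights
  let W : ι → ℤ := fun r => ((e : ℤ) * m + 1) * ∑ i, Y r i ^ 2 - e * (∑ i, Y r i) ^ 2
  have hWsum : ∑ r, W r = ((e : ℤ) * m + 1) * m := by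
    have h1 : ∑ r, ∑ i, Y r i ^ 2 = (m : ℤ) * (e + 1) := by
      rw [Finset.sum_comm, Finset.sum_congr rfl fun i _ => show ∑ r, Y r i ^ 2 = (e : ℤ) + 1 by
        rw [Finset.sum_congr rfl fun r _ => sq (Y r i), hgram, if_pos rfl]]
      simp [hm]
    have h2 : ∑ r, (∑ i, Y r i) ^ 2 = (m : ℤ) * (m * e + 1) := by
      simp only [sq, Finset.sum_mul_sum]
      rw [Finset.sum_comm, Finset.sum_congr rfl fun i _ => Finset.sum_comm]
      simp [hgram, Finset.sum_add_distrib, hm]
    simp only [W, Finset.sum_sub_distrib, ← Finset.mul_sum, h1, h2]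
    ring
  have hsq1 : ∀ r, 1 ≤ ∑ i, Y r i ^ 2 := fun r => by
    obtain ⟨i, hi⟩ := hne r
    refine le_trans ?_ (Finset.single_le_sum (fun j _ => sq_nonneg (Y r j)) (Finset.mem_univ i))
    have := mul_self_pos.2 hi
    rw [sq]
    omega
  set N := univ.filter fun r => ∃ i, Y r i ≠ Y r a with hN
  have hWN : ∀ r ∈ N, (e : ℤ) * m + 1 - e ≤ W r := by
    intro r hr
    obtain ⟨i, hi⟩ := (mem_filter.1 hr).2
    have h := spread_le (Y r) hi
    have h1 := hsq1 r
    simp only [W]
    rw [← hm] at h
    nlinarith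
  have hWC : ∀ r ∈ univ \ N, (m : ℤ) ≤ W r := by
    intro r hr
    simp only [hN, mem_sdiff, mem_univ, mem_filter, true_and, not_exists, not_not] at hr
    have h0 : Y r a ≠ 0 := by
      obtain ⟨i, hi⟩ := hne r
      rwa [hr i] at hi
    simp only [W, hr, Finset.sum_const, Finset.card_univ, nsmul_eq_mul, ← hm]
    have : (1 : ℤ) ≤ Y r a ^ 2 := by
      have := mul_self_pos.2 h0
      rw [sq]
      omega
    nlinarith
  have hsplit : ∑ r ∈ N, W r + ((k : ℤ) - N.card) * m ≤ ((e : ℤ) * m + 1) * m := by
    rw [← hWsum, ← Finset.sum_sdiff (Finset.subset_univ N), add_comm (∑ r ∈ univ \ N, W r)]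
    refine add_le_add_right ?_ _
    calc ((k : ℤ) - N.card) * m = ∑ _r ∈ univ \ N, (m : ℤ) := by
          have := Finset.card_sdiff_add_card_eq_card (Finset.subset_univ N)
          rw [Finset.card_univ, ← hk] at this
          rw [Finset.sum_const, nsmul_eq_mul]
          congr 1
          omega
      _ ≤ _ := Finset.sum_le_sum hWC
  by_cases hm2 : m = 1
  · -- a single column
    have huniq : ∀ i : X, i = a := fun i =>
      Fintype.card_le_one_iff.1 (by omega) i a
    have hz : ∀ r, Y r a ≠ 0 := fun r => by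
      obtain ⟨i, hi⟩ := hne r
      rwa [huniq i] at hi
    have hsum : ∑ r, Y r a ^ 2 = (e : ℤ) + 1 := by
      rw [Finset.sum_congr rfl fun r _ => sq (Y r a), hgram, if_pos rfl]
    have h1 : ∀ r, (1 : ℤ) ≤ Y r a ^ 2 := fun r => by
      have := mul_self_pos.2 (hz r)
      rw [sq]
      omega
    refine ⟨?_, fun he3 hke => ?_⟩
    · have : (k : ℤ) ≤ (e : ℤ) + 1 := by
        rw [← hsum]
        calc (k : ℤ) = ∑ _r : ι, (1 : ℤ) := by simp [hk]
          _ ≤ _ := Finset.sum_le_sum fun r _ => h1 r
      omega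
    · exfalso
      have hex : ∃ r, 1 < Y r a ^ 2 := by
        by_contra hall
        push Not at hall
        rw [Finset.sum_congr rfl fun r _ => le_antisymm (hall r) (h1 r)] at hsum
        simp [← hk] at hsum
        omega
      obtain ⟨r, hr⟩ := hex
      have hr2 : 4 ≤ Y r a ^ 2 := by
        by_contra hlt'
        have : Y r a ≤ 1 ∧ -1 ≤ Y r a := ⟨by nlinarith, by nlinarith⟩
        rcases (show Y r a = 1 ∨ Y r a = 0 ∨ Y r a = -1 by omega) with h | h | h <;>
          rw [h] at hr <;> norm_num at hr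
      have := Finset.add_sum_erase univ (fun r => Y r a ^ 2) (Finset.mem_univ r)
      have hrest : (k : ℤ) - 1 ≤ ∑ x ∈ univ.erase r, Y x a ^ 2 := by
        calc (k : ℤ) - 1 = ∑ _x ∈ univ.erase r, (1 : ℤ) := by
              simp [Finset.card_erase_of_mem, ← hk]
              omega
          _ ≤ _ := Finset.sum_le_sum fun x _ => h1 x
      omega
  -- differences against the column `a`
  let S : X → Finset ι := fun i => univ.filter fun r => Y r i ≠ Y r a
  have hdot : ∀ i j, i ≠ a → j ≠ a →
      ∑ r, (Y r i - Y r a) * (Y r j - Y r a) = if i = j then 2 else 1 := by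
    intro i j hi hj
    simp only [sub_mul, mul_sub, Finset.sum_sub_distrib, hgram, if_neg hi, if_neg (Ne.symm hj),
      if_true]
    split_ifs <;> ring
  have hunit : ∀ i, i ≠ a → ∀ r ∈ S i, Y r i - Y r a = 1 ∨ Y r i - Y r a = -1 := by
    intro i hi r hr
    have h := hdot i i hi hi
    rw [if_pos rfl] at h
    have h1 := Finset.single_le_sum (fun x _ => mul_self_nonneg (Y x i - Y x a)) (Finset.mem_univ r)
    rw [h] at h1
    have hne' : Y r i - Y r a ≠ 0 := sub_ne_zero.2 (mem_filter.1 hr).2
    have : Y r i - Y r a ≤ 1 ∧ -1 ≤ Y r i - Y r a := ⟨by nlinarith, by nlinarith⟩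
    omega
  have hsupp : ∀ i j, ∑ r ∈ S i ∩ S j, (Y r i - Y r a) * (Y r j - Y r a) =
      ∑ r, (Y r i - Y r a) * (Y r j - Y r a) := by
    intro i j
    refine Finset.sum_subset (Finset.subset_univ _) fun r _ hr => ?_
    simp only [S, mem_inter, mem_filter, mem_univ, true_and, not_and_or, not_not] at hr
    rcases hr with h | h <;> rw [h] <;> ring
  have h2 : ∀ i ∈ univ.erase a, (S i).card = 2 := by
    intro i hi
    have hi' := (mem_erase.1 hi).1
    have h := (hsupp i i).trans (hdot i i hi' hi')
    rw [if_pos rfl, inter_self, Finset.sum_congr rfl fun r hr => show _ = (1 : ℤ) by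
      rcases hunit i hi' r hr with h | h <;> rw [h] <;> norm_num] at h
    simp at h
    exact_mod_cast h
  have hinter : ∀ i ∈ univ.erase a, ∀ j ∈ univ.erase a, i ≠ j → ∃ r, S i ∩ S j = {r} ∧
      Y r i - Y r a = Y r j - Y r a := by
    intro i hi j hj hij
    have hi' := (mem_erase.1 hi).1
    have hj' := (mem_erase.1 hj).1
    have h := (hsupp i j).trans (hdot i j hi' hj')
    rw [if_neg hij] at h
    have hle : (S i ∩ S j).card ≤ 2 := (card_le_card inter_subset_left).trans (h2 i hi).le
    rcases (show (S i ∩ S j).card = 0 ∨ (S i ∩ S j).card = 1 ∨ (S i ∩ S j).card = 2 by omega)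
      with h0 | h0 | h0
    · rw [card_eq_zero.1 h0] at h
      simp at h
    · obtain ⟨r, hr⟩ := card_eq_one.1 h0
      refine ⟨r, hr, ?_⟩
      rw [hr, sum_singleton] at h
      have hm' : r ∈ S i ∩ S j := by rw [hr]; simp
      rcases hunit i hi' r (mem_inter.1 hm').1 with h1 | h1 <;>
        rcases hunit j hj' r (mem_inter.1 hm').2 with h3 | h3 <;> rw [h1, h3] at h ⊢ <;>
        norm_num at h
    · obtain ⟨r, s, hrs, hrse⟩ := card_eq_two.1 h0
      rw [hrse, sum_pair hrs] at h
      have hr' : r ∈ S i ∩ S j := by rw [hrse]; simp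
      have hs' : s ∈ S i ∩ S j := by rw [hrse]; simp
      rcases hunit i hi' r (mem_inter.1 hr').1 with a1 | a1 <;>
        rcases hunit j hj' r (mem_inter.1 hr').2 with a2 | a2 <;>
        rcases hunit i hi' s (mem_inter.1 hs').1 with a3 | a3 <;>
        rcases hunit j hj' s (mem_inter.1 hs').2 with a4 | a4 <;>
        rw [a1, a2, a3, a4] at h <;> norm_num at h
  have h1' : ∀ i ∈ univ.erase a, ∀ j ∈ univ.erase a, i ≠ j → (S i ∩ S j).card = 1 := by
    intro i hi j hj hij
    obtain ⟨r, hr, -⟩ := hinter i hi j hj hij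
    rw [hr, card_singleton]
  have hA : (univ.erase a).Nonempty := card_pos.1 (by
    rw [card_erase_of_mem (mem_univ a), Finset.card_univ]; omega)
  rcases common_or_triangle _ S h2 h1' hA with ⟨x, hx⟩ | ⟨hA3, x, y, z, hxy, hxz, hyz, hsub⟩
  · -- a star
    have hother : ∀ i : X, ∃ r, i ≠ a → S i = {x, r} ∧ x ≠ r := by
      intro i
      by_cases hi : i = a
      · exact ⟨x, fun h => absurd hi h⟩
      · obtain ⟨r, s, hrs, he2⟩ := card_eq_two.1 (h2 i (by simp [hi]))
        have := hx i (by simp [hi])
        rw [he2, mem_insert, mem_singleton] at this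
        rcases this with rfl | rfl
        · exact ⟨s, fun _ => ⟨he2, hrs⟩⟩
        · exact ⟨r, fun _ => ⟨by rw [he2, pair_comm], hrs.symm⟩⟩
    choose o ho using hother
    let ρ : X → ι := fun i => if i = a then x else o i
    have hρinj : Function.Injective ρ := by
      intro i j hij
      simp only [ρ] at hij
      split_ifs at hij with hi hj hj
      · rw [hi, hj]
      · exact absurd hij (ho j hj).2
      · exact absurd hij.symm (ho i hi).2
      · by_contra hne'
        obtain ⟨r, hr, -⟩ := hinter i (by simp [hi]) j (by simp [hj]) hne'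
        have h1 : x ∈ S i ∩ S j := mem_inter.2 ⟨hx i (by simp [hi]), hx j (by simp [hj])⟩
        have h2 : o i ∈ S i ∩ S j := mem_inter.2
          ⟨by rw [(ho i hi).1]; simp, by rw [(ho j hj).1, hij]; simp⟩
        rw [hr, mem_singleton] at h1 h2
        exact (ho i hi).2 (h1.trans h2.symm)
    have hNρ : N = univ.image ρ := by
      ext r
      simp only [hN, mem_filter, mem_univ, true_and, mem_image]
      constructor
      · rintro ⟨i, hi⟩
        have hia : i ≠ a := fun h => hi (h ▸ rfl)
        have hr : r ∈ S i := by simp [S, hi]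
        rw [(ho i hia).1, mem_insert, mem_singleton] at hr
        rcases hr with rfl | rfl
        · exact ⟨a, by simp [ρ]⟩
        · exact ⟨i, by simp [ρ, hia]⟩
      · rintro ⟨i, rfl⟩
        by_cases hi : i = a
        · obtain ⟨j, hj⟩ := hA
          exact ⟨j, by simpa [ρ, hi, S] using hx j hj⟩
        · have hmem : o i ∈ S i := by rw [(ho i hi).1]; simp
          exact ⟨i, by simpa [ρ, hi, S] using hmem⟩
    have hNcard : N.card = m := by
      rw [hNρ, card_image_of_injective _ hρinj, Finset.card_univ]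
    have hmain : k ≤ e + m := by
      have h1 : (N.card : ℤ) * ((e : ℤ) * m + 1 - e) ≤ ∑ r ∈ N, W r := by
        rw [← nsmul_eq_mul]
        exact Finset.card_nsmul_le_sum _ _ _ hWN
      rw [hNcard] at h1 hsplit
      have : ((k : ℤ) - m) * m ≤ (e : ℤ) * m := by nlinarith
      have := le_of_mul_le_mul_right this (by exact_mod_cast hm1)
      omega
    refine ⟨hmain, fun he3 hke => ?_⟩
    -- the shape of the rows
    obtain ⟨i0, hi0⟩ := hA
    have hsame : ∀ i, i ≠ a → Y x i - Y x a = Y x i0 - Y x a := by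
      intro i hi
      by_cases h : i = i0
      · rw [h]
      · obtain ⟨r, hr, hre⟩ := hinter i (by simp [hi]) i0 hi0 h
        have : x ∈ S i ∩ S i0 := mem_inter.2 ⟨hx i (by simp [hi]), hx i0 hi0⟩
        rw [hr, mem_singleton] at this
        rwa [this]
    let c : ι → ℤ := fun r => if r = x then Y x i0 else Y r a
    let s : X → ℤ := fun i => if i = a then Y x a - Y x i0 else Y (o i) i - Y (o i) a
    have hs : ∀ i, s i * s i = 1 := by
      intro i
      simp only [s]
      split_ifs with hi
      · rcases hunit i0 (mem_erase.1 hi0).1 x (hx i0 hi0) with h | h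
        · rw [show Y x a - Y x i0 = -1 by omega]; norm_num
        · rw [show Y x a - Y x i0 = 1 by omega]; norm_num
      · rcases hunit i hi (o i) (by rw [(ho i hi).1]; simp) with h | h <;> rw [h] <;> norm_num
    have hY : ∀ r i, Y r i = c r + if r = ρ i then s i else 0 := by
      intro r i
      by_cases hi : i = a
      · subst hi
        by_cases hr : r = x
        · simp [c, s, ρ, hr]
        · simp [c, s, ρ, hr]
      · by_cases hr : r = x
        · subst hr
          simp only [c, s, ρ, if_true, if_neg hi, if_neg (ho i hi).2, add_zero]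
          have := hsame i hi
          omega
        · by_cases hr' : r = o i
          · subst hr'
            simp [c, s, ρ, hi, hr]
          · have : r ∉ S i := by
              rw [(ho i hi).1]
              simp [hr, hr']
            simp only [S, mem_filter, mem_univ, true_and, not_not] at this
            simp [c, s, ρ, hi, hr, hr', this]
    set C := ∑ r, c r * c r with hC
    have hexp : ∀ i j, (e : ℤ) + (if i = j then 1 else 0) =
        C + c (ρ j) * s j + c (ρ i) * s i + if i = j then 1 else 0 := by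
      intro i j
      rw [← hgram, Finset.sum_congr rfl fun r _ => show Y r i * Y r j = c r * c r +
        (if r = ρ j then c r * s j else 0) + (if r = ρ i then c r * s i else 0) +
        (if r = ρ i then (if r = ρ j then s i * s j else 0) else 0) by
          rw [hY r i, hY r j]; split_ifs <;> ring]
      simp only [Finset.sum_add_distrib, Finset.sum_ite_eq', mem_univ, if_true, ← hC,
        hρinj.eq_iff]
      congr 1
      split_ifs with h
      · rw [h, hs]
      · rfl
    have hz : ∀ i, c (ρ i) * s i = c (ρ a) * s a := by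
      intro i
      by_cases hi : i = a
      · rw [hi]
      · have h1 := hexp i i
        have h2 := hexp i a
        rw [if_pos rfl] at h1
        rw [if_neg hi] at h2
        omega
    set z := c (ρ a) * s a with hzdef
    set R := ∑ r ∈ univ \ N, c r * c r with hR
    have hCeq : C = R + m * (z * z) := by
      rw [hC, ← Finset.sum_sdiff (Finset.subset_univ N), ← hR, add_right_inj, hNρ,
        Finset.sum_image hρinj.injOn, Finset.sum_congr rfl fun i _ => show c (ρ i) * c (ρ i) =
          z * z by rw [← hz i]; linear_combination (-(c (ρ i) * c (ρ i))) * hs i]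
      simp [hm]
    have hkey : R + m * (z * z) + 2 * z = e := by
      have h1 := hexp a a
      rw [if_pos rfl, ← hzdef, hCeq] at h1
      omega
    have hcard : (univ \ N).card = k - m := by
      rw [Finset.card_sdiff_of_subset (Finset.subset_univ N), Finset.card_univ, hNcard]
    have hc0 : ∀ r ∈ univ \ N, c r ≠ 0 := by
      intro r hr h0
      have hr' : ∀ i, r ≠ ρ i := fun i h => (mem_sdiff.1 hr).2 (by rw [hNρ, h]; simp)
      obtain ⟨i, hi⟩ := hne r
      rw [hY r i, if_neg (hr' i), h0] at hi
      exact hi (by norm_num)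
    have hc1 : ∀ r ∈ univ \ N, (1 : ℤ) ≤ c r * c r := fun r hr => by
      have := mul_self_pos.2 (hc0 r hr)
      omega
    have hRge : ((k : ℤ) - m) ≤ R := by
      have := Finset.card_nsmul_le_sum _ _ _ hc1
      rw [hcard, nsmul_eq_mul, mul_one, Nat.cast_sub (by omega)] at this
      exact this
    have hz1 : z = 0 ∨ z = -1 := by
      have h3 : (2 : ℤ) * (z * z) ≤ m * (z * z) :=
        mul_le_mul_of_nonneg_right (by omega) (mul_self_nonneg z)
      have : z ≤ 1 ∧ -1 ≤ z := ⟨by nlinarith, by nlinarith⟩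
      rcases (show z = 1 ∨ z = 0 ∨ z = -1 by omega) with h | h | h
      · rw [h] at hkey; omega
      · exact Or.inl h
      · exact Or.inr h
    have hl : k - m = 1 ∨ k - m = 2 := by omega
    have hRshape : (k - m = 1 ∧ (R = 1 ∨ R = 4 ∨ 4 < R)) ∨
        (k - m = 2 ∧ (R = 2 ∨ R = 5 ∨ 4 < R)) := by
      have hsq : ∀ r ∈ univ \ N, c r * c r = 1 ∨ c r * c r = 4 ∨ 9 ≤ c r * c r := by
        intro r hr
        have h0 := hc0 r hr
        by_cases h : c r ≤ 2 ∧ -2 ≤ c r
        · rcases (show c r = 1 ∨ c r = -1 ∨ c r = 2 ∨ c r = -2 by omega) with h' | h' | h' | h' <;>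
            rw [h'] <;> norm_num
        · right; right
          rcases not_and_or.1 h with h' | h' <;> nlinarith
      rcases hl with hl | hl
      · obtain ⟨r, hr⟩ := card_eq_one.1 (hcard.trans hl)
        refine Or.inl ⟨hl, ?_⟩
        rw [hR, hr, sum_singleton]
        rcases hsq r (by rw [hr]; simp) with h | h | h <;> omega
      · obtain ⟨r, t, hrt, hr⟩ := card_eq_two.1 (hcard.trans hl)
        refine Or.inr ⟨hl, ?_⟩
        rw [hR, hr, sum_pair hrt]
        rcases hsq r (by rw [hr]; simp) with h | h | h <;>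
          rcases hsq t (by rw [hr]; simp) with h' | h' | h' <;> omega
    rcases hz1 with h | h <;> rw [h] at hkey
    · exfalso
      rcases hRshape with ⟨hl, hR'⟩ | ⟨hl, hR'⟩ <;> omega
    · have hm4 : m = 2 ∨ m = 3 ∨ m = 4 := by omega
      rcases hRshape with ⟨hl, hR'⟩ | ⟨hl, hR'⟩ <;>
      rcases (show e = 2 ∨ e = 3 by omega) with h' | h' <;> rcases hm4 with h'' | h'' | h'' <;>
        rw [h', h''] at hkey ⊢ <;> norm_num at hkey ⊢ <;> omega
  · -- a triangle
    have hm4 : m = 4 := by
      rw [card_erase_of_mem (mem_univ a), Finset.card_univ] at hA3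
      omega
    have hNsub : N ⊆ {x, y, z} := by
      intro r hr
      obtain ⟨i, hi⟩ := (mem_filter.1 hr).2
      exact hsub i (by simp; rintro rfl; exact hi rfl) (by simp [S, hi])
    have hcount : ∀ r ∈ ({x, y, z} : Finset ι),
        ((univ.erase a).filter fun i => r ∈ S i).card = 2 := by
      have hle : ∀ r ∈ ({x, y, z} : Finset ι),
          ((univ.erase a).filter fun i => r ∈ S i).card ≤ 2 := by
        intro r hr
        by_contra hgt
        have hall : (univ.erase a).filter (fun i => r ∈ S i) = univ.erase a :=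
          Finset.eq_of_subset_of_card_le (filter_subset _ _) (by omega)
        -- three pairs through `r` in a set of three points
        obtain ⟨s, hs⟩ : ∃ f : X → ι, ∀ i ∈ univ.erase a, S i = {r, f i} ∧ r ≠ f i := by
          refine ⟨fun i => if h : ((S i).erase r).Nonempty then h.choose else r, fun i hi => ?_⟩
          have hr' : r ∈ S i := (mem_filter.1 (show i ∈ (univ.erase a).filter (fun i => r ∈ S i) by
            rw [hall]; exact hi)).2
          have hc : ((S i).erase r).card = 1 := by rw [card_erase_of_mem hr', h2 i hi]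
          obtain ⟨t, ht⟩ := card_eq_one.1 hc
          have hne' : ((S i).erase r).Nonempty := ⟨t, by rw [ht]; simp⟩
          simp only [hne', ↓reduceDIte]
          have hmem := hne'.choose_spec
          refine ⟨?_, (mem_erase.1 hmem).1.symm⟩
          rw [show hne'.choose = t from mem_singleton.1 ((Finset.ext_iff.1 ht _).1 hmem), ← ht,
            Finset.insert_erase hr']
        have hinj : Set.InjOn s (univ.erase a : Finset X) := by
          intro i hi j hj hij
          by_contra hne'
          have := h1' i hi j hj hne'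
          rw [(hs i hi).1, (hs j hj).1, hij, inter_self, card_pair (hs j hj).2] at this
          omega
        have hsub' : (univ.erase a).image s ⊆ ({x, y, z} : Finset ι).erase r := by
          intro t ht
          obtain ⟨i, hi, rfl⟩ := mem_image.1 ht
          exact mem_erase.2 ⟨(hs i hi).2.symm, hsub i hi (by rw [(hs i hi).1]; simp)⟩
        have := card_le_card hsub'
        rw [card_image_of_injOn hinj, hA3, card_erase_of_mem hr] at this
        have := Finset.card_le_three (a := x) (b := y) (c := z)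
        omega
      have htot : ∑ r ∈ ({x, y, z} : Finset ι), ((univ.erase a).filter fun i => r ∈ S i).card =
          6 := by
        simp only [Finset.card_filter]
        rw [Finset.sum_comm, Finset.sum_congr rfl fun i hi => show
          (∑ r ∈ ({x, y, z} : Finset ι), if r ∈ S i then 1 else 0) = 2 by
            rw [← Finset.card_filter, filter_mem_eq_inter, inter_eq_right.2 (hsub i hi), h2 i hi]]
        simp [hA3]
      intro r hr
      refine le_antisymm (hle r hr) ?_
      by_contra hlt'
      have := Finset.sum_lt_sum (s := ({x, y, z} : Finset ι)) hle ⟨r, hr, not_le.1 hlt'⟩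
      rw [htot] at this
      simp [hxy, hxz, hyz] at this
    have hW : ∀ r ∈ ({x, y, z} : Finset ι), (e : ℤ) * m + 2 ≤ W r := by
      intro r hr
      obtain ⟨i, j, hij, hf⟩ := card_eq_two.1 (hcount r hr)
      have hi : i ∈ (univ.erase a).filter fun i => r ∈ S i := by rw [hf]; simp
      have hj : j ∈ (univ.erase a).filter fun i => r ∈ S i := by rw [hf]; simp
      simp only [mem_filter, mem_erase, mem_univ, and_true] at hi hj
      obtain ⟨l, hl⟩ : ((univ.erase a) \ {i, j}).Nonempty := card_pos.1 (by
        rw [card_sdiff_of_subset (by simp [insert_subset_iff, hi.1, hj.1]), hA3, card_pair hij]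
        norm_num)
      simp only [mem_sdiff, mem_erase, mem_univ, and_true, mem_insert, mem_singleton,
        not_or] at hl
      have hla : Y r l = Y r a := by
        by_contra h
        have hmem : l ∈ (univ.erase a).filter fun i => r ∈ S i := by simp [hl.1, S, h]
        rw [hf] at hmem
        simp [hl.2.1, hl.2.2] at hmem
      have huniv : (univ : Finset X) = {a, l, i, j} := by
        refine (Finset.eq_univ_of_card _ ?_).symm
        rw [← hm, hm4, card_insert_of_notMem (by simp [Ne.symm hl.1, hi.1.symm, hj.1.symm]),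
          card_insert_of_notMem (by simp [hl.2.1, hl.2.2]), card_pair hij]
      have hsum : ∀ f : X → ℤ, ∑ t, f t = f a + f l + f i + f j := by
        intro f
        rw [huniv, sum_insert (by simp [Ne.symm hl.1, hi.1.symm, hj.1.symm]),
          sum_insert (by simp [hl.2.1, hl.2.2]), sum_pair hij]
        ring
      simp only [W, hsum, hla, hm4]
      have hp : 0 ≤ Y r a * (Y r a + 1) := by
        rcases le_or_gt 0 (Y r a) with h | h
        · exact mul_nonneg h (by omega)
        · exact mul_nonneg_of_nonpos_of_nonpos h.le (by omega)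
      have hq : 0 ≤ Y r a * (Y r a - 1) := by
        rcases le_or_gt (Y r a) 0 with h | h
        · exact mul_nonneg_of_nonpos_of_nonpos h (by omega)
        · exact mul_nonneg h.le (by omega)
      obtain ⟨u, hu⟩ : ∃ u, Y r i = Y r a + u := ⟨Y r i - Y r a, by ring⟩
      obtain ⟨v, hv⟩ : ∃ v, Y r j = Y r a + v := ⟨Y r j - Y r a, by ring⟩
      have hu1 := hunit i hi.1 r hi.2
      have hv1 := hunit j hj.1 r hj.2
      rw [hu, add_sub_cancel_left] at hu1
      rw [hv, add_sub_cancel_left] at hv1
      rw [hu, hv]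
      push_cast
      rcases hu1 with rfl | rfl <;> rcases hv1 with rfl | rfl <;>
        nlinarith only [he', hp, hq, sq_nonneg (Y r a)]
    have hNeq : N = {x, y, z} := Subset.antisymm hNsub fun r hr => by
      obtain ⟨i, hi⟩ := card_pos.1 (by rw [hcount r hr]; norm_num :
        0 < ((univ.erase a).filter fun i => r ∈ S i).card)
      exact mem_filter.2 ⟨mem_univ _, i, (mem_filter.1 (mem_filter.1 hi).2).2⟩
    have hNcard : N.card = 3 := by rw [hNeq]; simp [hxy, hxz, hyz]
    have hNW : 3 * ((e : ℤ) * m + 2) ≤ ∑ r ∈ N, W r := by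
      have := Finset.card_nsmul_le_sum N W _ (fun r hr => hW r (hNeq ▸ hr))
      rw [hNcard, nsmul_eq_mul] at this
      exact_mod_cast this
    rw [hNcard, hm4] at hsplit
    rw [hm4] at hNW
    push_cast at hsplit hNW
    have : k + 2 ≤ e + 4 + 1 := by omega
    refine ⟨by omega, fun he3 hke => ?_⟩
    rw [hm4]
    omega

end Cfsg.Agent.Lib.FreeInertial
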