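import Cfsg.Agent.Lib.FreeInertial.Main
import Cfsg.Agent.Lib.Block.Homocyclic

/-!
# Odd automorphisms of homocyclic 2-groups of rank two
-/

set_option autoImplicit false
set_option linter.unusedSectionVars false
set_option linter.style.haveILetI false

namespace Cfsg.Agent.Lib.FreeInertial

universe u

variable {A : Type u} [CommGroup A] [Finite A]

theorem eq_one_of_fix_involutions (hA : IsPGroup 2 A) {α : MulAut A} {r : ℕ} (hr : Odd r)
    (hαr : α ^ r = 1) (hfix : ∀ x : A, orderOf x = 2 → α x = x) : α = 1 := by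
  haveI : Fact (Nat.Prime 2) := ⟨Nat.prime_two⟩
  have key : ∀ k : ℕ, ∀ x : A, x ^ 2 ^ k = 1 → α x = x := by
    intro k
    induction k with
    | zero => intro x hx; rw [pow_zero, pow_one] at hx; rw [hx, map_one]
    | succ k ih =>
      intro x hxk
      have hsq : α (x ^ 2) = x ^ 2 := ih _ (by rw [← pow_mul, ← pow_succ', hxk])
      set d := α x * x⁻¹ with hd
      have hd2 : d ^ 2 = 1 := by
        rw [hd, mul_pow, ← map_pow, hsq, inv_pow, mul_inv_cancel]
      have hdfix : α d = d := by
        by_cases h1 : d = 1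
        · rw [h1, map_one]
        · exact hfix d (orderOf_eq_prime hd2 h1)
      have hit : ∀ j : ℕ, (α ^ j) x = d ^ j * x := by
        intro j
        induction j with
        | zero => simp
        | succ j ihj =>
          rw [pow_succ', MulAut.mul_apply, ihj, map_mul, map_pow, hdfix, pow_succ, mul_assoc, hd,
            inv_mul_cancel_right]
      have h1 := hit r
      rw [hαr, MulAut.one_apply, eq_comm, mul_eq_right] at h1
      obtain ⟨s, rfl⟩ := hr
      rw [pow_succ, pow_mul, hd2, one_pow, one_mul, hd, mul_inv_eq_one] at h1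
      exact h1
  refine MulEquiv.ext fun x => ?_
  obtain ⟨k, hk⟩ := hA x
  exact key k x hk

/-- Odd groups of automorphisms have order `1` or `3` and act freely. -/
theorem free_of_three (hA : IsPGroup 2 A) {a b c : A} (hab : a ≠ b) (hac : a ≠ c) (hbc : b ≠ c)
    (ha : orderOf a = 2) (hb : orderOf b = 2) (hc : orderOf c = 2)
    (hall : ∀ x : A, orderOf x = 2 → x = a ∨ x = b ∨ x = c) (E : Subgroup (MulAut A))
    (hodd : Odd (Nat.card E)) :
    (Nat.card E = 1 ∨ Nat.card E = 3) ∧ ∀ α ∈ E, ∀ x : A, x ≠ 1 → α x = x → α = 1 := by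
  classical
  haveI : Fact (Nat.Prime 2) := ⟨Nat.prime_two⟩
  have hord : ∀ (α : MulAut A) (x : A), orderOf (α x) = 2 ↔ orderOf x = 2 := fun α x => by
    rw [α.orderOf_eq]
  let ρ : E →* Equiv.Perm {x : A // orderOf x = 2} :=
    { toFun := fun α => ((α : MulAut A).toEquiv).subtypeEquiv fun x => (hord _ x).symm
      map_one' := Equiv.ext fun x => rfl
      map_mul' := fun _ _ => Equiv.ext fun x => rfl }
  have hcard3 : Nat.card {x : A // orderOf x = 2} = 3 := by
    haveI := Fintype.ofFinite A
    rw [Nat.card_eq_fintype_card, Fintype.card_subtype,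
      show Finset.univ.filter (fun x : A => orderOf x = 2) = {a, b, c} from by
        ext x
        simp only [Finset.mem_filter, Finset.mem_univ, true_and, Finset.mem_insert,
          Finset.mem_singleton]
        exact ⟨hall x, fun h => by rcases h with rfl | rfl | rfl <;> assumption⟩]
    simp [hab, hac, hbc]
  have hpow : ∀ α ∈ E, α ^ Nat.card E = 1 := fun α hα =>
    congrArg Subtype.val (pow_card_eq_one' (G := E) (x := ⟨α, hα⟩))
  have hinj : Function.Injective ρ := by
    rw [injective_iff_map_eq_one]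
    rintro ⟨α, hα⟩ h
    exact Subtype.ext (eq_one_of_fix_involutions hA hodd (hpow α hα) fun x hx =>
      congrArg Subtype.val (Equiv.congr_fun h ⟨x, hx⟩))
  have h6 : Nat.card E ∣ 6 := by
    refine (Subgroup.card_dvd_of_injective ρ hinj).trans ?_
    rw [Nat.card_perm, hcard3]
    rfl
  have h13 : Nat.card E = 1 ∨ Nat.card E = 3 := by
    obtain ⟨k, hk⟩ := hodd
    have hle := Nat.le_of_dvd (by norm_num) h6
    interval_cases h : Nat.card E <;> omega
  refine ⟨h13, fun α hα x hx hfx => ?_⟩
  rcases h13 with h1 | h3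
  · have := hpow α hα
    rwa [h1, pow_one] at this
  obtain ⟨k, hk⟩ := hA.exists_orderOf_eq_pow x
  obtain ⟨j, rfl⟩ : ∃ j, k = j + 1 :=
    ⟨k - 1, (Nat.succ_pred_eq_of_pos (Nat.pos_of_ne_zero fun h0 =>
      hx (orderOf_eq_one_iff.1 (by rw [hk, h0, pow_zero])))).symm⟩
  set z := x ^ 2 ^ j with hz
  have hz2 : orderOf z = 2 := by
    rw [hz, orderOf_pow_of_dvd (pow_ne_zero _ two_ne_zero) (by rw [hk]; exact pow_dvd_pow 2 (by omega)),
      hk, pow_succ, Nat.mul_div_cancel_left _ (by positivity)]
  have hzf : α z = z := by rw [hz, map_pow, hfx]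
  refine eq_one_of_fix_involutions hA hodd (hpow α hα) fun y hy => ?_
  by_contra hne
  have hy1 : orderOf (α y) = 2 := (hord α y).2 hy
  have hzy : z ≠ y := fun h => hne (by rw [← h, hzf])
  have hzy1 : z ≠ α y := fun h => hzy (α.injective (by rw [hzf]; exact h))
  have hy2 : α (α y) = y := by
    have h2 : orderOf (α (α y)) = 2 := (hord α _).2 hy1
    rcases Block.Homocyclic.mem_three (hall z hz2) (hall y hy) (hall _ hy1) (hall _ h2) hzy hzy1
      (Ne.symm hne) with h | h | h
    · exact absurd (α.injective (α.injective (by rw [hzf, hzf, h]))) hzy.symm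
    · exact h
    · exact absurd (α.injective h) hne
  have h3' := DFunLike.congr_fun (hpow α hα) y
  rw [h3, MulAut.one_apply, pow_succ', pow_two, MulAut.mul_apply, MulAut.mul_apply, hy2] at h3'
  exact hne h3'

end Cfsg.Agent.Lib.FreeInertial
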