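import Cfsg.Agent.Lib.FreeInertial.Fourier

/-!
# Consistent signs for virtual characters with values `± r`
-/

set_option autoImplicit false
set_option linter.unusedSectionVars false
set_option linter.style.haveILetI false
set_option maxHeartbeats 800000

namespace Cfsg.Agent.Lib.FreeInertial

open Cfsg Cfsg.Agent.Lib Cfsg.Agent.Lib.Block

universe u

variable {P : Type u} [CommGroup P] [Fintype P]

/-- A unimodular member with value one at the identity is a linear character. -/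
theorem exists_linear_of_unimodular {f : P → ℂ} (hf : f ∈ Vr P) (h1 : f 1 = 1)
    (hu : ∀ x, f x * f x⁻¹ = 1) : ∃ l : P →* ℂˣ, ∀ x, f x = (l x : ℂ) := by
  classical
  choose n hn using good_of_mem hf
  have hexp : ∀ x, f x = ∑ l : P →* ℂˣ, (n l : ℂ) * (l x : ℂ) := fun x => by
    rw [eq_sum_coef f x]
    exact Finset.sum_congr rfl fun l _ => by rw [hn]
  have hsq : ((∑ l : P →* ℂˣ, n l * n l : ℤ) : ℂ) = 1 := by
    have h : ∑ x, f x * f x⁻¹ = (Fintype.card P : ℂ) := by simp [hu]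
    rw [Finset.sum_congr rfl fun x _ => show f x * f x⁻¹ =
      ∑ l : P →* ℂˣ, (n l : ℂ) * (f x * (l x⁻¹ : ℂ)) by
        conv_lhs => rw [hexp x⁻¹]
        rw [Finset.mul_sum]
        exact Finset.sum_congr rfl fun l _ => by ring, Finset.sum_comm] at h
    simp only [← Finset.mul_sum] at h
    rw [Finset.sum_congr rfl fun l _ => show (n l : ℂ) * ∑ x, f x * (l x⁻¹ : ℂ) =
      (Fintype.card P : ℂ) * ((n l : ℂ) * (n l : ℂ)) by
        rw [← hn l, coef]
        field_simp [card_ne], ← Finset.mul_sum] at h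
    push_cast
    exact mul_left_cancel₀ card_ne (h.trans (mul_one _).symm)
  have hsq' : ∑ l : P →* ℂˣ, n l * n l = 1 := by exact_mod_cast hsq
  obtain ⟨l, -, hl⟩ := Finset.exists_ne_zero_of_sum_ne_zero (by rw [hsq']; norm_num :
    ∑ l : P →* ℂˣ, n l * n l ≠ 0)
  have hrest : ∀ m, m ≠ l → n m = 0 := by
    intro m hm
    have h2 : n l * n l + n m * n m ≤ 1 := by
      rw [← hsq', ← Finset.sum_pair (f := fun i => n i * n i) hm.symm]
      exact Finset.sum_le_sum_of_subset_of_nonneg (Finset.subset_univ _) fun i _ _ =>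
        mul_self_nonneg _
    have h3 := mul_self_pos.2 (left_ne_zero_of_mul hl)
    by_contra h
    have := mul_self_pos.2 h
    omega
  have hfl : ∀ x, f x = (n l : ℂ) * (l x : ℂ) := fun x => by
    rw [hexp x, Finset.sum_eq_single l (fun m _ hm => by rw [hrest m hm, Int.cast_zero, zero_mul])
      (by simp)]
  have hnl : (n l : ℂ) = 1 := by
    have := hfl 1
    rwa [h1, map_one, Units.val_one, mul_one, eq_comm] at this
  exact ⟨l, fun x => by rw [hfl x, hnl, one_mul]⟩

/-- Linear characters with a kernel above `K`. -/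
noncomputable def ovr (K : Subgroup P) : Finset (P →* ℂˣ) :=
  haveI := Classical.decPred fun l : P →* ℂˣ => K ≤ l.ker
  Finset.univ.filter fun l => K ≤ l.ker

theorem mem_over {K : Subgroup P} {l : P →* ℂˣ} : l ∈ ovr K ↔ K ≤ l.ker := by simp [ovr]

theorem card_over (K : Subgroup P) : (ovr K).card = Nat.card (P ⧸ K) := by
  classical
  obtain ⟨e⟩ := CommGroup.monoidHom_mulEquiv_of_hasEnoughRootsOfUnity (P ⧸ K) ℂ
  rw [← Nat.card_congr e.toEquiv, ← Nat.card_eq_finsetCard]
  exact Nat.card_congr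
    { toFun := fun l => QuotientGroup.lift K l.1 (mem_over.1 l.2)
      invFun := fun φ => ⟨φ.comp (QuotientGroup.mk' K), mem_over.2 fun x hx => by
        rw [MonoidHom.mem_ker, MonoidHom.comp_apply, QuotientGroup.mk'_apply,
          (QuotientGroup.eq_one_iff x).2 hx, map_one]⟩
      left_inv := fun l => Subtype.ext (MonoidHom.ext fun x => rfl)
      right_inv := fun φ => MonoidHom.ext fun x => by
        obtain ⟨y, rfl⟩ := QuotientGroup.mk_surjective x
        rfl }

open scoped Classical in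
theorem sum_over (K : Subgroup P) (x : P) :
    ∑ l ∈ ovr K, (l x : ℂ) = if x ∈ K then ((ovr K).card : ℂ) else 0 := by
  split_ifs with hx
  · rw [Finset.sum_congr rfl fun l hl => show (l x : ℂ) = 1 by
      rw [MonoidHom.mem_ker.1 (mem_over.1 hl hx), Units.val_one], Finset.sum_const, nsmul_eq_mul,
      mul_one]
  · obtain ⟨φ, hφ⟩ := CommGroup.exists_apply_ne_one_of_hasEnoughRootsOfUnity (P ⧸ K) ℂ
      (a := (x : P ⧸ K)) fun h => hx ((QuotientGroup.eq_one_iff x).1 h)
    set l₀ : P →* ℂˣ := φ.comp (QuotientGroup.mk' K) with hl₀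
    have hl₀K : ∀ k ∈ K, l₀ k = 1 := fun k hk => by
      rw [hl₀, MonoidHom.comp_apply, QuotientGroup.mk'_apply, (QuotientGroup.eq_one_iff k).2 hk,
        map_one]
    have h : (l₀ x : ℂ) * ∑ l ∈ ovr K, (l x : ℂ) = ∑ l ∈ ovr K, (l x : ℂ) := by
      rw [Finset.mul_sum]
      refine Finset.sum_equiv (Equiv.mulLeft l₀) (fun l => ?_) fun l _ => by simp
      simp only [mem_over, Equiv.coe_mulLeft, SetLike.le_def, MonoidHom.mem_ker,
        MonoidHom.mul_apply]
      exact forall₂_congr fun k hk => by rw [hl₀K k hk, one_mul]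
    exact (mul_left_eq_self₀.1 h).resolve_left fun h0 => hφ (Units.ext h0)

/-- The second difference of a linear character. -/
def tw (u v : P) (l : P →* ℂˣ) : ℂ := 1 - (l u : ℂ) - (l v : ℂ) + (l (u * v) : ℂ)

theorem exists_four_dvd_over (hP : IsPGroup 2 P) (u v : P) (K : Subgroup P) :
    ∃ n : ℤ, ∑ l ∈ ovr K, tw u v l = 4 * (n : ℂ) := by
  classical
  haveI : Fact (Nat.Prime 2) := ⟨Nat.prime_two⟩
  simp only [tw, Finset.sum_add_distrib, Finset.sum_sub_distrib, sum_over, Finset.sum_const,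
    nsmul_eq_mul, mul_one]
  by_cases hu : u ∈ K
  · refine ⟨0, ?_⟩
    rw [if_congr (K.mul_mem_cancel_left hu) rfl rfl, if_pos hu]
    push_cast
    ring
  by_cases hv : v ∈ K
  · refine ⟨0, ?_⟩
    rw [if_congr (K.mul_mem_cancel_right hv) rfl rfl, if_neg hu, if_pos hv]
    push_cast
    ring
  rw [if_neg hu, if_neg hv, sub_zero, sub_zero]
  have hu' : (u : P ⧸ K) ≠ 1 := fun h => hu ((QuotientGroup.eq_one_iff u).1 h)
  have hv' : (v : P ⧸ K) ≠ 1 := fun h => hv ((QuotientGroup.eq_one_iff v).1 h)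
  obtain ⟨j, hj⟩ := IsPGroup.iff_card.1 (hP.to_quotient K)
  rw [← card_over] at hj
  have hj1 : 2 ≤ (ovr K).card := by
    rw [card_over]
    exact Finite.one_lt_card_iff_nontrivial.2 ⟨_, _, hu'⟩
  by_cases huv : u * v ∈ K
  · rw [if_pos huv]
    obtain ⟨i, rfl⟩ : ∃ i, j = i + 1 := ⟨j - 1, by
      rcases j with _ | j
      · rw [hj, pow_zero] at hj1; omega
      · omega⟩
    exact ⟨2 ^ i, by rw [hj]; push_cast; ring⟩
  · rw [if_neg huv, add_zero]
    have huv' : (u : P ⧸ K) ≠ (v : P ⧸ K)⁻¹ := fun h => huv ((QuotientGroup.eq_one_iff _).1 (by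
      rw [QuotientGroup.mk_mul, h, inv_mul_cancel]))
    haveI := Fintype.ofFinite (P ⧸ K)
    have h3 : 3 ≤ (ovr K).card := by
      rw [card_over, Nat.card_eq_fintype_card]
      refine le_trans ?_ (Finset.card_le_univ ({1, (u : P ⧸ K), (v : P ⧸ K)⁻¹} : Finset (P ⧸ K)))
      rw [Finset.card_insert_of_notMem (by simp [hu'.symm, hv']), Finset.card_pair huv']
    obtain ⟨i, rfl⟩ : ∃ i, j = i + 2 := ⟨j - 2, by
      rcases j with _ | _ | j
      · rw [hj, pow_zero] at h3; omega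
      · rw [hj] at h3; norm_num at h3
      · omega⟩
    exact ⟨2 ^ i, by rw [hj]; push_cast; ring⟩

theorem coef_pow_of_int {f : P → ℂ} (hf : f ∈ Vr P) (hint : ∀ x, ∃ n : ℤ, f x = n) {k : ℕ}
    (hk : Nat.Coprime k (Nat.card P)) (l : P →* ℂˣ) : coef f (l ^ k) = coef f l := by
  obtain ⟨σ, hσ⟩ := CharGalois.exists_aut_pow (Nat.card_pos (α := P)) hk
  have hfix : ∀ x, f (x ^ k) = f x := fun x => by
    rw [← equiv_of_mem hf σ k hk hσ x]
    obtain ⟨n, hn⟩ := hint x
    rw [hn, map_intCast]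
  rw [coef, coef]
  congr 1
  conv_rhs => rw [← Equiv.sum_comp (powCoprime (G := P) hk.symm)]
  refine Finset.sum_congr rfl fun x _ => ?_
  show f x * _ = f (x ^ k) * _
  rw [hfix]
  simp [powCoprime, inv_pow]

/-- Linear characters with one kernel are powers of each other. -/
theorem exists_pow_of_ker (hP : IsPGroup 2 P) {l m : P →* ℂˣ} (hl : l ≠ 1) (h : m.ker = l.ker) :
    ∃ k : ℕ, Nat.Coprime k (Nat.card P) ∧ m = l ^ k := by
  haveI : Fact (Nat.Prime 2) := ⟨Nat.prime_two⟩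
  haveI : Finite l.range :=
    Set.finite_range l |>.to_subtype
  obtain ⟨⟨g, x0, rfl⟩, hg⟩ := IsCyclic.exists_generator (α := l.range)
  have hgen : ∀ x, ∃ i : ℤ, l x0 ^ i = l x := fun x => by
    obtain ⟨i, hi⟩ := Subgroup.mem_zpowers_iff.1 (hg ⟨l x, x, rfl⟩)
    exact ⟨i, congrArg Subtype.val hi⟩
  have hm : ∀ x, ∀ i : ℤ, l x0 ^ i = l x → m x0 ^ i = m x := by
    intro x i hi
    have hk : x0 ^ i * x⁻¹ ∈ l.ker := by
      rw [MonoidHom.mem_ker, map_mul, map_zpow, map_inv, hi, mul_inv_cancel]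
    rw [← h, MonoidHom.mem_ker, map_mul, map_zpow, map_inv, mul_inv_eq_one] at hk
    exact hk
  obtain ⟨a, ha⟩ := hP x0
  have hN0 : 0 < orderOf (l x0) :=
    orderOf_pos_iff.2 (isOfFinOrder_iff_pow_eq_one.2 ⟨2 ^ a, by positivity, by
      rw [← map_pow, ha, map_one]⟩)
  have hζ : IsPrimitiveRoot ((l x0 : ℂˣ) : ℂ) (orderOf (l x0)) :=
    (IsPrimitiveRoot.orderOf (l x0)).map_of_injective (f := Units.coeHom ℂ) Units.val_injective
  have hmpow : ((m x0 : ℂˣ) : ℂ) ^ orderOf (l x0) = 1 := by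
    have h1 := hm 1 (orderOf (l x0) : ℤ) (by rw [zpow_natCast, pow_orderOf_eq_one, map_one])
    rw [zpow_natCast, map_one] at h1
    rw [← Units.val_pow_eq_pow_val, h1, Units.val_one]
  haveI : NeZero (orderOf (l x0)) := ⟨hN0.ne'⟩
  obtain ⟨k, -, hk⟩ := hζ.eq_pow_of_pow_eq_one hmpow
  have hk' : m x0 = l x0 ^ k := Units.ext (by rw [Units.val_pow_eq_pow_val, hk])
  refine ⟨k, ?_, MonoidHom.ext fun x => ?_⟩
  · obtain ⟨q, hq⟩ := IsPGroup.iff_card.1 hP
    rw [hq]
    refine Nat.Coprime.pow_right _ ((Nat.prime_two.coprime_iff_not_dvd).2 fun hdvd => ?_).symm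
    obtain ⟨b, hb, hNb⟩ := (Nat.dvd_prime_pow Nat.prime_two).1
      (orderOf_dvd_of_pow_eq_one (show l x0 ^ 2 ^ a = 1 by rw [← map_pow, ha, map_one]))
    rcases b with _ | b
    · -- the image is trivial
      refine hl (MonoidHom.ext fun x => ?_)
      obtain ⟨i, hi⟩ := hgen x
      rw [← hi, orderOf_eq_one_iff.1 (hNb.trans (pow_zero 2)), one_zpow, MonoidHom.one_apply]
    · obtain ⟨c, rfl⟩ := hdvd
      have h1 : m x0 ^ (2 ^ b) = 1 := by
        rw [hk', ← pow_mul, show 2 * c * 2 ^ b = 2 ^ (b + 1) * c by ring, pow_mul, ← hNb,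
          pow_orderOf_eq_one, one_pow]
      have h2 : x0 ^ (2 ^ b) ∈ l.ker := by rw [← h, MonoidHom.mem_ker, map_pow, h1]
      rw [MonoidHom.mem_ker, map_pow] at h2
      have := Nat.le_of_dvd (by positivity) (orderOf_dvd_of_pow_eq_one h2)
      rw [hNb, pow_succ] at this
      have := Nat.two_pow_pos b
      omega
  · obtain ⟨i, hi⟩ := hgen x
    rw [MonoidHom.pow_apply, ← hm x i hi, ← hi, hk', ← zpow_natCast, ← zpow_natCast, ← zpow_mul,
      ← zpow_mul, mul_comm]

/-- An element sent to `-1`. -/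
theorem exists_neg_one (hP : IsPGroup 2 P) (l : P →* ℂˣ) {x : P} (hx : l x ≠ 1) :
    ∃ n : ℕ, ((l (x ^ n) : ℂˣ) : ℂ) = -1 := by
  obtain ⟨a, ha⟩ := hP x
  obtain ⟨b, -, hb⟩ := (Nat.dvd_prime_pow Nat.prime_two).1
    (orderOf_dvd_of_pow_eq_one (show l x ^ 2 ^ a = 1 by rw [← map_pow, ha, map_one]))
  rcases b with _ | b
  · exact absurd (orderOf_eq_one_iff.1 (hb.trans (pow_zero 2))) hx
  refine ⟨2 ^ b, IsPrimitiveRoot.eq_neg_one_of_two_right ?_⟩
  have hζ : IsPrimitiveRoot ((l x : ℂˣ) : ℂ) (2 ^ (b + 1)) := by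
    rw [← hb]
    exact (IsPrimitiveRoot.orderOf (l x)).map_of_injective (f := Units.coeHom ℂ) Units.val_injective
  rw [map_pow, Units.val_pow_eq_pow_val]
  have := hζ.pow (by positivity : 0 < 2 ^ (b + 1)) (show 2 ^ (b + 1) = 2 ^ b * 2 by ring)
  exact this

/-- Second differences of an integral member are divisible by four. -/
theorem four_dvd (hP : IsPGroup 2 P) {s : P → ℤ} (hs : (fun x => (s x : ℂ)) ∈ Vr P) (u v : P) :
    (4 : ℤ) ∣ s 1 - s u - s v + s (u * v) := by
  classical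
  set f : P → ℂ := fun x => (s x : ℂ) with hf
  choose n hn using good_of_mem hs
  have hA : ((s 1 - s u - s v + s (u * v) : ℤ) : ℂ) = ∑ l : P →* ℂˣ, (n l : ℂ) * tw u v l := by
    have hexp : ∀ x, (s x : ℂ) = ∑ l : P →* ℂˣ, (n l : ℂ) * (l x : ℂ) := fun x => by
      rw [show (s x : ℂ) = f x from rfl, eq_sum_coef f x]
      exact Finset.sum_congr rfl fun l _ => by rw [hn]
    push_cast
    rw [hexp, hexp, hexp, hexp]
    simp only [tw, mul_add, mul_sub, Finset.sum_add_distrib, Finset.sum_sub_distrib, map_one,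
      Units.val_one]
  rw [← Finset.sum_fiberwise_of_maps_to (t := Finset.univ.image fun l : P →* ℂˣ => l.ker)
    (g := fun l : P →* ℂˣ => l.ker) (fun l _ => Finset.mem_image_of_mem _ (Finset.mem_univ l))]
    at hA
  have hfib : ∀ K ∈ Finset.univ.image (fun l : P →* ℂˣ => l.ker), ∃ z : ℤ,
      ∑ l ∈ Finset.univ.filter (fun l : P →* ℂˣ => l.ker = K), (n l : ℂ) * tw u v l =
        4 * (z : ℂ) := by
    intro K hK
    obtain ⟨l, -, rfl⟩ := Finset.mem_image.1 hK
    by_cases hl : l = 1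
    · subst hl
      refine ⟨0, ?_⟩
      rw [Finset.sum_eq_zero fun m hm => ?_, Int.cast_zero, mul_zero]
      have hm1 : m = 1 := MonoidHom.ext fun x => by
        have : x ∈ m.ker := by
          rw [(Finset.mem_filter.1 hm).2, MonoidHom.ker_one]
          trivial
        exact MonoidHom.mem_ker.1 this
      simp [hm1, tw]
    obtain ⟨x, hx⟩ : ∃ x, l x ≠ 1 := by
      by_contra hall
      push Not at hall
      exact hl (MonoidHom.ext hall)
    obtain ⟨i, hi⟩ := exists_neg_one hP l hx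
    set z := x ^ i with hz
    have hcoef : ∀ m : P →* ℂˣ, m.ker = l.ker → n m = n l := fun m hm => by
      obtain ⟨k, hk, rfl⟩ := exists_pow_of_ker hP hl hm
      have h := coef_pow_of_int hs (fun y => ⟨s y, rfl⟩) hk l
      rw [hn, hn] at h
      exact_mod_cast h
    have hset : Finset.univ.filter (fun m : P →* ℂˣ => m.ker = l.ker) =
        ovr l.ker \ ovr (l.ker ⊔ Subgroup.zpowers z) := by
      ext m
      simp only [Finset.mem_filter, Finset.mem_univ, true_and, Finset.mem_sdiff, mem_over,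
        sup_le_iff, Subgroup.zpowers_le, not_and, MonoidHom.mem_ker]
      constructor
      · intro hm
        refine ⟨hm.ge, fun _ h1 => ?_⟩
        rw [← MonoidHom.mem_ker, hm, MonoidHom.mem_ker] at h1
        rw [h1, Units.val_one] at hi
        norm_num at hi
      · rintro ⟨h1, h2⟩
        refine le_antisymm (fun y hy => ?_) h1
        by_contra hy'
        rw [MonoidHom.mem_ker] at hy hy'
        obtain ⟨j, hj⟩ := exists_neg_one hP l hy'
        refine h2 h1 ?_
        have hk : z * (y ^ j)⁻¹ ∈ l.ker := by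
          rw [MonoidHom.mem_ker, map_mul, map_inv, mul_inv_eq_one]
          exact Units.ext (hi.trans hj.symm)
        have h3 := h1 hk
        rw [MonoidHom.mem_ker, map_mul, map_inv, map_pow m y j, hy, one_pow, inv_one, mul_one] at h3
        exact h3
    obtain ⟨z1, hz1⟩ := exists_four_dvd_over hP u v l.ker
    obtain ⟨z2, hz2⟩ := exists_four_dvd_over hP u v (l.ker ⊔ Subgroup.zpowers z)
    refine ⟨n l * (z1 - z2), ?_⟩
    rw [Finset.sum_congr rfl fun m hm => show (n m : ℂ) * tw u v m = (n l : ℂ) * tw u v m by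
      rw [hcoef m (Finset.mem_filter.1 hm).2], ← Finset.mul_sum, hset,
      Finset.sum_sdiff_eq_sub (fun m hm => mem_over.2 (le_sup_left.trans (mem_over.1 hm))), hz1,
      hz2]
    push_cast
    ring
  choose! z hz using hfib
  rw [Finset.sum_congr rfl hz, ← Finset.mul_sum] at hA
  refine ⟨∑ K ∈ Finset.univ.image (fun l : P →* ℂˣ => l.ker), z K, ?_⟩
  have : ((s 1 - s u - s v + s (u * v) : ℤ) : ℂ) =
      ((4 * ∑ K ∈ Finset.univ.image (fun l : P →* ℂˣ => l.ker), z K : ℤ) : ℂ) := by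
    rw [hA]; push_cast; ring
  exact_mod_cast this

/-- The modulus for the signs. -/
def signMod (p : ℕ) : ℤ := if p = 2 then 4 else p

theorem dvd_signMod {p : ℕ} : (p : ℤ) ∣ signMod p := by
  rw [signMod]
  split_ifs with h
  · subst h; norm_num
  · exact dvd_rfl

/-- The representative of `± r` congruent to `c`. -/
def nrm (p : ℕ) (c r : ℤ) : ℤ := if signMod p ∣ r - c then r else -r

theorem nrm_eq_or (p : ℕ) (c r : ℤ) : nrm p c r = r ∨ nrm p c r = -r := by
  rw [nrm]; split_ifs <;> simp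

theorem nrm_congr {p : ℕ} (hp : p.Prime) {c r : ℤ} (hc : ¬ (p : ℤ) ∣ c)
    (h : (p : ℤ) ∣ r * r - c * c) : signMod p ∣ nrm p c r - c := by
  rw [nrm]
  split_ifs with h1
  · exact h1
  rw [show r * r - c * c = (r - c) * (r + c) by ring] at h
  have hP := Nat.prime_iff_prime_int.1 hp
  unfold signMod at h1 ⊢
  split_ifs at h1 ⊢ with h2
  · subst h2
    push_cast at hc h
    have hr : ¬ (2 : ℤ) ∣ r := fun hr => hc (by
      rcases (by simpa using hP : Prime (2 : ℤ)).dvd_or_dvd h with h' | h' <;> omega)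
    omega
  · rw [show -r - c = -(r + c) by ring, dvd_neg]
    exact (hP.dvd_or_dvd h).resolve_left h1

theorem dvd_totient_pow {p : ℕ} (hp : p.Prime) (hP : IsPGroup p P) {c : ℤ}
    (hc : ¬ (p : ℤ) ∣ c) : (Fintype.card P : ℤ) ∣ c ^ (Fintype.card P).totient - 1 :=
  dvd_pow_totient_sub_one Fintype.card_ne_zero (isCoprime_card hp hP hc)

/-- Normalised signs give a member. -/
theorem mem_of_twist {p : ℕ} (hp : p.Prime) (hP : IsPGroup p P) {c : ℤ} (hc : ¬ (p : ℤ) ∣ c)
    {s : P → ℤ} (hs : ∀ x, signMod p ∣ s x - c) (hse : ∀ k : ℕ, Nat.Coprime k (Nat.card P) →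
      ∀ x, s (x ^ k) = s x) (hsi : ∀ x, s x⁻¹ = s x)
    {h ω : P → ℂ} (hh : h ∈ Vr P) (hhω : ∀ x, h x = ω x * (s x : ℂ))
    (hω : ∀ x, ω x * ω x⁻¹ = 1) (hωi : ∀ x, IsIntegral ℤ (ω x)) :
    (fun x => (s x : ℂ)) ∈ Vr P := by
  classical
  haveI : Fact p.Prime := ⟨hp⟩
  have hsp : ∀ x, (p : ℤ) ∣ s x - c := fun x => dvd_signMod.trans (hs x)
  have hsu : ∀ x, ¬ (p : ℤ) ∣ s x := fun x hx => hc (by
    have := dvd_sub hx (hsp x)
    rwa [sub_sub_cancel] at this)
  have hs0 : ∀ x, (s x : ℂ) ≠ 0 := fun x => Int.cast_ne_zero.2 fun h0 => hsu x (h0 ▸ dvd_zero _)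
  let H2 : P → ℂ := fun x => h x * h x⁻¹
  have hH2 : H2 ∈ Vr P := Subring.mul_mem _ hh (inv_mem' hh)
  have hH2v : ∀ x, H2 x = ((s x * s x : ℤ) : ℂ) := fun x => by
    simp only [H2, hhω, hsi]
    push_cast
    linear_combination ((s x : ℂ) * (s x : ℂ)) * hω x
  have heqs : Equiv' P fun x => (s x : ℂ) := fun σ k hk _ x => by
    simp only [map_intCast, hse k hk x]
  by_cases h2 : p = 2
  swap
  · -- odd primes: a square root
    obtain ⟨N, hN⟩ := IsPGroup.iff_card.1 hP
    have hodd : Odd (p ^ N) := (hp.odd_of_ne_two h2).pow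
    obtain ⟨t, ht⟩ := hodd
    obtain ⟨a, ha⟩ := dvd_totient_pow hp hP (c := c ^ p ^ N) fun hd =>
      hc ((Nat.prime_iff_prime_int.1 hp).dvd_of_dvd_pow hd)
    set K : ℤ := (c ^ p ^ N) ^ ((Fintype.card P).totient - 1) with hK
    have hn1 : 1 ≤ (Fintype.card P).totient := Nat.totient_pos.2 Fintype.card_pos
    refine mem_of_congr (φ := H2 ^ (t + 1) * fun _ => (K : ℂ)) (fun x => isIntegral_intCast _)
      heqs (Subring.mul_mem _ (Subring.pow_mem _ hH2 _) (const_mem K)) fun x => ?_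
    obtain ⟨b, hb⟩ : (Fintype.card P : ℤ) ∣ s x ^ p ^ N - c ^ p ^ N := by
      have h1 := dvd_sub_pow_of_dvd_sub (R := ℤ) (hsp x) N
      rw [← Nat.card_eq_fintype_card, hN, Nat.cast_pow]
      exact dvd_trans (pow_dvd_pow _ (Nat.le_succ N)) h1
    refine ⟨((-(s x * K * b + s x * a) : ℤ) : ℂ), isIntegral_intCast _, ?_⟩
    simp only [Pi.mul_apply, Pi.pow_apply, hH2v]
    have : s x - (s x * s x) ^ (t + 1) * K = (Fintype.card P : ℤ) * -(s x * K * b + s x * a) := by
      rw [← sq, ← pow_mul, show 2 * (t + 1) = p ^ N + 1 by rw [ht]; ring, pow_succ]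
      have hK' : c ^ p ^ N * K = (c ^ p ^ N) ^ (Fintype.card P).totient := by
        rw [hK, ← pow_succ', Nat.sub_add_cancel hn1]
      linear_combination (-(s x * K)) * hb - s x * (hK'.trans (eq_add_of_sub_eq ha))
    exact_mod_cast congrArg (fun z : ℤ => (z : ℂ)) this
  subst h2
  -- the square of the twist is linear
  set n := (Fintype.card P).totient with hn
  have hn1 : 1 ≤ n := Nat.totient_pos.2 Fintype.card_pos
  let u : P → ℂ := fun x => ω x * ω x
  have heqω : Equiv' P ω := fun σ k hk hσ x => by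
    have hx : ω x = h x / (s x : ℂ) := by rw [hhω, mul_div_cancel_right₀ _ (hs0 x)]
    rw [hx, map_div₀, equiv_of_mem hh σ k hk hσ x, map_intCast, ← hse k hk x, hhω,
      mul_div_cancel_right₀ _ (hs0 _)]
  have hu : u ∈ Vr P := by
    refine mem_of_congr (φ := h ^ 2 * H2 ^ (n - 1)) (fun x => (hωi x).mul (hωi x))
      (fun σ k hk hσ x => by simp only [u, map_mul, heqω σ k hk hσ x])
      (Subring.mul_mem _ (Subring.pow_mem _ hh 2) (Subring.pow_mem _ hH2 _)) fun x => ?_
    obtain ⟨b, hb⟩ := dvd_totient_pow hp hP (c := s x * s x) fun hd =>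
      (Nat.prime_iff_prime_int.1 hp).dvd_or_dvd hd |>.elim (hsu x) (hsu x)
    refine ⟨-(u x * (b : ℂ)), (((hωi x).mul (hωi x)).mul (isIntegral_intCast b)).neg, ?_⟩
    have hb' : ((s x : ℂ) * (s x : ℂ)) ^ n - 1 = (Fintype.card P : ℂ) * (b : ℂ) := by
      have := congrArg (fun z : ℤ => (z : ℂ)) hb
      push_cast at this
      exact this
    simp only [Pi.mul_apply, Pi.pow_apply, hH2v, hhω, u]
    push_cast
    rw [show ((s x : ℂ) * (s x : ℂ)) ^ n =
      ((s x : ℂ) * (s x : ℂ)) ^ (n - 1) * ((s x : ℂ) * (s x : ℂ)) by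
        rw [← pow_succ, Nat.sub_add_cancel hn1]] at hb'
    linear_combination (-(ω x * ω x)) * hb'
  have hω1 : ω 1 * ω 1 = 1 := by
    have := hω 1
    rwa [inv_one] at this
  obtain ⟨l, hl⟩ := exists_linear_of_unimodular hu hω1 fun x => by
    simp only [u]
    linear_combination (ω x * ω x⁻¹ + 1) * hω x
  -- `l` is a square
  let sq : P →* P := powMonoidHom 2
  have hker : sq.ker ≤ l.ker := by
    intro x hx
    rw [MonoidHom.mem_ker] at hx ⊢
    refine Units.ext ?_
    have hxi : x⁻¹ = x := inv_eq_of_mul_eq_one_right (by rw [← pow_two]; exact hx)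
    have := hω x
    rw [hxi] at this
    rw [← hl x]
    exact this
  obtain ⟨μ, hμ⟩ := MonoidHom.domRestrict_surjective ℂ sq.range
    ((QuotientGroup.kerLift l).comp ((QuotientGroup.map sq.ker l.ker (MonoidHom.id P) hker).comp
      (QuotientGroup.quotientKerEquivRange sq).symm.toMonoidHom))
  have hμv : ∀ x, μ (x * x) = l x := by
    intro x
    have h1 := DFunLike.congr_fun hμ ⟨sq x, x, rfl⟩
    have h2 : (QuotientGroup.quotientKerEquivRange sq).symm ⟨sq x, x, rfl⟩ =
        (QuotientGroup.mk x : P ⧸ sq.ker) := by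
      rw [MulEquiv.symm_apply_eq]
      rfl
    simp only [MonoidHom.comp_apply, MulEquiv.coe_toMonoidHom, h2] at h1
    rw [← pow_two]
    exact h1
  -- the real twist
  let h' : P → ℂ := fun x => h x * (μ x⁻¹ : ℂ)
  have hh' : h' ∈ Vr P := Subring.mul_mem _ hh (inv_mem' (linFn_mem μ))
  have hsign : ∀ x, ∃ e : ℤ, (e = 1 ∨ e = -1) ∧ h' x = ((e * s x : ℤ) : ℂ) := by
    intro x
    have h1 : (ω x * (μ x⁻¹ : ℂ)) * (ω x * (μ x⁻¹ : ℂ)) = 1 := by
      have h3 : (μ x⁻¹ : ℂ) * (μ x⁻¹ : ℂ) * (l x : ℂ) = 1 := by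
        rw [← hμv, ← Units.val_mul, ← Units.val_mul, ← map_mul, ← map_mul,
          show x⁻¹ * x⁻¹ * (x * x) = 1 by simp [mul_assoc], map_one, Units.val_one]
      rw [← hl x] at h3
      linear_combination h3
    rcases mul_self_eq_one_iff.1 h1 with h4 | h4
    · exact ⟨1, Or.inl rfl, by simp only [h', hhω]; push_cast; linear_combination (s x : ℂ) * h4⟩
    · exact ⟨-1, Or.inr rfl, by simp only [h', hhω]; push_cast; linear_combination (s x : ℂ) * h4⟩
  choose e he heq using hsign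
  let t : P → ℤ := fun x => e x * s x
  have ht : (fun x => (t x : ℂ)) ∈ Vr P := by
    rwa [show (fun x => (t x : ℂ)) = h' from funext fun x => (heq x).symm]
  have hfour := four_dvd hP ht
  let δ : P → ℤ := fun x => e x * e 1
  have hδ : ∀ x, δ x = 1 ∨ δ x = -1 := fun x => by
    simp only [δ]
    rcases he x with h | h <;> rcases he 1 with h' | h' <;> simp [h, h']
  have hδmul : ∀ x y, δ (x * y) = δ x * δ y := by
    intro x y
    have h4 : (4 : ℤ) ∣ t 1 - t x - t y + t (x * y) := hfour x y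
    have a1 : (4 : ℤ) ∣ s 1 - c := hs 1
    have a2 : (4 : ℤ) ∣ s x - c := hs x
    have a3 : (4 : ℤ) ∣ s y - c := hs y
    have a4 : (4 : ℤ) ∣ s (x * y) - c := hs (x * y)
    have hc2 : ¬ (2 : ℤ) ∣ c := hc
    simp only [δ, t] at h4 ⊢
    rcases he 1 with b1 | b1 <;> rcases he x with b2 | b2 <;> rcases he y with b3 | b3 <;>
      rcases he (x * y) with b4 | b4 <;> rw [b1, b2, b3, b4] at h4 ⊢ <;> omega
  let δl : P →* ℂˣ := MonoidHom.mk' (fun x => if δ x = 1 then 1 else -1) fun x y => by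
    rcases hδ x with a | a <;> rcases hδ y with b | b <;>
      simp [hδmul, a, b, show ((-1 : ℤ) = 1) = False by simp]
  have hfin : (fun x => (s x : ℂ)) = (fun x => (t x : ℂ)) * linFn δl * fun _ => (e 1 : ℂ) := by
    funext x
    have hd : linFn δl x = (δ x : ℂ) := by
      simp only [linFn, δl, MonoidHom.mk'_apply]
      rcases hδ x with a | a <;> simp [a, show ((-1 : ℤ) = 1) = False by simp]
    simp only [Pi.mul_apply, hd, t, δ]
    rcases he x with a | a <;> rcases he 1 with b | b <;> simp [a, b]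
  rw [hfin]
  exact Subring.mul_mem _ (Subring.mul_mem _ ht (linFn_mem δl)) (const_mem _)

/-- Values on cyclic subgroups from values on joins. -/
theorem exists_cyclic_fn {p : ℕ} (hp : p.Prime) (hP : IsPGroup p P) (hne : Nontrivial P) {c : ℤ}
    (F : Subgroup P → ℤ) (hF : ∀ Q, Q ≠ ⊥ → (p : ℤ) ∣ F Q - c)
    (hFv : ∀ Q : Subgroup P, Q ≠ ⊥ → (fun x => (F (Q ⊔ Subgroup.zpowers x) : ℂ)) ∈ Vr P) :
    ∃ ρ : P → ℤ, (fun x => (ρ x : ℂ)) ∈ Vr P ∧ (∀ x, (p : ℤ) ∣ ρ x - c) ∧
      ∀ x, x ≠ 1 → ρ x = F (Subgroup.zpowers x) := by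
  classical
  haveI : Fact p.Prime := ⟨hp⟩
  haveI := Fintype.ofFinite (Subgroup P)
  set O : Finset (Subgroup P) := Finset.univ.filter fun Z => Nat.card Z = p with hO
  have hdvd : ∀ x : P, x ≠ 1 → ∃ Z ∈ O, Z ≤ Subgroup.zpowers x := by
    intro x hx
    obtain ⟨a, ha⟩ := hP.exists_orderOf_eq_pow x
    have hd : p ∣ Nat.card (Subgroup.zpowers x) := by
      rw [Nat.card_zpowers, ha]
      exact dvd_pow_self p fun h0 => hx (orderOf_eq_one_iff.1 (by rw [ha, h0, pow_zero]))
    obtain ⟨y, hy⟩ := exists_prime_orderOf_dvd_card' p hd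
    refine ⟨Subgroup.zpowers (y : P), Finset.mem_filter.2 ⟨Finset.mem_univ _, ?_⟩,
      Subgroup.zpowers_le.2 y.2⟩
    rw [Nat.card_zpowers, Subgroup.orderOf_coe, hy]
  obtain ⟨x0, hx0⟩ := exists_ne (1 : P)
  obtain ⟨Z0, hZ0, -⟩ := hdvd x0 hx0
  let S := O.powerset.erase ∅
  have hsupne : ∀ T ∈ S, ∀ Q : Subgroup P, T.sup id ⊔ Q ≠ ⊥ := by
    intro T hT Q h
    obtain ⟨hT0, hTO⟩ := Finset.mem_erase.1 hT
    obtain ⟨Z, hZ⟩ := Finset.nonempty_of_ne_empty hT0
    have hZO := (Finset.mem_filter.1 (Finset.mem_powerset.1 hTO hZ)).2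
    have hle : Z ≤ T.sup id ⊔ Q := (Finset.le_sup (f := id) hZ).trans le_sup_left
    rw [h, le_bot_iff] at hle
    rw [hle, Subgroup.card_bot] at hZO
    exact hp.ne_one hZO.symm
  have hsign : ∑ T ∈ S, (-1 : ℤ) ^ T.card = -1 := by
    have h := Finset.sum_powerset_neg_one_pow_card_of_nonempty ⟨Z0, hZ0⟩
    rw [← Finset.add_sum_erase _ _ (Finset.empty_mem_powerset O), Finset.card_empty, pow_zero] at h
    show ∑ T ∈ O.powerset.erase ∅, (-1 : ℤ) ^ T.card = -1
    omega
  refine ⟨fun x => -∑ T ∈ S, (-1) ^ T.card * F (T.sup id ⊔ Subgroup.zpowers x), ?_, fun x => ?_,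
    fun x hx => ?_⟩
  · have : (fun x : P => ((-∑ T ∈ S, (-1 : ℤ) ^ T.card * F (T.sup id ⊔ Subgroup.zpowers x) : ℤ) : ℂ))
        = -∑ T ∈ S, (fun _ : P => (((-1 : ℤ) ^ T.card : ℤ) : ℂ)) *
          fun x => (F (T.sup id ⊔ Subgroup.zpowers x) : ℂ) := by
      funext x
      simp [Finset.sum_apply]
    rw [this]
    refine Subring.neg_mem _ (Subring.sum_mem _ fun T hT => Subring.mul_mem _ (const_mem _) ?_)
    exact hFv _ (by simpa using hsupne T hT ⊥)
  · obtain ⟨b, hb⟩ : (p : ℤ) ∣ ∑ T ∈ S, (-1) ^ T.card * (F (T.sup id ⊔ Subgroup.zpowers x) - c) :=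
      Finset.dvd_sum fun T hT => Dvd.dvd.mul_left (hF _ (hsupne T hT _)) _
    simp only [mul_sub, Finset.sum_sub_distrib, ← Finset.sum_mul, hsign] at hb
    exact ⟨-b, by linarith⟩
  · obtain ⟨Z, hZ, hZx⟩ := hdvd x hx
    have htog : ∑ T ∈ O.powerset, (-1 : ℤ) ^ T.card * F (T.sup id ⊔ Subgroup.zpowers x) = 0 := by
      rw [← Finset.insert_erase hZ, Finset.sum_powerset_insert (Finset.notMem_erase Z O),
        ← Finset.sum_add_distrib]
      refine Finset.sum_eq_zero fun T hT => ?_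
      have hZT : Z ∉ T := fun h => Finset.notMem_erase Z O (Finset.mem_powerset.1 hT h)
      rw [Finset.card_insert_of_notMem hZT, Finset.sup_insert, id_eq, sup_assoc,
        sup_eq_right.2 (hZx.trans le_sup_right), pow_succ]
      ring
    rw [← Finset.add_sum_erase _ _ (Finset.empty_mem_powerset O), Finset.card_empty, pow_zero,
      one_mul, Finset.sup_empty, bot_sup_eq] at htog
    show -∑ T ∈ O.powerset.erase ∅, _ = _
    omega

end Cfsg.Agent.Lib.FreeInertial
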