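import Cfsg.Agent.Lib.FreeInertial.Rank
import Cfsg.Agent.Lib.FreeInertial.Signs

/-!
# Ranks inside centralisers
-/

set_option autoImplicit false
set_option linter.unusedSectionVars false
set_option linter.style.haveILetI false
set_option maxHeartbeats 800000

namespace Cfsg.Agent.Lib.FreeInertial

open Cfsg Cfsg.Agent.Lib Cfsg.Agent.Lib.Block Cfsg.Agent.Lib.BrauerPairs Cfsg.Agent.Lib.Star
open Cfsg.Agent.Lib.Watanabe (exists_local le_of_occ occ_of_le)
open scoped ComplexConjugate

universe u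

variable {p : ℕ} {M : Ideal AlgInt} [M.IsPrime] {G : Type u} [Group G] [Finite G]
  {B : Set (IrrCharacter G)} {P : Subgroup G} {e : CBlock P}

theorem freeAt_mono {Q V : Subgroup G} (h : Q ≤ V) (hfree : FreeAt M P e Q) : FreeAt M P e V :=
  (inf_le_inf_left _ (Subgroup.centralizer_le (SetLike.coe_subset_coe.2 h))).trans hfree

/-- The block below in a centraliser, read in the group. -/
theorem bel_local (hM : IsPModular p M) (hP : IsPGroup p P) (he : IsPBlock M e)
    (hab : ∀ x ∈ P, ∀ y ∈ P, x * y = y * x) {Q : Subgroup G} (hQ : Q ≤ P)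
    {e' : CBlock (P.subgroupOf (Subgroup.centralizer (Q : Set G)))}
    (he' : IsPBlock M e')
    (hee : emb (Subgroup.centralizer (Q : Set G))
      (pbar M (P.subgroupOf (Subgroup.centralizer (Q : Set G))) e') = pbar M P e)
    {R' : Subgroup (Subgroup.centralizer (Q : Set G))}
    (hR' : R' ≤ P.subgroupOf (Subgroup.centralizer (Q : Set G)))
    (hC : Subgroup.centralizer
      ((Q ⊔ R'.map (Subgroup.centralizer (Q : Set G)).subtype : Subgroup G) : Set G) ≤
      Subgroup.centralizer (Q : Set G)) :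
    mapBlock (centSub hC (fun x => mem_centralizer_sup_of_mem x))
        (bel p M (P.subgroupOf (Subgroup.centralizer (Q : Set G))) e' R') =
      bel p M P e (Q ⊔ R'.map (Subgroup.centralizer (Q : Set G)).subtype) := by
  have hPC := le_centralizer_of_abelian hab hQ
  have hV : Q ⊔ R'.map (Subgroup.centralizer (Q : Set G)).subtype ≤ P := by
    refine sup_le hQ ?_
    rintro _ ⟨x, hx, rfl⟩
    exact Subgroup.mem_subgroupOf.1 (hR' hx)
  have hiff := fun x => mem_centralizer_sup_of_mem (Q := Q) (R' := R') x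
  have hab' : ∀ x ∈ P.subgroupOf (Subgroup.centralizer (Q : Set G)),
      ∀ y ∈ P.subgroupOf (Subgroup.centralizer (Q : Set G)), x * y = y * x := fun x hx y hy =>
    Subtype.ext (hab _ (Subgroup.mem_subgroupOf.1 hx) _ (Subgroup.mem_subgroupOf.1 hy))
  obtain ⟨hg, hle⟩ := bel_spec hM (hP.comap_subtype : IsPGroup p _) he' hR'
  refine (bel_unique hM hP he (le_of_occ hM hP he hab hV (isPBlock_mapBlock _ hg) ?_)).symm
  have hbr : ∀ z, br P (emb (Subgroup.centralizer (Q : Set G)) z) =
      emb (Subgroup.centralizer (Q : Set G))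
        (br (P.subgroupOf (Subgroup.centralizer (Q : Set G))) (z : MonoidAlgebra (ResField M) _)) :=
    fun z => by rw [← br_emb, Subgroup.map_subgroupOf_eq_of_le hPC]
  rw [Occ, pbar_centSub hC hiff, ← hee, hbr, ← map_mul]
  exact congrArg _ (occ_of_le hM hP.comap_subtype he' hab' hle)

section Values

variable (hM : IsPModular p M) (hmax : IsMaximalBrauerPair p M B P e)
  (hab : ∀ x ∈ P, ∀ y ∈ P, x * y = y * x)

include hM hmax hab

omit hmax in
theorem tos_fixd {ε : KG M G} (hf : Fixd P ε) (Q : Subgroup G) :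
    Fixd (P.subgroupOf (Subgroup.centralizer (Q : Set G))) (toSub (Subgroup.centralizer (Q : Set G)) ε) := by
  intro v hv
  refine emb_injective (M := M) (Subgroup.centralizer (Q : Set G)) ?_
  rw [← cj_emb, emb_tos, cj_br, hf _ (Subgroup.mem_subgroupOf.1 hv),
    sj_eq_of_mem_normalizer (centralizer_le_normalizer_self Q v.2)]

/-- The blocks of a centraliser absorb the image of `ε`. -/
theorem absorbs_local {ε : KG M G} (habs : Absorbs p M P e ε) {Q : Subgroup G} (hQ : Q ≤ P)
    {e' : CBlock (P.subgroupOf (Subgroup.centralizer (Q : Set G)))} (he' : IsPBlock M e')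
    (hee : emb (Subgroup.centralizer (Q : Set G)) (pbar M (P.subgroupOf (Subgroup.centralizer (Q : Set G))) e') = pbar M P e) :
    Absorbs p M (P.subgroupOf (Subgroup.centralizer (Q : Set G))) e' (toSub (Subgroup.centralizer (Q : Set G)) ε) := by
  obtain ⟨hP, he, -, -⟩ := (isBrauerPairOf_iff hM).1 hmax.1
  intro R' hR'
  have hC : Subgroup.centralizer ((Q ⊔ R'.map (Subgroup.centralizer (Q : Set G)).subtype : Subgroup G) : Set G) ≤ (Subgroup.centralizer (Q : Set G)) :=
    Subgroup.centralizer_le (SetLike.coe_subset_coe.2 le_sup_left)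
  have hV : Q ⊔ R'.map (Subgroup.centralizer (Q : Set G)).subtype ≤ P := by
    refine sup_le hQ ?_
    rintro _ ⟨z, hz, rfl⟩
    exact Subgroup.mem_subgroupOf.1 (hR' hz)
  have hiff := fun z => mem_centralizer_sup_of_mem (Q := Q) (R' := R') z
  have hbl := bel_local hM hP he hab hQ he' hee hR' hC
  have key : pbar M R' (bel p M (P.subgroupOf (Subgroup.centralizer (Q : Set G))) e' R') * br R' (toSub (Subgroup.centralizer (Q : Set G)) ε) = br R' (toSub (Subgroup.centralizer (Q : Set G)) ε) := by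
    refine emb_injective (M := M) (Subgroup.centralizer (Q : Set G)) ?_
    rw [map_mul, ← pbar_centSub hC hiff, hbl, ← br_centSub hiff, emb_tos,
      br_br le_sup_left, ← emb_tos (Q ⊔ R'.map (Subgroup.centralizer (Q : Set G)).subtype) ε, pbar, ← map_mul, habs _ hV]
  refine emb_injective (M := M) (Subgroup.centralizer (R' : Set (Subgroup.centralizer (Q : Set G)))) ?_
  rw [map_mul, emb_tos]
  exact key

/-- Ranks in a centraliser are ranks on joins. -/
theorem rn_sup {ε : KG M G} (hε : IsIdempotentElem ε) (hf : Fixd P ε) {Q : Subgroup G}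
    (hQ : Q ≤ P) (hfree : FreeAt M P e Q) {f : CBlock Q} {e' : CBlock (P.subgroupOf (Subgroup.centralizer (Q : Set G)))}
    (hmax' : IsMaximalBrauerPair p M f (P.subgroupOf (Subgroup.centralizer (Q : Set G))) e')
    (hee : emb (Subgroup.centralizer (Q : Set G)) (pbar M (P.subgroupOf (Subgroup.centralizer (Q : Set G))) e') = pbar M P e)
    {R' : Subgroup (Subgroup.centralizer (Q : Set G))} (hR' : R' ≤ (P.subgroupOf (Subgroup.centralizer (Q : Set G)))) (hfree' : FreeAt M (P.subgroupOf (Subgroup.centralizer (Q : Set G))) e' R') :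
    rn p M (P.subgroupOf (Subgroup.centralizer (Q : Set G))) e' (toSub (Subgroup.centralizer (Q : Set G)) ε) R' = rn p M P e ε (Q ⊔ R'.map (Subgroup.centralizer (Q : Set G)).subtype) := by
  obtain ⟨hP, he, -, -⟩ := (isBrauerPairOf_iff hM).1 hmax.1
  have hab' : ∀ x ∈ (P.subgroupOf (Subgroup.centralizer (Q : Set G))), ∀ y ∈ (P.subgroupOf (Subgroup.centralizer (Q : Set G))), x * y = y * x := fun x hx y hy =>
    Subtype.ext (hab _ (Subgroup.mem_subgroupOf.1 hx) _ (Subgroup.mem_subgroupOf.1 hy))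
  have hC : Subgroup.centralizer ((Q ⊔ R'.map (Subgroup.centralizer (Q : Set G)).subtype : Subgroup G) : Set G) ≤ (Subgroup.centralizer (Q : Set G)) :=
    Subgroup.centralizer_le (SetLike.coe_subset_coe.2 le_sup_left)
  have hV : Q ⊔ R'.map (Subgroup.centralizer (Q : Set G)).subtype ≤ P := by
    refine sup_le hQ ?_
    rintro _ ⟨z, hz, rfl⟩
    exact Subgroup.mem_subgroupOf.1 (hR' hz)
  have hiff := fun z => mem_centralizer_sup_of_mem (Q := Q) (R' := R') z
  have hbl := bel_local hM hP he hab hQ hmax'.1.1.2 hee hR' hC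
  obtain ⟨η, hη⟩ := exists_mem_bel hM hmax' hab' hR'
  have hη' : mapIrr (centSub hC hiff) η ∈ bel p M P e (Q ⊔ R'.map (Subgroup.centralizer (Q : Set G)).subtype) := by
    rw [← hbl]
    exact ⟨η, hη, rfl⟩
  have hxi : IsIdempotentElem (toSub (Subgroup.centralizer (Q : Set G)) ε) := tos_idem hM hP hε hf hQ
  have hxf := tos_fixd hM hab hf Q
  rw [rn_eq hM hmax' hab' hxi hxf hR' hfree' hη,
    rn_eq hM hmax hab hε hf hV (freeAt_mono le_sup_left hfree) hη']
  exact (theta_map hM _ η (tos_idem hM hmax'.1.1.1 hxi hxf hR') fun c => rfl).symm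

/-- Ranks on the joins with `Q` form a twisted character. -/
theorem exists_twist {ε : KG M G} (hε : IsIdempotentElem ε) (hf : Fixd P ε)
    (habs : Absorbs p M P e ε) {Q : Subgroup G} (hQ : Q ≤ P) (hfree : FreeAt M P e Q)
    {A : Type u} [CommGroup A] [Fintype A] (j : A →* G) (hj : ∀ a, j a ∈ P) :
    ∃ ω : A → ℂ, (∀ a, ω a * ω a⁻¹ = 1) ∧ (∀ a, IsIntegral ℤ (ω a)) ∧
      (fun a => ω a * rn p M P e ε (Q ⊔ Subgroup.zpowers (j a))) ∈ Vr A := by
  classical
  obtain ⟨hP, he, -, -⟩ := (isBrauerPairOf_iff hM).1 hmax.1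
  obtain ⟨-, hle⟩ := bel_spec hM hP he hQ
  obtain ⟨e', hmax', hee, hst⟩ := exists_local hM hmax hab hle
  have hPC := le_centralizer_of_abelian hab hQ
  have hab' : ∀ x ∈ (P.subgroupOf (Subgroup.centralizer (Q : Set G))), ∀ y ∈ (P.subgroupOf (Subgroup.centralizer (Q : Set G))), x * y = y * x := fun x hx y hy =>
    Subtype.ext (hab _ (Subgroup.mem_subgroupOf.1 hx) _ (Subgroup.mem_subgroupOf.1 hy))
  have hT' : stab M (P.subgroupOf (Subgroup.centralizer (Q : Set G))) e' ≤ Subgroup.centralizer ((P.subgroupOf (Subgroup.centralizer (Q : Set G))) : Set (Subgroup.centralizer (Q : Set G))) := fun t ht =>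
    Subgroup.mem_centralizer_iff.2 fun v hv => Subtype.ext
      (Subgroup.mem_centralizer_iff.1 (hfree ⟨(hst t).1 ht, t.2⟩) v (Subgroup.mem_subgroupOf.1 hv))
  have hxi : IsIdempotentElem (toSub (Subgroup.centralizer (Q : Set G)) ε) := tos_idem hM hP hε hf hQ
  have hxf := tos_fixd hM hab hf Q
  obtain ⟨η₀, h₀⟩ := exists_mem_bel hM hmax hab hQ
  obtain ⟨X, hX, hXx, hXc⟩ := exists_lift_one hxi
  let ι : A →* (P.subgroupOf (Subgroup.centralizer (Q : Set G))) :=
    { toFun := fun a => ⟨⟨j a, hPC (hj a)⟩, Subgroup.mem_subgroupOf.2 (hj a)⟩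
      map_one' := Subtype.ext (Subtype.ext (map_one j))
      map_mul' := fun a b => Subtype.ext (Subtype.ext (map_mul j a b)) }
  refine ⟨fun a => dv p M (P.subgroupOf (Subgroup.centralizer (Q : Set G))) e' (η₀ : (Subgroup.centralizer (Q : Set G)) → ℂ) (ι a : (Subgroup.centralizer (Q : Set G))), fun a => ?_,
    fun a => isIntegral_dv hM hmax' hab' (Char.isCharacter_of_isIrr η₀.2) _, ?_⟩
  · show dv p M (P.subgroupOf (Subgroup.centralizer (Q : Set G))) e' (η₀ : (Subgroup.centralizer (Q : Set G)) → ℂ) (ι a : (Subgroup.centralizer (Q : Set G))) *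
      dv p M (P.subgroupOf (Subgroup.centralizer (Q : Set G))) e' (η₀ : (Subgroup.centralizer (Q : Set G)) → ℂ) (ι a⁻¹ : (Subgroup.centralizer (Q : Set G))) = 1
    rw [map_inv, Subgroup.coe_inv, ← conj_dv hM hmax' hab' (Char.isCharacter_of_isIrr η₀.2)]
    exact dv_mul_conj_eq_one hM hmax' hab' hT' h₀ (ι a).2
  · have hch := isCharacter_pair_idem (Char.isCharacter_of_isIrr η₀.2) (P.subgroupOf (Subgroup.centralizer (Q : Set G))) (hX.map toC)
      fun v hv => by
        have := (hXc v (hxf v hv)).map (toC (M := M))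
        rwa [toC_single] at this
    convert mem_of_character (Char.isCharacter_comp hch ι) using 1
    funext a
    show _ = pair (η₀ : (Subgroup.centralizer (Q : Set G)) → ℂ) (toC X * MonoidAlgebra.single (ι a : (Subgroup.centralizer (Q : Set G))) 1)
    rw [pair_eq_dv_mul_rn hM hmax' hab' (Char.isClassFunction_of_isIrr η₀.2) hxi hxf
        (absorbs_local hM hmax hab habs hQ hmax'.1.1.2 hee) hX hXx (ι a).2
        (hXc _ (hxf _ (ι a).2)) (inf_le_left.trans hT'),
      rn_sup hM hmax hab hε hf hQ hfree hmax' hee (Subgroup.zpowers_le.2 (ι a).2)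
        (inf_le_left.trans hT'), MonoidHom.map_zpowers]
    rfl

/-- The squares of the ranks agree modulo the prime. -/
theorem redC_rn_sq {ε : KG M G} (hε : IsIdempotentElem ε) (hf : Fixd P ε)
    (habs : Absorbs p M P e ε) {Q : Subgroup G} (hQ : Q ≤ P) (hfree : FreeAt M P e Q) {z : G}
    (hz : z ∈ P) :
    redC M (rn p M P e ε (Q ⊔ Subgroup.zpowers z) * rn p M P e ε (Q ⊔ Subgroup.zpowers z)) =
      redC M (rn p M P e ε Q * rn p M P e ε Q) := by
  haveI := Fintype.ofFinite P
  letI : CommGroup P :=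
    { (inferInstance : Group P) with mul_comm := fun a b => Subtype.ext (hab _ a.2 _ b.2) }
  obtain ⟨ω, hω, -, hmem⟩ := exists_twist hM hmax hab hε hf habs hQ hfree P.subtype (fun a => a.2)
  have h := redC_eq_one hM (show IsPGroup p P from hmax.1.1.1)
    (Subring.mul_mem _ hmem (inv_mem' hmem)) (⟨z, hz⟩ : P)
  obtain ⟨-, h⟩ := h
  have key : ∀ a : P, ω a * rn p M P e ε (Q ⊔ Subgroup.zpowers (P.subtype a)) *
      (ω a⁻¹ * rn p M P e ε (Q ⊔ Subgroup.zpowers (P.subtype a⁻¹))) =
      rn p M P e ε (Q ⊔ Subgroup.zpowers (a : G)) * rn p M P e ε (Q ⊔ Subgroup.zpowers (a : G)) := by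
    intro a
    rw [show P.subtype a⁻¹ = (a : G)⁻¹ from rfl, Subgroup.zpowers_inv, mul_mul_mul_comm, hω, one_mul]
    rfl
  simp only [Pi.mul_apply] at h
  rw [key ⟨z, hz⟩, key 1] at h
  rw [h, OneMemClass.coe_one, Subgroup.zpowers_one_eq_bot, sup_bot_eq]

/-- Up to sign all ranks agree modulo the prime. -/
theorem redC_rn_sq_top {ε : KG M G} (hε : IsIdempotentElem ε) (hf : Fixd P ε)
    (habs : Absorbs p M P e ε) {Q : Subgroup G} (hQ : Q ≤ P) (hfree : FreeAt M P e Q) :
    redC M (rn p M P e ε Q * rn p M P e ε Q) = redC M (rn p M P e ε P * rn p M P e ε P) := by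
  induction Q using WellFoundedGT.induction with
  | _ Q ih =>
    by_cases h : Q = P
    · rw [h]
    obtain ⟨z, hz, hzQ⟩ := SetLike.exists_of_lt (lt_of_le_of_ne hQ h)
    rw [← redC_rn_sq hM hmax hab hε hf habs hQ hfree hz]
    refine ih _ (lt_of_le_of_ne le_sup_left fun he => hzQ ?_) (sup_le hQ (Subgroup.zpowers_le.2 hz))
      (freeAt_mono le_sup_left hfree)
    rw [he]
    exact Subgroup.mem_sup_right (Subgroup.mem_zpowers z)

end Values

end Cfsg.Agent.Lib.FreeInertial
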