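import Cfsg.Agent.Lib.FreeInertial.Virtual
import Cfsg.Agent.Lib.FreeInertial.Combin
import Cfsg.Agent.Lib.CyclicDefect.FromDefect

/-!
# Counting for a free inertial quotient
-/

set_option autoImplicit false
set_option linter.unusedSectionVars false
set_option linter.style.haveILetI false
set_option maxHeartbeats 800000

namespace Cfsg.Agent.Lib.FreeInertial

open Cfsg Cfsg.Agent.Lib Cfsg.Agent.Lib.Block Cfsg.Agent.Lib.BrauerPairs Cfsg.Agent.Lib.Star
open Cfsg.Agent.Lib.Watanabe (conj_mem_of_stab orb mem_orb card_block_eq_sum_orb exists_rank_fn)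
open scoped ComplexConjugate

universe u

theorem conj_dual {A : Type u} [CommGroup A] [Finite A] (l : A →* ℂˣ) (x : A) :
    conj (l x : ℂ) = (l x⁻¹ : ℂ) := by
  have hpow : ‖((l x : ℂˣ) : ℂ)‖ = 1 :=
    Complex.norm_eq_one_of_pow_eq_one (n := Nat.card A)
      (by rw [← Units.val_pow_eq_pow_val, ← map_pow, pow_card_eq_one', map_one, Units.val_one])
      Nat.card_pos.ne'
  rw [map_inv, Units.val_inv_eq_inv_val, Complex.inv_eq_conj hpow]

/-- The orbit relation on the nontrivial linear characters. -/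
theorem exists_reps {A : Type u} [CommGroup A] [Fintype A] (E : Subgroup (MulAut A))
    (hfree : ∀ α ∈ E, ∀ x : A, x ≠ 1 → α x = x → α = 1) :
    ∃ (X : Type u) (_ : Fintype X) (rep : X → (A →* ℂˣ)),
      (∀ i, rep i ≠ 1) ∧
      (∀ i j, ∀ α ∈ E, (rep j).comp (α : MulAut A).toMonoidHom = rep i → i = j ∧ α = 1) ∧
      (∀ l : A →* ℂˣ, l ≠ 1 → ∃ i, ∃ α ∈ E, (rep i).comp (α : MulAut A).toMonoidHom = l) ∧
      Nat.card X * Nat.card E + 1 = Nat.card A := by
  classical
  haveI := Fintype.ofFinite E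
  have hdual : ∀ (α : MulAut A), α ∈ E → ∀ l : A →* ℂˣ, l.comp α.toMonoidHom = l → l ≠ 1 →
      α = 1 := by
    intro α hα l hl hne
    by_contra hne'
    let f : A →* A :=
      { toFun := fun z => z⁻¹ * α z
        map_one' := by simp
        map_mul' := fun a b => by rw [map_mul, mul_inv, mul_mul_mul_comm] }
    have hf : Function.Injective f := by
      rw [injective_iff_map_eq_one]
      intro z hz
      by_contra hz1
      exact hne' (hfree α hα z hz1 (inv_mul_eq_one.1 hz).symm)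
    refine hne (MonoidHom.ext fun y => ?_)
    obtain ⟨z, rfl⟩ := (Finite.injective_iff_surjective.1 hf) y
    show l (z⁻¹ * α z) = 1
    rw [map_mul, map_inv, show l (α z) = l z from DFunLike.congr_fun hl z, inv_mul_cancel]
  let D := {l : A →* ℂˣ // l ≠ 1}
  have hcomp : ∀ (α β : MulAut A) (l : A →* ℂˣ),
      (l.comp α.toMonoidHom).comp β.toMonoidHom = l.comp (α * β).toMonoidHom := fun _ _ _ => rfl
  have hone : ∀ l : A →* ℂˣ, l.comp (1 : MulAut A).toMonoidHom = l := fun _ => rfl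
  let r : Setoid D :=
    { r := fun a b => ∃ α ∈ E, a.1.comp (α : MulAut A).toMonoidHom = b.1
      iseqv :=
        { refl := fun a => ⟨1, E.one_mem, hone _⟩
          symm := by
            rintro a b ⟨α, hα, h⟩
            exact ⟨α⁻¹, inv_mem hα, by rw [← h, hcomp, mul_inv_cancel, hone]⟩
          trans := by
            rintro a b c ⟨α, hα, h⟩ ⟨β, hβ, h'⟩
            exact ⟨α * β, mul_mem hα hβ, by rw [← hcomp, h, h']⟩ } }
  let X := Quotient r
  haveI : Fintype X := Fintype.ofFinite X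
  let rep : X → (A →* ℂˣ) := fun i => (Quotient.out i).1
  have h1 : ∀ i, rep i ≠ 1 := fun i => (Quotient.out i).2
  have h2 : ∀ i j, ∀ α ∈ E, (rep j).comp (α : MulAut A).toMonoidHom = rep i → i = j ∧ α = 1 := by
    intro i j α hα h
    have hij : j = i := by
      rw [← Quotient.out_eq j, ← Quotient.out_eq i]
      exact Quotient.sound ⟨α, hα, h⟩
    subst hij
    exact ⟨rfl, hdual α hα _ h (h1 _)⟩
  have h3 : ∀ l : A →* ℂˣ, l ≠ 1 → ∃ i, ∃ α ∈ E, (rep i).comp (α : MulAut A).toMonoidHom = l := by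
    intro l hl
    obtain ⟨α, hα, h⟩ := Quotient.mk_out (s := r) ⟨l, hl⟩
    exact ⟨Quotient.mk r ⟨l, hl⟩, α, hα, h⟩
  refine ⟨X, inferInstance, rep, h1, h2, h3, ?_⟩
  have hbij : Function.Bijective fun q : X × E =>
      (⟨(rep q.1).comp (q.2 : MulAut A).toMonoidHom, fun h => h1 q.1 (by
        rw [← hone (rep q.1), ← mul_inv_cancel (q.2 : MulAut A), ← hcomp, h]; rfl)⟩ : D) := by
    constructor
    · rintro ⟨i, α⟩ ⟨j, β⟩ h
      have h' : (rep j).comp ((β : MulAut A) * (α : MulAut A)⁻¹).toMonoidHom = rep i := by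
        rw [← hcomp, ← show (rep i).comp (α : MulAut A).toMonoidHom =
          (rep j).comp (β : MulAut A).toMonoidHom from congrArg Subtype.val h, hcomp,
          mul_inv_cancel, hone]
      obtain ⟨rfl, hab⟩ := h2 _ _ _ (mul_mem β.2 (inv_mem α.2)) h'
      exact Prod.ext rfl (Subtype.ext (mul_inv_eq_one.1 hab).symm)
    · rintro ⟨l, hl⟩
      obtain ⟨i, α, hα, h⟩ := h3 l hl
      exact ⟨(i, ⟨α, hα⟩), Subtype.ext h⟩
  have hD : Fintype.card D + 1 = Fintype.card A := by
    rw [← card_dual (P := A), Fintype.card_subtype_compl, Fintype.card_subtype_eq]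
    exact Nat.sub_add_cancel Fintype.card_pos
  rw [Nat.card_eq_fintype_card, Nat.card_eq_fintype_card, Nat.card_eq_fintype_card,
    ← Fintype.card_prod, Fintype.card_of_bijective hbij, hD]

/-- The Gram matrix of the coefficients. -/
theorem gram_coef {A : Type u} [CommGroup A] [Fintype A] [DecidableEq A] (E : Subgroup (MulAut A))
    [Fintype E] {ι : Type*} (s : Finset ι) (D : ι → A → ℂ)
    (horth : ∀ v w : A, v ≠ 1 → w ≠ 1 → ∑ χ ∈ s, D χ v * conj (D χ w) =
      (Fintype.card A : ℂ) * ∑ α : E, (if (α : MulAut A) v = w then (1 : ℂ) else 0))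
    [DecidableEq (A →* ℂˣ)] {l μ : A →* ℂˣ} (hl : l ≠ 1) (hμ : μ ≠ 1) :
    ∑ χ ∈ s, (coef (D χ) l - coef (D χ) 1) * conj (coef (D χ) μ - coef (D χ) 1) =
      (Fintype.card E : ℂ) +
        ∑ α : E, (if μ.comp (α : MulAut A).toMonoidHom = l then (1 : ℂ) else 0) := by
  classical
  set a : A → ℂ := fun v => (l v⁻¹ : ℂ) - 1 with ha
  set b : A → ℂ := fun w => (μ w : ℂ) - 1 with hb
  have hy : ∀ (f : A → ℂ) (k : A →* ℂˣ), coef f k - coef f 1 =
      (Fintype.card A : ℂ)⁻¹ * ∑ v, f v * ((k v⁻¹ : ℂ) - 1) := by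
    intro f k
    simp only [coef, ← mul_sub, ← Finset.sum_sub_distrib, MonoidHom.one_apply, Units.val_one,
      mul_one]
    exact congrArg _ (Finset.sum_congr rfl fun v _ => by ring)
  have hyc : ∀ χ, conj (coef (D χ) μ - coef (D χ) 1) =
      (Fintype.card A : ℂ)⁻¹ * ∑ w, conj (D χ w) * b w := by
    intro χ
    rw [hy, map_mul, map_inv₀, map_natCast, map_sum]
    refine congrArg _ (Finset.sum_congr rfl fun w _ => ?_)
    rw [map_mul, map_sub, map_one, conj_dual, inv_inv]
  rw [Finset.sum_congr rfl fun χ _ => show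
    (coef (D χ) l - coef (D χ) 1) * conj (coef (D χ) μ - coef (D χ) 1) =
      (Fintype.card A : ℂ)⁻¹ * (Fintype.card A : ℂ)⁻¹ *
        ∑ v, ∑ w, a v * b w * (D χ v * conj (D χ w)) by
    rw [hy, hyc, mul_mul_mul_comm, Finset.sum_mul_sum]
    exact congrArg _ (Finset.sum_congr rfl fun v _ => Finset.sum_congr rfl fun w _ => by
      simp only [ha]; ring), ← Finset.mul_sum, Finset.sum_comm]
  rw [Finset.sum_congr rfl fun v _ => Finset.sum_comm]
  simp only [← Finset.mul_sum]
  have hterm : ∀ v w : A, a v * b w * ∑ χ ∈ s, D χ v * conj (D χ w) =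
      a v * b w * ((Fintype.card A : ℂ) *
        ∑ α : E, (if (α : MulAut A) v = w then (1 : ℂ) else 0)) := by
    intro v w
    by_cases hv : v = 1
    · simp [ha, hv]
    by_cases hw : w = 1
    · simp [hb, hw]
    rw [horth v w hv hw]
  rw [Finset.sum_congr rfl fun v _ => Finset.sum_congr rfl fun w _ => hterm v w]
  have hl' : l⁻¹ ≠ 1 := fun h => hl (MonoidHom.ext fun z => inv_eq_one.1 (DFunLike.congr_fun h z))
  have hval : ∀ α : E, ∑ v, a v * b ((α : MulAut A) v) = (Fintype.card A : ℂ) *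
      (1 + if μ.comp (α : MulAut A).toMonoidHom = l then (1 : ℂ) else 0) := by
    intro α
    rw [Finset.sum_congr rfl fun v _ => show a v * b ((α : MulAut A) v) =
      ((l⁻¹ * μ.comp (α : MulAut A).toMonoidHom) v : ℂ) - (l⁻¹ v : ℂ) -
        ((μ.comp (α : MulAut A).toMonoidHom) v : ℂ) + 1 by
      simp [ha, hb]; ring, Finset.sum_add_distrib, Finset.sum_sub_distrib,
      Finset.sum_sub_distrib, sum_char, sum_char, sum_char, if_neg hl']
    have hμ' : μ.comp (α : MulAut A).toMonoidHom ≠ 1 := fun h => hμ (MonoidHom.ext fun z => by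
      obtain ⟨y, rfl⟩ := (α : MulAut A).surjective z
      exact DFunLike.congr_fun h y)
    rw [if_neg hμ', Finset.sum_const, Finset.card_univ, nsmul_eq_mul]
    have hiff : l⁻¹ * μ.comp (α : MulAut A).toMonoidHom = 1 ↔
        μ.comp (α : MulAut A).toMonoidHom = l :=
      ⟨fun h => (inv_mul_eq_one.1 h).symm, fun h => by rw [h]; exact inv_mul_cancel l⟩
    by_cases hc : μ.comp (α : MulAut A).toMonoidHom = l
    · rw [if_pos (hiff.2 hc), if_pos hc]; ring
    · rw [if_neg (fun h => hc (hiff.1 h)), if_neg hc]; ring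
  calc (Fintype.card A : ℂ)⁻¹ * (Fintype.card A : ℂ)⁻¹ * ∑ v, ∑ w, a v * b w *
        ((Fintype.card A : ℂ) * ∑ α : E, (if (α : MulAut A) v = w then (1 : ℂ) else 0))
      = (Fintype.card A : ℂ)⁻¹ * ∑ α : E, ∑ v, a v * b ((α : MulAut A) v) := by
        rw [mul_assoc]
        congr 1
        rw [Finset.mul_sum, Finset.sum_comm (γ := E)]
        refine Finset.sum_congr rfl fun v _ => ?_
        simp only [Finset.mul_sum]
        rw [Finset.sum_comm]
        refine Finset.sum_congr rfl fun α _ => ?_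
        rw [Finset.sum_eq_single ((α : MulAut A) v) (fun w _ hw => by rw [if_neg (Ne.symm hw)]; simp)
          (by simp), if_pos rfl]
        field_simp [card_ne]
    _ = _ := by
        rw [Finset.sum_congr rfl fun α _ => hval α, ← Finset.mul_sum, ← mul_assoc,
          inv_mul_cancel₀ card_ne, one_mul, Finset.sum_add_distrib, Finset.sum_const,
          Finset.card_univ, nsmul_eq_mul, mul_one]

variable {p : ℕ} {M : Ideal AlgInt} [M.IsPrime] {G : Type u} [Group G] [Finite G]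
  {B : Set (IrrCharacter G)} {P : Subgroup G} {e : CBlock P}

/-- A member whose decomposition numbers vanish off the identity vanishes off `p'`-elements. -/
theorem apply_eq_zero_of_dv (hM : IsPModular p M) (hmax : IsMaximalBrauerPair p M B P e)
    (hab : ∀ x ∈ P, ∀ y ∈ P, x * y = y * x)
    (hfree : ∀ Q : Subgroup G, Q ≤ P → Q ≠ ⊥ → FreeAt M P e Q) {χ : IrrCharacter G} (hχ : χ ∈ B)
    (hd : ∀ v ∈ P, v ≠ 1 → dv p M P e (χ : G → ℂ) v = 0) {g : G} (hg : p ∣ orderOf g) :
    (χ : G → ℂ) g = 0 := by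
  classical
  haveI : Fact p.Prime := ⟨hM.1⟩
  obtain ⟨hP, he, hB, -⟩ := (isBrauerPairOf_iff hM).1 hmax.1
  have hc := Char.isClassFunction_of_isIrr χ.2
  obtain ⟨s, hs, hsg⟩ := exists_parts hM g
  have hu1 : pp p g ≠ 1 := by
    intro h
    have hgs : g = (s : G) := by rw [← one_mul (s : G), ← h, hsg]
    exact hs (by rwa [← Subgroup.orderOf_coe, ← hgs])
  rw [← starFn_one hM hc g, starFn_eq_sec]
  refine Finset.sum_eq_zero fun a ha => ?_
  rw [one_mul]
  obtain ⟨f, hf, rfl⟩ := mem_pset.1 ha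
  by_cases hp : IsBrauerPairOf p M B (Subgroup.zpowers (pp p g)) f
  swap
  · have h0 := sec_eq_zero_of_not_pair hM hB hχ (isPElem_pp g) hf hp hs
    rwa [hsg] at h0
  have hst : StableFn p M P e fun _ => (1 : ℂ) := fun _ _ _ _ _ => rfl
  obtain ⟨y, hy, hya, -⟩ := weight_pair hM hmax hst hp
  have hne : y * pp p g * y⁻¹ ≠ 1 := fun h => hu1 (conj_eq_one_iff.1 h)
  rw [← sec_conj hc y ha g, hya]
  have hpx : pp p (y * g * y⁻¹) = y * pp p g * y⁻¹ :=
    pp_eq (IsPPart.conj (isPPart_pp (p := p) g) y)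
  obtain ⟨s', hs', hsg'⟩ : ∃ s' : Subgroup.centralizer
      (Subgroup.zpowers (y * pp p g * y⁻¹) : Set G),
      ¬ p ∣ orderOf s' ∧ y * pp p g * y⁻¹ * (s' : G) = y * g * y⁻¹ := by
    obtain ⟨s', hs', hsg'⟩ := exists_parts hM (y * g * y⁻¹)
    generalize pp p (y * g * y⁻¹) = z at hpx s' hs' hsg'
    subst hpx
    exact ⟨s', hs', hsg'⟩
  have hQ := Subgroup.zpowers_le.2 hy
  have hfz := hfree _ hQ fun h => hne (Subgroup.zpowers_eq_bot.1 h)
  obtain ⟨η₀, h₀⟩ := exists_mem_bel hM hmax hab hQ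
  rw [← hsg', sec_below hM hmax hab hc hy hfz h₀ hs', hd _ hy hne, zero_mul]

theorem regInner_eq_classInner [Fintype G] {φ ψ : G → ℂ} (h : ∀ g, p ∣ orderOf g → φ g = 0) :
    regInner p φ ψ = classInner φ ψ := by
  rw [regInner]
  refine congrArg (fun f => classInner f ψ) (funext fun g => ?_)
  split_ifs with hg
  · rw [h g hg]
  · rfl

/-- The counts for a free inertial quotient. -/
theorem counts (hM : IsPModular p M) (hmax : IsMaximalBrauerPair p M B P e)
    (hab : ∀ x ∈ P, ∀ y ∈ P, x * y = y * x) (hne : P ≠ ⊥)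
    (hfr : ∀ t ∈ stab M P e, ∀ x ∈ P, x ≠ 1 → t * x * t⁻¹ = x →
      t ∈ Subgroup.centralizer (P : Set G))
    {n : ℕ} (hn : (Subgroup.centralizer (P : Set G)).relIndex (stab M P e) = n) :
    ∃ m : ℕ, 0 < n ∧ m * n + 1 = Nat.card P ∧ Nat.card B = blockRank p B + m ∧
      Nat.card B ≤ n + m ∧
      (n ≤ 3 → Nat.card B < n + m → n * m + 1 = 7 ∨ n * m + 1 = 10 ∨ n * m + 1 = 13) := by
  classical
  haveI : Fact p.Prime := ⟨hM.1⟩
  haveI := Fintype.ofFinite G
  haveI := Fintype.ofFinite P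
  haveI := Fintype.ofFinite (IrrCharacter G)
  haveI : Nontrivial P := (Subgroup.nontrivial_iff_ne_bot P).2 hne
  letI : CommGroup P :=
    { (inferInstance : Group P) with mul_comm := fun a b => Subtype.ext (hab _ a.2 _ b.2) }
  obtain ⟨hP, he, hB, -⟩ := (isBrauerPairOf_iff hM).1 hmax.1
  have hfree : ∀ Q : Subgroup G, Q ≤ P → Q ≠ ⊥ → FreeAt M P e Q := by
    rintro Q hQ hQ1 t ⟨ht, htC⟩
    obtain ⟨x, hxQ, hx1⟩ := (Subgroup.bot_or_exists_ne_one Q).resolve_left hQ1
    refine hfr t ht x (hQ hxQ) hx1 ?_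
    rw [← Subgroup.mem_centralizer_iff.1 htC x hxQ, mul_inv_cancel_right]
  -- the automorphism group
  let φ : stab M P e →* MulAut P :=
    { toFun := fun t => normEquiv t.2.1
      map_one' := MulEquiv.ext fun z => Subtype.ext (by rw [coe_normEquiv]; simp)
      map_mul' := fun s t => MulEquiv.ext fun z => Subtype.ext (by
        simp only [MulAut.mul_apply, coe_normEquiv, Subgroup.coe_mul]
        group) }
  haveI := Fintype.ofFinite φ.range
  have hφ : ∀ (t : stab M P e) (z : P), ((φ t z : P) : G) = (t : G) * z * (t : G)⁻¹ :=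
    fun t z => coe_normEquiv t.2.1 z
  have hker : φ.ker = (Subgroup.centralizer (P : Set G)).subgroupOf (stab M P e) := by
    ext t
    rw [MonoidHom.mem_ker, Subgroup.mem_subgroupOf, Subgroup.mem_centralizer_iff]
    constructor
    · intro h z hz
      have h1 : (t : G) * z * (t : G)⁻¹ = z := by
        rw [← hφ t ⟨z, hz⟩, h, MulAut.one_apply]
      conv_lhs => rw [← h1]
      group
    · intro h
      refine MulEquiv.ext fun z => Subtype.ext ?_
      rw [MulAut.one_apply, hφ, ← h z z.2, mul_inv_cancel_right]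
  have hcard : Nat.card φ.range = n := by
    rw [← hn, ← Subgroup.index_ker, hker]
    rfl
  have hfα : ∀ α ∈ φ.range, ∀ x : P, x ≠ 1 → α x = x → α = 1 := by
    rintro _ ⟨t, rfl⟩ x hx h
    refine MonoidHom.mem_ker.1 ?_
    rw [hker, Subgroup.mem_subgroupOf]
    exact hfr t t.2 x x.2 (fun h1 => hx (Subtype.ext h1)) (by rw [← hφ, h])
  obtain ⟨X, _, rep, hr1, hr2, hr3, hXc⟩ := exists_reps φ.range hfα
  -- the virtual characters
  obtain ⟨σ, hσ, hσc, hD⟩ := exists_virtual hM hmax hab hfree P.subtype P.subtype_injective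
    (fun a => a.2)
  choose D hDV hDinv hDx using hD
  have hinv : ∀ χ : IrrCharacter G, ∀ α ∈ φ.range, ∀ z : P, D χ (α z) = D χ z := by
    rintro χ _ ⟨t, rfl⟩ z
    exact hDinv χ t t.2 z (φ t z) (hφ t z)
  have hcinv : ∀ χ : IrrCharacter G, ∀ α ∈ φ.range, ∀ l : P →* ℂˣ,
      coef (D χ) (l.comp (α : MulAut P).toMonoidHom) = coef (D χ) l := by
    intro χ α hα l
    simp only [coef]
    refine congrArg _ ?_
    conv_rhs => rw [← Equiv.sum_comp (α : MulAut P).toEquiv]
    refine Finset.sum_congr rfl fun x _ => ?_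
    show D χ x * (l (α x⁻¹) : ℂ) = D χ (α x) * (l (α x)⁻¹ : ℂ)
    rw [hinv χ α hα, map_inv α]
  let ι := {χ : IrrCharacter G // χ ∈ B}
  have hYex : ∀ (χ : ι) (i : X), ∃ z : ℤ,
      coef (D χ.1) (rep i) - coef (D χ.1) 1 = (z : ℂ) := by
    intro χ i
    obtain ⟨a, ha⟩ := good_of_mem (hDV χ.1) (rep i)
    obtain ⟨b, hb⟩ := good_of_mem (hDV χ.1) 1
    exact ⟨a - b, by rw [ha, hb]; push_cast; rfl⟩
  choose Y hY using hYex
  have hmem : ∀ {v : P}, v ≠ 1 → FreeAt M P e (Subgroup.zpowers (v : G)) := fun {v} hv =>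
    hfree _ (Subgroup.zpowers_le.2 v.2) fun h => hv (Subtype.ext (Subgroup.zpowers_eq_bot.1 h))
  have hsub : ∀ f : IrrCharacter G → ℂ, (∀ χ, χ ∉ B → f χ = 0) →
      ∑ χ : ι, f χ.1 = ∑ χ : IrrCharacter G, f χ := by
    intro f hf
    rw [← Finset.sum_subset (Finset.subset_univ (Finset.univ.filter fun χ : IrrCharacter G => χ ∈ B))
      fun χ _ hχ => hf χ fun h => hχ (Finset.mem_filter.2 ⟨Finset.mem_univ _, h⟩)]
    exact (Finset.sum_subtype _ (fun χ => by simp) f).symm
  have horth : ∀ v w : P, v ≠ 1 → w ≠ 1 →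
      ∑ χ ∈ (Finset.univ : Finset ι), D χ.1 v * conj (D χ.1 w) =
        (Fintype.card P : ℂ) * ∑ α : φ.range, (if (α : MulAut P) v = w then (1 : ℂ) else 0) := by
    intro v w hv hw
    have hsum : ∑ χ ∈ (Finset.univ : Finset ι), D χ.1 v * conj (D χ.1 w) =
        σ v * σ w * ∑ χ : IrrCharacter G,
          dv p M P e (χ : G → ℂ) (v : G) * conj (dv p M P e (χ : G → ℂ) (w : G)) := by
      rw [Finset.mul_sum, ← hsub _ fun χ hχ => by
        rw [dv_eq_zero_of_not_mem hM hmax hab hχ v.2 (hmem hv), zero_mul, mul_zero]]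
      refine Finset.sum_congr rfl fun χ _ => ?_
      rw [hDx χ.1 v hv, hDx χ.1 w hw, map_mul, hσc]
      simp only [Subgroup.coe_subtype]
      ring
    by_cases hex : ∃ α : φ.range, (α : MulAut P) v = w
    · obtain ⟨α, hα⟩ := hex
      rw [Finset.sum_eq_single α (fun β _ hβ => if_neg fun h => hβ ?_) (by simp), if_pos hα,
        mul_one]
      swap
      · refine Subtype.ext (inv_mul_eq_one.1 (hfα _ (mul_mem (inv_mem α.2) β.2) v hv ?_)).symm
        rw [MulAut.mul_apply, h, ← hα, MulAut.inv_apply, MulEquiv.symm_apply_apply]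
      rw [Finset.sum_congr rfl fun χ _ => show D χ.1 v * conj (D χ.1 w) =
        D χ.1 v * conj (D χ.1 v) by rw [← hα, hinv χ.1 _ α.2]]
      have := sum_dv_mul_conj hM hmax hab v.2 (hmem hv)
      rw [Nat.card_eq_fintype_card] at this
      rw [← this]
      rw [← hsub _ fun χ hχ => by
        rw [dv_eq_zero_of_not_mem hM hmax hab hχ v.2 (hmem hv), zero_mul]]
      refine Finset.sum_congr rfl fun χ _ => ?_
      rw [hDx χ.1 v hv, map_mul, hσc, mul_mul_mul_comm, hσ, mul_one]
      rfl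
    · rw [hsum, sum_dv_orth hM hmax hab v.2 w.2 (hmem hv) (hmem hw) fun h => ?_, mul_zero,
        Finset.sum_eq_zero fun α _ => if_neg fun h => hex ⟨α, h⟩, mul_zero]
      obtain ⟨t, ht, htw⟩ := mem_orb.1 h
      refine hex ⟨⟨φ ⟨t, ht⟩, ⟨t, ht⟩, rfl⟩⁻¹, ?_⟩
      rw [Subgroup.coe_inv, MulAut.inv_apply, MulEquiv.symm_apply_eq]
      exact Subtype.ext (by rw [hφ]; exact htw.symm)
  have hgram : ∀ i j, ∑ χ : ι, Y χ i * Y χ j = (n : ℤ) + if i = j then 1 else 0 := by
    intro i j
    have h := gram_coef φ.range (Finset.univ : Finset ι) (fun χ => D χ.1) horth (hr1 i) (hr1 j)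
    rw [Finset.sum_congr rfl fun χ _ => show
      (coef (D χ.1) (rep i) - coef (D χ.1) 1) * conj (coef (D χ.1) (rep j) - coef (D χ.1) 1) =
        ((Y χ i * Y χ j : ℤ) : ℂ) by rw [hY, hY, map_intCast]; push_cast; rfl] at h
    have hδ : ∑ α : φ.range, (if (rep j).comp (α : MulAut P).toMonoidHom = rep i
        then (1 : ℂ) else 0) = if i = j then 1 else 0 := by
      split_ifs with hij
      · subst hij
        rw [Finset.sum_eq_single (1 : φ.range) (fun α _ hα => if_neg fun h =>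
          hα (Subtype.ext (hr2 _ _ _ α.2 h).2)) (by simp)]
        exact if_pos rfl
      · exact Finset.sum_eq_zero fun α _ => if_neg fun h => hij (hr2 _ _ _ α.2 h).1
    rw [hδ, ← Nat.card_eq_fintype_card, hcard] at h
    exact Int.cast_injective (α := ℂ) (by push_cast at h ⊢; rw [h])
  -- the number of characters
  obtain ⟨L, hL⟩ := exists_rank_fn hM hP he
  have hkl : Nat.card B = blockRank p B + Fintype.card X := by
    have h := card_block_eq_sum_orb hM hmax hab (fun v => L (Subgroup.zpowers v))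
      fun v _ f hf => hL _ f hf
    have hval : ∀ v ∈ P, v ≠ 1 →
        (L (Subgroup.zpowers v) : ℂ) / ((orb (stab M P e) v).card : ℂ) = (n : ℂ)⁻¹ := by
      intro v hv hv1
      have hQ := Subgroup.zpowers_le.2 hv
      have hfz := hfree _ hQ fun h => hv1 (Subgroup.zpowers_eq_bot.1 h)
      have hv' : (⟨v, hv⟩ : P) ≠ 1 := fun h => hv1 (congrArg Subtype.val h)
      have hoc : (orb (stab M P e) v).card = n := by
        rw [← hcard, Nat.card_eq_fintype_card, ← Finset.card_univ]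
        symm
        refine Finset.card_bij (fun α _ => (((α : MulAut P) ⟨v, hv⟩ : P) : G)) (fun α _ => ?_)
          (fun α _ β _ h => ?_) fun x hx => ?_
        · obtain ⟨t, ht⟩ := α.2
          exact mem_orb.2 ⟨t, t.2, by rw [← ht, hφ]⟩
        · refine Subtype.ext (inv_mul_eq_one.1 (hfα _ (mul_mem (inv_mem α.2) β.2) _ hv' ?_))
          rw [MulAut.mul_apply, ← Subtype.ext h, MulAut.inv_apply, MulEquiv.symm_apply_apply]
        · obtain ⟨t, ht, rfl⟩ := mem_orb.1 hx
          exact ⟨⟨φ ⟨t, ht⟩, ⟨t, ht⟩, rfl⟩, Finset.mem_univ _, hφ ⟨t, ht⟩ ⟨v, hv⟩⟩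
      rw [hoc, hL _ _ (bel_spec hM hP he hQ).2, (bel_facts hM hmax hab hQ hfz).2.1,
        Nat.cast_one, one_div]
    have hL1 : L (Subgroup.zpowers (1 : G)) = blockRank p B := by
      obtain ⟨g, hg, hgle⟩ := exists_le hM hP he _ (Subgroup.zpowers_le.2 P.one_mem)
      rw [hL _ g hgle]
      refine blockRank_eq_of_centralizer_top hB (fun x => Subgroup.mem_centralizer_iff.2 ?_) hg
        ((isBrauerPairOf_iff hM).1 ((pairOf_iff_of_le hM hP he hgle).2 hmax.1)).2.2.2
      intro w hw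
      rw [Subgroup.zpowers_one_eq_bot, SetLike.mem_coe, Subgroup.mem_bot] at hw
      rw [hw, one_mul, mul_one]
    have ho1 : (orb (stab M P e) (1 : G)).card = 1 := by
      refine Finset.card_eq_one.2 ⟨1, Finset.eq_singleton_iff_unique_mem.2
        ⟨Watanabe.self_mem_orb, fun x hx => ?_⟩⟩
      obtain ⟨t, -, rfl⟩ := mem_orb.1 hx
      simp
    have h1mem : (1 : G) ∈ Finset.univ.filter (· ∈ P) :=
      Finset.mem_filter.2 ⟨Finset.mem_univ _, P.one_mem⟩
    rw [← Finset.add_sum_erase _ _ h1mem, hL1, ho1, Nat.cast_one, div_one,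
      Finset.sum_congr rfl fun v hv => hval v (Finset.mem_filter.1 (Finset.mem_erase.1 hv).2).2
        (Finset.mem_erase.1 hv).1, Finset.sum_const, nsmul_eq_mul,
      Finset.card_erase_of_mem h1mem] at h
    have hq : (Finset.univ.filter (· ∈ P) : Finset G).card = Nat.card P := by
      rw [Nat.card_eq_fintype_card, Fintype.card_subtype]
    rw [hq, ← hXc, hcard, Nat.add_sub_cancel, Nat.cast_mul, mul_assoc,
      mul_inv_cancel₀ (Nat.cast_ne_zero.2 (by rw [← hcard]; exact Nat.card_pos.ne')), mul_one,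
      Nat.card_eq_fintype_card (α := X)] at h
    exact_mod_cast h
  have hl1 : 1 ≤ blockRank p B := blockRank_pos hB hM.1
  have hXpos : 0 < Fintype.card X := by
    obtain ⟨l, hl⟩ : ∃ l : P →* ℂˣ, l ≠ 1 := by
      refine Fintype.exists_ne_of_one_lt_card ?_ 1
      rw [card_dual]
      exact Fintype.one_lt_card
    obtain ⟨i, -⟩ := hr3 l hl
    exact Fintype.card_pos_iff.2 ⟨i⟩
  -- every member meets some representative
  have hrows : ∀ χ : ι, ∃ i, Y χ i ≠ 0 := by
    rintro ⟨χ, hχ⟩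
    by_contra hall
    push Not at hall
    have hconst : ∀ l : P →* ℂˣ, coef (D χ) l = coef (D χ) 1 := by
      intro l
      by_cases hl : l = 1
      · rw [hl]
      obtain ⟨i, α, hα, rfl⟩ := hr3 l hl
      rw [hcinv χ α hα, ← sub_eq_zero, hY ⟨χ, hχ⟩ i, hall i, Int.cast_zero]
    have hd : ∀ v ∈ P, v ≠ 1 → dv p M P e (χ : G → ℂ) v = 0 := by
      intro v hv hv1
      have hv' : (⟨v, hv⟩ : P) ≠ 1 := fun h => hv1 (congrArg Subtype.val h)
      have h0 := eq_sum_coef (D χ) ⟨v, hv⟩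
      rw [Finset.sum_congr rfl fun l _ => by rw [hconst l], ← Finset.mul_sum, sum_dual, if_neg hv',
        mul_zero, hDx χ ⟨v, hv⟩ hv'] at h0
      refine (mul_eq_zero.1 h0).resolve_right fun hs => ?_
      have := hσ ⟨v, hv⟩
      rw [hs, mul_zero] at this
      exact zero_ne_one this
    have hvan := fun g => apply_eq_zero_of_dv hM hmax hab hfree hχ hd (g := g)
    obtain ⟨χ₀, hχ₀, h0⟩ := exists_height_zero hB p
    by_cases heq : χ = χ₀
    · subst heq
      obtain ⟨ψ, hψ, hne'⟩ : ∃ ψ ∈ B, ψ ≠ χ := by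
        by_contra hc
        push Not at hc
        have : Nat.card B ≤ 1 := Finite.card_le_one_iff_subsingleton.2
          ⟨fun a b => Subtype.ext ((hc a a.2).trans (hc b b.2).symm)⟩
        omega
      refine regInner_ne_zero_of_height_zero hM hB hχ₀ hψ h0 ?_
      rw [← regInner_conj, regInner_eq_classInner hvan,
        Char.classInner_irr_ne χ.2 ψ.2 (Subtype.coe_ne_coe.2 hne'.symm), map_zero]
    · refine regInner_ne_zero_of_height_zero hM hB hχ₀ hχ h0 ?_
      rw [regInner_eq_classInner hvan,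
        Char.classInner_irr_ne χ.2 χ₀.2 (Subtype.coe_ne_coe.2 heq)]
  have hn0 : 0 < n := hcard ▸ Nat.card_pos
  have hιc : Fintype.card ι = Nat.card B := Nat.card_eq_fintype_card.symm
  obtain ⟨g1, g2⟩ := gram_rows n hn0 Y hrows hgram (by rw [hιc, hkl]; omega)
  refine ⟨Fintype.card X, hn0, by rw [← hXc, hcard, Nat.card_eq_fintype_card (α := X)], hkl,
    hιc ▸ g1, fun h3 hlt => g2 h3 (hιc.symm ▸ hlt)⟩

end Cfsg.Agent.Lib.FreeInertial
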