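import Cfsg.Agent.Lib.Watanabe.Main
import Cfsg.Agent.Lib.Block.BrauerFeit

/-!
# Subsections with a single modular character
-/

set_option autoImplicit false
set_option linter.unusedSectionVars false
set_option linter.style.haveILetI false
set_option maxHeartbeats 800000

namespace Cfsg.Agent.Lib.FreeInertial

open Cfsg Cfsg.Agent.Lib Cfsg.Agent.Lib.Block Cfsg.Agent.Lib.BrauerPairs Cfsg.Agent.Lib.Star
open scoped ComplexConjugate

universe u

variable {p : ℕ} {M : Ideal AlgInt} [M.IsPrime] {G : Type u} [Group G] [Finite G]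

/-- The members of a set agree on `p`-regular elements. -/
def Flat (p : ℕ) {H : Type*} [Group H] (f : Set (IrrCharacter H)) : Prop :=
  ∀ η ∈ f, ∀ η' ∈ f, ∀ s : H, ¬ p ∣ orderOf s → (η : H → ℂ) s = (η' : H → ℂ) s

open scoped Classical in
/-- The multiplicity of the modular character of `f` in the section of `φ` at `u`. -/
noncomputable def mult (Q : Subgroup G) (f : CBlock Q) (φ : G → ℂ) (u : G) : ℂ :=
  letI := Fintype.ofFinite (Subgroup.centralizer (Q : Set G))
  ∑ η : IrrCharacter (Subgroup.centralizer (Q : Set G)), if η ∈ f then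
    classInner (fun c : Subgroup.centralizer (Q : Set G) => φ (u * (c : G)))
      (η : Subgroup.centralizer (Q : Set G) → ℂ) else 0

open scoped Classical in
theorem sec_eq_mult {φ : G → ℂ}
    (hφ : IsClassFunction G φ) {u : G} {f : CBlock (Subgroup.zpowers u)} (hf : IsPBlock M f)
    (hfl : Flat p f) {η₀ : IrrCharacter (Subgroup.centralizer (Subgroup.zpowers u : Set G))}
    (h₀ : η₀ ∈ f) {s : Subgroup.centralizer (Subgroup.zpowers u : Set G)}
    (hs : ¬ p ∣ orderOf s) :
    sec M φ u (pbar M _ f) (u * (s : G)) =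
      mult (Subgroup.zpowers u) f φ u *
        (η₀ : Subgroup.centralizer (Subgroup.zpowers u : Set G) → ℂ) s := by
  letI := Fintype.ofFinite (Subgroup.centralizer (Subgroup.zpowers u : Set G))
  rw [sec_eq_blockPart hφ hf, blockPart_apply, mult, Finset.sum_mul]
  refine Finset.sum_congr rfl fun η _ => ?_
  by_cases hη : η ∈ f
  · rw [if_pos hη, if_pos hη, hfl η hη η₀ h₀ s hs]
    rfl
  · rw [if_neg hη, if_neg hη, zero_mul]

/-- A central element of a centraliser. -/
theorem mem_center_centralizer {Q : Subgroup G} {u : G} (hu : u ∈ Q)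
    (huC : u ∈ Subgroup.centralizer (Q : Set G)) :
    (⟨u, huC⟩ : Subgroup.centralizer (Q : Set G)) ∈
      Subgroup.center (Subgroup.centralizer (Q : Set G)) :=
  Subgroup.mem_center_iff.2 fun c => Subtype.ext (Subgroup.mem_centralizer_iff.1 c.2 u hu).symm

open scoped Classical in
/-- The multiplicity as a combination of scalars of `u`. -/
theorem mult_eq {Q : Subgroup G} [Fintype (Subgroup.centralizer (Q : Set G))] (f : CBlock Q)
    {φ : G → ℂ} (hφ : IsCharacter G φ) {u : G} (hu : u ∈ Q)
    (huC : u ∈ Subgroup.centralizer (Q : Set G)) :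
    mult Q f φ u = ∑ η : IrrCharacter (Subgroup.centralizer (Q : Set G)), if η ∈ f then
      classInner (fun c : Subgroup.centralizer (Q : Set G) => φ (c : G))
          (η : Subgroup.centralizer (Q : Set G) → ℂ) *
        ((η : Subgroup.centralizer (Q : Set G) → ℂ) ⟨u, huC⟩ /
          (η : Subgroup.centralizer (Q : Set G) → ℂ) 1) else 0 := by
  have hres := Char.isCharacter_restrict hφ (Subgroup.centralizer (Q : Set G))
  have hexp := Char.eq_sum_classInner_smul (Char.isClassFunction_of_isCharacter hres)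
  have htr : (fun c : Subgroup.centralizer (Q : Set G) => φ (u * (c : G))) =
      ∑ ξ : IrrCharacter (Subgroup.centralizer (Q : Set G)),
        (classInner (fun c : Subgroup.centralizer (Q : Set G) => φ (c : G))
          (ξ : Subgroup.centralizer (Q : Set G) → ℂ) *
        ((ξ : Subgroup.centralizer (Q : Set G) → ℂ) ⟨u, huC⟩ /
          (ξ : Subgroup.centralizer (Q : Set G) → ℂ) 1)) •
            (ξ : Subgroup.centralizer (Q : Set G) → ℂ) := by
    funext c
    have h1 := congrFun hexp (⟨u, huC⟩ * c)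
    simp only [Finset.sum_apply, Pi.smul_apply, smul_eq_mul] at h1 ⊢
    refine h1.trans (Finset.sum_congr rfl fun ξ _ => ?_)
    rw [eq_div_iff (deg_ne_zero ξ) |>.2 (center_mul_apply ξ (mem_center_centralizer hu huC) c)]
    ring
  rw [mult, Subsingleton.elim (Fintype.ofFinite (Subgroup.centralizer (Q : Set G)))
    (inferInstance : Fintype (Subgroup.centralizer (Q : Set G)))]
  refine Finset.sum_congr (Finset.ext fun _ => by simp) fun η _ => ?_
  split_ifs with hη
  · rw [htr, Char.classInner_sum_left,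
      Finset.sum_eq_single η (fun ξ _ hne => ?_) (by simp)]
    · rw [Char.classInner_smul_left, Char.classInner_irr_self η.2, mul_one]
    · rw [Char.classInner_smul_left, Char.classInner_irr_ne ξ.2 η.2 (Subtype.coe_ne_coe.2 hne),
        mul_zero]
  · rfl

section Facts

variable {Q : Subgroup G} {f : CBlock Q} {φ : G → ℂ} {u : G}

theorem scalar_pow (η : IrrCharacter (Subgroup.centralizer (Q : Set G))) (hu : u ∈ Q)
    (huC : u ∈ Subgroup.centralizer (Q : Set G)) (k : ℕ) :
    (η : Subgroup.centralizer (Q : Set G) → ℂ) ⟨u ^ k, pow_mem huC k⟩ /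
        (η : Subgroup.centralizer (Q : Set G) → ℂ) 1 =
      ((η : Subgroup.centralizer (Q : Set G) → ℂ) ⟨u, huC⟩ /
        (η : Subgroup.centralizer (Q : Set G) → ℂ) 1) ^ k := by
  haveI := Fintype.ofFinite (Subgroup.centralizer (Q : Set G))
  have h := center_pow_apply η (mem_center_centralizer hu huC) 1 k
  rw [mul_one] at h
  rw [show (⟨u ^ k, pow_mem huC k⟩ : Subgroup.centralizer (Q : Set G)) = ⟨u, huC⟩ ^ k from rfl, h,
    mul_div_cancel_right₀ _ (deg_ne_zero η)]

theorem scalar_pow_order (η : IrrCharacter (Subgroup.centralizer (Q : Set G))) (hu : u ∈ Q)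
    (huC : u ∈ Subgroup.centralizer (Q : Set G)) {n : ℕ} (hn : u ^ n = 1) :
    ((η : Subgroup.centralizer (Q : Set G) → ℂ) ⟨u, huC⟩ /
        (η : Subgroup.centralizer (Q : Set G) → ℂ) 1) ^ n = 1 := by
  rw [← scalar_pow η hu huC n,
    show (⟨u ^ n, pow_mem huC n⟩ : Subgroup.centralizer (Q : Set G)) = 1 from Subtype.ext hn,
    div_self (deg_ne_zero η)]

theorem isIntegral_mult (f : CBlock Q) (hφ : IsCharacter G φ) (hu : u ∈ Q)
    (huC : u ∈ Subgroup.centralizer (Q : Set G)) : IsIntegral ℤ (mult Q f φ u) := by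
  classical
  letI := Fintype.ofFinite (Subgroup.centralizer (Q : Set G))
  rw [mult_eq f hφ hu huC]
  refine IsIntegral.sum _ fun η _ => ?_
  split_ifs
  · obtain ⟨n, hn⟩ := Char.classInner_natCast (Char.isCharacter_restrict hφ _)
      (Char.isCharacter_of_isIrr η.2)
    rw [hn]
    refine IsIntegral.mul ?_ (IsIntegral.of_pow (orderOf_pos u) ?_)
    · simpa using isIntegral_algebraMap (R := ℤ) (A := ℂ) (x := (n : ℤ))
    · rw [scalar_pow_order η hu huC (pow_orderOf_eq_one u)]
      exact isIntegral_one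
  · exact isIntegral_zero

theorem aut_mult (f : CBlock Q) (hφ : IsCharacter G φ) (hu : u ∈ Q)
    (huC : u ∈ Subgroup.centralizer (Q : Set G)) {n : ℕ} (hn : u ^ n = 1) (σ : ℂ ≃+* ℂ) {k : ℕ}
    (hσ : ∀ μ : ℂ, μ ^ n = 1 → σ μ = μ ^ k) : σ (mult Q f φ u) = mult Q f φ (u ^ k) := by
  classical
  letI := Fintype.ofFinite (Subgroup.centralizer (Q : Set G))
  rw [mult_eq f hφ hu huC, mult_eq f hφ (pow_mem hu k) (pow_mem huC k), map_sum]
  refine Finset.sum_congr rfl fun η _ => ?_
  split_ifs
  · obtain ⟨a, ha⟩ := Char.classInner_natCast (Char.isCharacter_restrict hφ _)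
      (Char.isCharacter_of_isIrr η.2)
    rw [map_mul, hσ _ (scalar_pow_order η hu huC hn), scalar_pow η hu huC k, ha, map_natCast]
  · rw [map_zero]

theorem conj_mult (f : CBlock Q) (hφ : IsCharacter G φ) (hu : u ∈ Q)
    (huC : u ∈ Subgroup.centralizer (Q : Set G)) :
    conj (mult Q f φ u) = mult Q f φ u⁻¹ := by
  classical
  letI := Fintype.ofFinite (Subgroup.centralizer (Q : Set G))
  rw [mult_eq f hφ hu huC, mult_eq f hφ (inv_mem hu) (inv_mem huC), map_sum]
  refine Finset.sum_congr rfl fun η _ => ?_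
  split_ifs
  · obtain ⟨a, ha⟩ := Char.classInner_natCast (Char.isCharacter_restrict hφ _)
      (Char.isCharacter_of_isIrr η.2)
    rw [map_mul, map_div₀, ha, Complex.conj_natCast, irr_one_eq_natCast, Complex.conj_natCast,
      ← Char.char_inv (Char.isCharacter_of_isIrr η.2)]
    rfl
  · rw [map_zero]

end Facts

/-! ### Traces on lifts -/

/-- The group algebra of a subgroup inside that of the group. -/
noncomputable def embR (C : Subgroup G) : RG M C →+* RG M G :=
  MonoidAlgebra.mapDomainRingHom (locRing M) C.subtype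

theorem coeff_embR_of_mem (C : Subgroup G) (z : RG M C) {x : G} (hx : x ∈ C) :
    (embR C z).coeff x = z.coeff ⟨x, hx⟩ :=
  Finsupp.mapDomain_apply C.subtype_injective z.coeff ⟨x, hx⟩

theorem coeff_embR_of_not_mem (C : Subgroup G) (z : RG M C) {x : G} (hx : x ∉ C) :
    (embR C z).coeff x = 0 :=
  Finsupp.mapDomain_of_notMem_range z.coeff x (by rintro ⟨y, rfl⟩; exact hx y.2)

theorem toK_embR (C : Subgroup G) (z : RG M C) : toK (embR C z) = emb C (toK z) := by
  refine alg_ext fun x => ?_
  by_cases hx : x ∈ C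
  · rw [coeff_toK, coeff_embR_of_mem _ _ hx, coeff_emb_of_mem _ _ hx, coeff_toK]
  · rw [coeff_toK, coeff_embR_of_not_mem _ _ hx, coeff_emb_of_not_mem _ _ hx, map_zero]

theorem toC_embR (C : Subgroup G) (z : RG M C) : toC (embR C z) = fromSub C (toC z) := by
  refine alg_ext fun x => ?_
  by_cases hx : x ∈ C
  · rw [coeff_toC, coeff_embR_of_mem _ _ hx]
    exact ((coeff_fromSub_of_mem C (toC z) hx).trans (coeff_toC _ _)).symm
  · rw [coeff_toC, coeff_embR_of_not_mem _ _ hx, coeff_fromSub_of_not_mem _ _ hx, ZeroMemClass.coe_zero]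

variable {H : Type u} [Group H] [Finite H]

theorem br_zpowers_one (x : KG M H) : br (Subgroup.zpowers (1 : H)) x = x := by
  refine alg_ext fun h => coeff_br_of_mem _ ?_
  rw [mem_centralizer_zpowers]
  exact Commute.one_left h

theorem theta_one (hM : IsPModular p M) {ψ : H → ℂ} (hψ : IsClassFunction H ψ) {X : RG M H}
    (hX : IsIdempotentElem X) {x : KG M H} (hx : toK X = x) : theta M ψ 1 x = pair ψ (toC X) := by
  rw [theta_eq hM ⟨0, by rw [orderOf_one, pow_zero]⟩ hψ hX (u := 1)
    (by rw [← MonoidAlgebra.one_def]; exact Commute.one_left X) (by rw [br_zpowers_one, hx]),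
    ← MonoidAlgebra.one_def, mul_one]

theorem exists_lift_one {x : KG M H} (hx : IsIdempotentElem x) :
    ∃ X : RG M H, IsIdempotentElem X ∧ toK X = x ∧
      ∀ h : H, cj h x = x → Commute (MonoidAlgebra.single h 1) X := by
  obtain ⟨X, hX, hXx, -, -, hc⟩ := exists_lift (F := (1 : RG M H)) IsIdempotentElem.one hx
    (by rw [map_one, one_mul]) (by rw [map_one, mul_one])
  exact ⟨X, hX, hXx, fun h hh => hc h hh (Commute.one_right _)⟩

/-- Idempotents only see the regular values. -/
theorem theta_flat (hM : IsPModular p M) {f : Set (IrrCharacter H)} (hfl : Flat p f)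
    {η η' : IrrCharacter H} (hη : η ∈ f) (hη' : η' ∈ f) {x : KG M H} (hx : IsIdempotentElem x) :
    theta M (η : H → ℂ) 1 x = theta M (η' : H → ℂ) 1 x := by
  haveI := Fintype.ofFinite H
  obtain ⟨X, hX, hXx, -⟩ := exists_lift_one hx
  rw [theta_one hM (Char.isClassFunction_of_isIrr η.2) hX hXx,
    theta_one hM (Char.isClassFunction_of_isIrr η'.2) hX hXx, ← sub_eq_zero]
  have hsum : (Fintype.card H : ℂ) * (pair (η : H → ℂ) (toC X) - pair (η' : H → ℂ) (toC X)) =
      ∑ y : H, ((η : H → ℂ) y - (η' : H → ℂ) y) * conjSum (toC X) y := by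
    have key : ∀ ψ : H → ℂ, IsClassFunction H ψ →
        (Fintype.card H : ℂ) * pair ψ (toC X) = ∑ y : H, ψ y * conjSum (toC X) y := by
      intro ψ hψ
      simp only [conjSum, Finset.mul_sum]
      rw [Finset.sum_comm, pair_eq_sum, Finset.mul_sum]
      have : ∀ c : H, ∑ y : H, ψ y * (toC X).coeff (c * y * c⁻¹) =
          ∑ z : H, (toC X).coeff z * ψ z := by
        intro c
        refine Fintype.sum_equiv (MulAut.conj c).toEquiv _ _ fun y => ?_
        simp [hψ y c, mul_comm]
      simp only [this, Finset.sum_const, Finset.card_univ, nsmul_eq_mul, Finset.mul_sum]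
    rw [mul_sub, key _ (Char.isClassFunction_of_isIrr η.2),
      key _ (Char.isClassFunction_of_isIrr η'.2), ← Finset.sum_sub_distrib]
    exact Finset.sum_congr rfl fun y _ => by ring
  refine (mul_eq_zero.1 (hsum.trans (Finset.sum_eq_zero fun y _ => ?_))).resolve_left
    (Nat.cast_ne_zero.2 Fintype.card_ne_zero)
  by_cases hy : p ∣ orderOf y
  · refine mul_eq_zero_of_right _ ?_
    exact sum_conj_eq_zero_of_idempotent hM (hX.map toC) (intR_toC X) hy
  · rw [hfl η hη η' hη' y hy, sub_self, zero_mul]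

/-- An idempotent of a block is traced only by its members. -/
theorem exists_block_lift (hM : IsPModular p M) {f : Set (IrrCharacter H)} (hf : IsPBlock M f)
    {x : KG M H} (hx : IsIdempotentElem x) (hfx : bar M f * x = x) :
    ∃ X : RG M H, IsIdempotentElem X ∧ toK X = x ∧
      (∀ h : H, cj h x = x → Commute (MonoidAlgebra.single h 1) X) ∧
      ∀ ξ : IrrCharacter H, ξ ∉ f → pair (ξ : H → ℂ) (toC X) = 0 := by
  classical
  haveI := Fintype.ofFinite H
  obtain ⟨F, hF⟩ := exists_toC (intR_eIdem hf)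
  have hFi : IsIdempotentElem F := toC_injective (by rw [map_mul, hF, (isIdempotentElem_eIdem f).eq])
  have hFK : toK F = bar M f := by rw [← toF_toC, hF, bar]
  obtain ⟨X, hX, hXx, hFX, -, hc⟩ := exists_lift hFi hx (by rw [hFK, hfx])
    (by rw [hFK, ← ((isClassCoeff_bar f).commute x).eq, hfx])
  refine ⟨X, hX, hXx, fun h hh => hc h hh ?_, fun ξ hξ => ?_⟩
  · refine invUnder_iff_commute.1 fun y => Subtype.ext ?_
    rw [← coeff_toC, ← coeff_toC, hF]
    exact isClassCoeff_eIdem f h y
  · rw [← hFX, map_mul, hF, pair_mul_of_class ξ.2 (isClassCoeff_eIdem f), omega_eIdem, if_neg hξ,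
      zero_mul]

/-- The trace of `u` on a local idempotent. -/
theorem pair_eq_mult_mul (hM : IsPModular p M) {χ : G → ℂ} (hχ : IsClassFunction G χ) {u : G}
    (hu : IsPElem p u) {f : CBlock (Subgroup.zpowers u)} (hf : IsPBlock M f) (hfl : Flat p f)
    {E : RG M G} (hE : IsIdempotentElem E) (hEu : Commute (MonoidAlgebra.single u 1) E)
    {η₀ : IrrCharacter (Subgroup.centralizer (Subgroup.zpowers u : Set G))} (h₀ : η₀ ∈ f)
    {x : KG M (Subgroup.centralizer (Subgroup.zpowers u : Set G))} (hx : IsIdempotentElem x)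
    (hxE : emb (Subgroup.centralizer (Subgroup.zpowers u : Set G)) x =
      br (Subgroup.zpowers u) (toK E))
    (hfx : bar M f * x = x) :
    pair χ (toC E * MonoidAlgebra.single u 1) = mult (Subgroup.zpowers u) f χ u *
      theta M (η₀ : Subgroup.centralizer (Subgroup.zpowers u : Set G) → ℂ) 1 x := by
  classical
  haveI := Fintype.ofFinite G
  letI := Fintype.ofFinite (Subgroup.centralizer (Subgroup.zpowers u : Set G))
  obtain ⟨X, hX, hXx, -, hXb⟩ := exists_block_lift hM hf hx hfx
  have hcomm : Commute (MonoidAlgebra.single u 1) (embR (Subgroup.centralizer (Subgroup.zpowers u : Set G)) X) := by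
    refine invUnder_iff_commute.1 fun y => ?_
    by_cases hy : y ∈ Subgroup.centralizer (Subgroup.zpowers u : Set G)
    · rw [(mem_centralizer_zpowers.1 hy).eq, mul_inv_cancel_right]
    · have hy' : u * y * u⁻¹ ∉ Subgroup.centralizer (Subgroup.zpowers u : Set G) := fun h => by
        refine hy ?_
        have huC : u ∈ Subgroup.centralizer (Subgroup.zpowers u : Set G) :=
          mem_centralizer_zpowers.2 (Commute.refl u)
        have := mul_mem (mul_mem (inv_mem huC) h) huC
        simpa [mul_assoc] using this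
      rw [coeff_embR_of_not_mem _ _ hy, coeff_embR_of_not_mem _ _ hy']
  rw [pair_eq_of_br hM hu hχ hE (hX.map _) hEu hcomm (by
      rw [toK_embR, hXx, hxE, br_br le_rfl]), toC_embR, pair_fromSub_mul_single,
    mult, Finset.sum_mul]
  set θ := trans χ u with hθ
  have hθc : IsClassFunction _ θ := isClassFunction_trans hχ u
  have h1 : ∑ k : Subgroup.centralizer (Subgroup.zpowers u : Set G),
      (toC X).coeff k * χ ((k : G) * u) = pair θ (toC X) := by
    rw [pair_eq_sum]
    refine Finset.sum_congr rfl fun k _ => ?_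
    show _ = (toC X).coeff k * χ (u * (k : G))
    rw [(mem_centralizer_zpowers.1 k.2).eq]
  rw [h1]
  conv_lhs => arg 1; rw [Char.eq_sum_classInner_smul hθc]
  rw [pair_eq_sum]
  simp only [Finset.sum_apply, Pi.smul_apply, smul_eq_mul, Finset.mul_sum]
  rw [Finset.sum_comm]
  refine Finset.sum_congr rfl fun η _ => ?_
  have hη' : ∑ k, (toC X).coeff k * (classInner θ (η : _ → ℂ) * (η : _ → ℂ) k) =
      classInner θ (η : _ → ℂ) * pair (η : _ → ℂ) (toC X) := by
    rw [pair_eq_sum, Finset.mul_sum]
    exact Finset.sum_congr rfl fun k _ => by ring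
  rw [hη']
  split_ifs with hη
  · rw [theta_flat hM hfl h₀ hη hx, theta_one hM (Char.isClassFunction_of_isIrr η.2) hX hXx]
    rfl
  · rw [hXb η hη, mul_zero, zero_mul]

end Cfsg.Agent.Lib.FreeInertial
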