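import Cfsg.Agent.Lib.FreeInertial.Below
import Cfsg.Agent.Lib.Block.OneSimple

/-!
# Ranks of local idempotents
-/

set_option autoImplicit false
set_option linter.unusedSectionVars false
set_option linter.style.haveILetI false
set_option maxHeartbeats 800000

namespace Cfsg.Agent.Lib.FreeInertial

open Cfsg Cfsg.Agent.Lib Cfsg.Agent.Lib.Block Cfsg.Agent.Lib.BrauerPairs Cfsg.Agent.Lib.Star
open Cfsg.Agent.Lib.Watanabe (conj_mem_of_stab)
open Cfsg.Agent.Lib.Block.OneSimple (rad mem_rad rad_pow trace_mem_span)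
open scoped ComplexConjugate

universe u

section General

variable {p : ℕ} {M : Ideal AlgInt} [M.IsPrime] {H : Type u} [Group H] [Finite H]

theorem theta_swap (hM : IsPModular p M) {η : H → ℂ} (hη : IsClassFunction H η) {a c : KG M H}
    (h1 : IsIdempotentElem (a * c)) (h2 : IsIdempotentElem (c * a)) :
    theta M η 1 (a * c) = theta M η 1 (c * a) := by
  classical
  haveI := Fintype.ofFinite H
  have hsurj : ∀ z : KG M H, ∃ Z : RG M H, toK Z = z := by
    intro z
    obtain ⟨Z, hZ⟩ := exists_toC (intR_liftA z)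
    exact ⟨Z, by rw [← toF_toC, hZ, toF_liftA]⟩
  obtain ⟨A, hA⟩ := hsurj a
  obtain ⟨C, hC⟩ := hsurj c
  haveI : Module.Finite (locRing M) (RG M H) :=
    Module.Finite.equiv (MonoidAlgebra.coeffLinearEquiv (locRing M)).symm
  obtain ⟨E, z, m, hE, hEz, hker, hcomm⟩ := exists_split (toK (M := M) (G := H))
    (fun r hr => alg_ext fun x => by
      rw [coeff_toK, Algebra.algebraMap_eq_smul_one (R := locRing M), MonoidAlgebra.coeff_smul, Finsupp.smul_apply,
        smul_eq_mul, map_mul, hr, zero_mul]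
      rfl)
    (A * C)
  have hw : toK (A * C) = a * c := by rw [map_mul, hA, hC]
  obtain ⟨hcE, hcz⟩ := hcomm (A * C) (Commute.refl _)
  have hxE : Commute (a * c) (toK E) := hw ▸ hcE.map toK
  have hxz : Commute (a * c) (toK z) := hw ▸ hcz.map toK
  have hE1 : toK E * (a * c) * toK z = toK E := by
    rw [mul_assoc, ← hw, ← map_mul, ← map_mul, hEz]
  have hker' : a * c * (1 - toK E) = 0 := by
    rw [hw, map_sub, map_one] at hker
    rcases m with _ | m
    · rw [pow_zero, one_mul] at hker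
      rw [hker, mul_zero]
    · rwa [h1.pow_succ_eq] at hker
  have hEx : toK E * (a * c) = toK E := by
    calc toK E * (a * c) = toK E * (a * c) * toK z * (a * c) := by rw [hE1]
      _ = toK E * ((a * c) * (a * c)) * toK z := by
          rw [mul_assoc _ (toK z), ← hxz.eq]; simp only [mul_assoc]
      _ = toK E := by rw [h1.eq, hE1]
  have hEK : toK E = a * c := by
    rw [mul_sub, mul_one, sub_eq_zero] at hker'
    rw [hker', hxE.eq, hEx]
  have hxz' : a * c * toK z = a * c := by
    rw [hEK, h1.eq] at hE1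
    exact hE1
  have hzx : toK z * (a * c) = a * c := hxz.eq ▸ hxz'
  have hY : IsIdempotentElem (C * z * E * A) := by
    show C * z * E * A * (C * z * E * A) = C * z * E * A
    have h : E * (A * C) * z * E = E := by rw [mul_assoc E, hEz, hE.eq]
    calc C * z * E * A * (C * z * E * A) = C * z * (E * (A * C) * z * E) * A := by
          simp only [mul_assoc]
      _ = _ := by rw [h]
  have hYK : toK (C * z * E * A) = c * a := by
    rw [map_mul, map_mul, map_mul, hA, hC, hEK, mul_assoc c, hzx]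
    calc c * (a * c) * a = c * a * (c * a) := by simp only [mul_assoc]
      _ = c * a := h2.eq
  rw [theta_one hM hη hE hEK, theta_one hM hη hY hYK, map_mul, pair_mul_comm hη, ← map_mul,
    show A * (C * z * E) = A * C * z * E by simp only [mul_assoc]]
  congr 2
  rw [mul_assoc (A * C) z E, (hcomm z hcz.symm).1.eq, ← mul_assoc, hcE.eq, mul_assoc, hEz]

theorem exists_nat_theta (hM : IsPModular p M) {χ : H → ℂ} (hχ : IsCharacter H χ) {x : KG M H}
    (hx : IsIdempotentElem x) : ∃ n : ℕ, theta M χ 1 x = n := by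
  obtain ⟨X, hX, hXx, -⟩ := exists_lift_one hx
  have h := isCharacter_pair_idem hχ (⊥ : Subgroup H) (hX.map toC) fun v hv => by
    rw [Subgroup.mem_bot] at hv
    rw [hv, ← MonoidAlgebra.one_def]
    exact Commute.one_left _
  obtain ⟨n, ρ, hρ⟩ := h
  refine ⟨n, ?_⟩
  rw [theta_one hM (Char.isClassFunction_of_isCharacter hχ) hX hXx]
  have := congrFun hρ 1
  rw [Representation.char_one, Module.finrank_fin_fun, OneMemClass.coe_one,
    ← MonoidAlgebra.one_def, mul_one] at this
  exact this.symm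

/-- Transport of the rank along an isomorphism. -/
theorem theta_map (hM : IsPModular p M) {K : Type u} [Group K] [Finite K] (f : H ≃* K)
    (ξ : IrrCharacter H) {x : KG M H} {y : KG M K} (hx : IsIdempotentElem x)
    (hxy : ∀ c, y.coeff (f c) = x.coeff c) :
    theta M (mapIrr f ξ : K → ℂ) 1 y = theta M (ξ : H → ℂ) 1 x := by
  classical
  haveI := Fintype.ofFinite H
  haveI := Fintype.ofFinite K
  obtain ⟨X, hX, hXx, -⟩ := exists_lift_one hx
  set Y := MonoidAlgebra.domCongr (locRing M) (locRing M) f X with hY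
  have hYc : ∀ c, Y.coeff (f c) = X.coeff c := fun c => by
    simp [hY, MonoidAlgebra.coeff_domCongr]
  have hYK : toK Y = y := alg_ext fun k => by
    obtain ⟨c, rfl⟩ := f.surjective k
    rw [coeff_toK, hYc, hxy, ← hXx, coeff_toK]
  rw [theta_one hM (Char.isClassFunction_of_isIrr (mapIrr f ξ).2) (hX.map _) hYK,
    theta_one hM (Char.isClassFunction_of_isIrr ξ.2) hX hXx, pair_eq_sum, pair_eq_sum,
    ← f.toEquiv.sum_comp]
  refine Finset.sum_congr rfl fun c _ => ?_
  show (toC Y).coeff (f c) * (mapIrr f ξ : K → ℂ) (f c) = _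
  rw [mapIrr_apply, coeff_toC, coeff_toC, hYc]

end General

variable {p : ℕ} {M : Ideal AlgInt} [M.IsPrime] {G : Type u} [Group G] [Finite G]
  {B : Set (IrrCharacter G)} {P : Subgroup G} {e : CBlock P}

theorem emb_tos (Q : Subgroup G) (a : KG M G) :
    emb (Subgroup.centralizer (Q : Set G)) (toSub (Subgroup.centralizer (Q : Set G)) a) = br Q a :=
  (br_eq_emb Q a).symm

theorem tos_br (Q : Subgroup G) (a : KG M G) :
    toSub (Subgroup.centralizer (Q : Set G)) (br Q a) =
      toSub (Subgroup.centralizer (Q : Set G)) a := by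
  rw [br_eq_emb, toSub_emb]

open scoped Classical in
/-- The rank of the image of `ε` at `Q`. -/
noncomputable def rn (p : ℕ) (M : Ideal AlgInt) [M.IsPrime] (P : Subgroup G) (e : CBlock P)
    (ε : KG M G) (Q : Subgroup G) : ℂ :=
  if h : ∃ η, η ∈ bel p M P e Q then
    theta M (h.choose : Subgroup.centralizer (Q : Set G) → ℂ) 1
      (toSub (Subgroup.centralizer (Q : Set G)) ε)
  else 0

/-- The blocks below act as one on the images of `ε`. -/
def Absorbs (p : ℕ) (M : Ideal AlgInt) [M.IsPrime] (P : Subgroup G) (e : CBlock P)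
    (ε : KG M G) : Prop :=
  ∀ Q : Subgroup G, Q ≤ P → bar M (bel p M P e Q) * toSub (Subgroup.centralizer (Q : Set G)) ε =
    toSub (Subgroup.centralizer (Q : Set G)) ε

theorem tos_idem (hM : IsPModular p M) (hP : IsPGroup p P) {ε : KG M G} (hi : IsIdempotentElem ε)
    (hf : Fixd P ε) {Q : Subgroup G} (hQ : Q ≤ P) :
    IsIdempotentElem (toSub (Subgroup.centralizer (Q : Set G)) ε) := by
  show _ * _ = _
  rw [← toSub_br_mul hM (hP.to_le hQ) (hf.mono hQ) (hf.mono hQ), hi.eq]

theorem absorbs_of_local (hM : IsPModular p M) (hP : IsPGroup p P) (he : IsPBlock M e)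
    {ε : KG M G} (hε : IsLocalIdem P ε) (hne : pbar M P e * br P ε ≠ 0) : Absorbs p M P e ε := by
  intro Q hQ
  refine emb_injective (M := M) (Subgroup.centralizer (Q : Set G)) ?_
  rw [map_mul, emb_tos]
  exact pbar_br_local hM hP hε he hne Q _ (bel_spec hM hP he hQ).2

theorem exists_local_idem (hM : IsPModular p M) (hP : IsPGroup p P) (he : IsPBlock M e) :
    ∃ ε : KG M G, IsLocalIdem P ε ∧ pbar M P e * br P ε ≠ 0 := by
  by_contra hc
  push Not at hc
  have h := induction_idem P (P := fun ε => pbar M P e * br P ε = 0) (by rw [br_zero, mul_zero])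
    hc (fun a b _ _ _ _ _ _ ha hb => by rw [br_add, mul_add, ha, hb, add_zero]) 1
    IsIdempotentElem.one (fun v _ => map_one _)
  rw [br_one, mul_one] at h
  exact pbar_ne_zero he h

/-- A local idempotent stays local under the stabiliser. -/
theorem isLocalIdem_cj {t : G} (ht : t ∈ stab M P e) {ε : KG M G} (hε : IsLocalIdem P ε)
    (hne : pbar M P e * br P ε ≠ 0) :
    IsLocalIdem P (cj t ε) ∧ pbar M P e * br P (cj t ε) ≠ 0 := by
  obtain ⟨hi, hf, h0, hl⟩ := hε
  have hcj : ∀ (s : G), s ∈ stab M P e → ∀ a : KG M G, Fixd P a → Fixd P (cj s a) := by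
    intro s hs a ha v hv
    have hv' : s⁻¹ * v * s ∈ P := by
      have := conj_mem_of_stab hv (inv_mem hs)
      rwa [inv_inv] at this
    rw [cj_cj, show v * s = s * (s⁻¹ * v * s) by group, ← cj_cj, ha _ hv']
  have hback : ∀ (s : G) (a : KG M G), cj s⁻¹ (cj s a) = a := fun s a => by
    rw [cj_cj, inv_mul_cancel, cj_one_apply]
  refine ⟨⟨hi.map _, hcj t ht ε hf, fun h => h0 (by rw [← hback t ε, h, map_zero]), ?_⟩, ?_⟩
  · intro a ha haf haC
    rcases hl (cj t⁻¹ a) (ha.map _) (hcj _ (inv_mem ht) a haf)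
      ⟨by rw [← hback t ε, ← map_mul, haC.1], by rw [← hback t ε, ← map_mul, haC.2]⟩ with h | h
    · left
      rw [← cj_one_apply a, ← mul_inv_cancel t, ← cj_cj, h, map_zero]
    · right
      rw [← cj_one_apply a, ← mul_inv_cancel t, ← cj_cj, h]
  · have hs : cj t (br P ε) = br P (cj t ε) := by
      rw [cj_br, sj_eq_of_mem_normalizer ht.1]
    intro h
    refine hne ?_
    rw [← hback t (pbar M P e * br P ε), map_mul, hs, show cj t (pbar M P e) = pbar M P e from ht.2,
      h, map_zero]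

section Values

variable (hM : IsPModular p M) (hmax : IsMaximalBrauerPair p M B P e)
  (hab : ∀ x ∈ P, ∀ y ∈ P, x * y = y * x)

include hM hmax hab

theorem rn_eq {ε : KG M G} (hi : IsIdempotentElem ε) (hf : Fixd P ε) {Q : Subgroup G} (hQ : Q ≤ P)
    (hfree : FreeAt M P e Q) {η : IrrCharacter (Subgroup.centralizer (Q : Set G))}
    (hη : η ∈ bel p M P e Q) :
    rn p M P e ε Q = theta M (η : Subgroup.centralizer (Q : Set G) → ℂ) 1
      (toSub (Subgroup.centralizer (Q : Set G)) ε) := by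
  have h : ∃ η, η ∈ bel p M P e Q := ⟨η, hη⟩
  rw [rn, dif_pos h]
  exact theta_flat hM (bel_facts hM hmax hab hQ hfree).1 h.choose_spec hη
    (tos_idem hM hmax.1.1.1 hi hf hQ)

omit hab in
theorem exists_nat_rn {ε : KG M G} (hi : IsIdempotentElem ε) (hf : Fixd P ε) {Q : Subgroup G}
    (hQ : Q ≤ P) : ∃ n : ℕ, rn p M P e ε Q = n := by
  rw [rn]
  split_ifs
  · exact exists_nat_theta hM (Char.isCharacter_of_isIrr (Subtype.prop _))
      (tos_idem hM hmax.1.1.1 hi hf hQ)
  · exact ⟨0, Nat.cast_zero.symm⟩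

/-- The trace of an element of `P` on a lift. -/
theorem pair_eq_dv_mul_rn {φ : G → ℂ} (hφ : IsClassFunction G φ) {ε : KG M G}
    (hi : IsIdempotentElem ε) (hf : Fixd P ε) (habs : Absorbs p M P e ε) {E : RG M G}
    (hE : IsIdempotentElem E) (hEK : toK E = ε) {v : G} (hv : v ∈ P)
    (hEv : Commute (MonoidAlgebra.single v 1) E) (hfree : FreeAt M P e (Subgroup.zpowers v)) :
    pair φ (toC E * MonoidAlgebra.single v 1) =
      dv p M P e φ v * rn p M P e ε (Subgroup.zpowers v) := by
  have hQ := Subgroup.zpowers_le.2 hv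
  haveI : Fact p.Prime := ⟨hM.1⟩
  obtain ⟨η₀, h₀⟩ := exists_mem_bel hM hmax hab hQ
  rw [rn_eq hM hmax hab hi hf hQ hfree h₀, dv]
  exact pair_eq_mult_mul hM hφ (Block.isPElem_of_mem hmax.1.1.1 hv)
    (bel_spec hM hmax.1.1.1 hmax.1.1.2 hQ).1 (bel_facts hM hmax hab hQ hfree).1 hE hEv h₀
    (tos_idem hM hmax.1.1.1 hi hf hQ) (by rw [emb_tos, hEK]) (habs _ hQ)

omit hab in
/-- The blocks below are permuted by the stabiliser. -/
theorem bel_sj {t : G} (ht : t ∈ stab M P e) {Q : Subgroup G} (hQ : Q ≤ P) :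
    bel p M P e (sj t Q) = conjBlock Q t (bel p M P e Q) := by
  obtain ⟨hP, he, -, -⟩ := (isBrauerPairOf_iff hM).1 hmax.1
  have h := le_cIdx hM (bel_spec hM hP he hQ).2 t
  have hid : cIdx t (⟨P, e⟩ : BrauerPairIdx G) = ⟨P, e⟩ :=
    idx_ext (M := M) (sj_eq_of_mem_normalizer ht.1) (isPBlock_conjBlock P t he) he
      (by rw [pbar_conjBlock]; exact ht.2)
  rw [hid] at h
  exact bel_unique hM hP he h

theorem rn_cj {t : G} (ht : t ∈ stab M P e) {ε : KG M G} (hi : IsIdempotentElem ε)
    (hf : Fixd P ε) (hi' : IsIdempotentElem (cj t ε)) (hf' : Fixd P (cj t ε)) {Q : Subgroup G}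
    (hQ : Q ≤ P) (hfree : FreeAt M P e Q) (hfree' : FreeAt M P e (sj t Q)) :
    rn p M P e (cj t ε) (sj t Q) = rn p M P e ε Q := by
  obtain ⟨η, hη⟩ := exists_mem_bel hM hmax hab hQ
  have hQ' : sj t Q ≤ P := (Subgroup.map_mono hQ).trans (sj_eq_of_mem_normalizer ht.1).le
  have hη' : mapIrr (centEquiv t Q) η ∈ bel p M P e (sj t Q) := by
    rw [bel_sj hM hmax ht hQ, conjBlock_eq]
    exact ⟨η, hη, rfl⟩
  rw [rn_eq hM hmax hab hi hf hQ hfree hη, rn_eq hM hmax hab hi' hf' hQ' hfree' hη']
  refine theta_map hM (centEquiv t Q) η (tos_idem hM hmax.1.1.1 hi hf hQ) fun c => ?_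
  rw [coeff_toSub, coeff_toSub, coe_centEquiv, coeff_cj]
  congr 1
  group

omit hmax hab in
/-- An element of the centraliser algebra gives a fixed element. -/
theorem fixd_emb (A : KG M (Subgroup.centralizer (P : Set G))) :
    Fixd P (emb (Subgroup.centralizer (P : Set G)) A) := fun v hv => alg_ext fun y => by
  rw [coeff_cj]
  by_cases hy : y ∈ Subgroup.centralizer (P : Set G)
  · rw [show v⁻¹ * y * v = y by rw [mul_assoc, ← Subgroup.mem_centralizer_iff.1 hy v hv,
      inv_mul_cancel_left]]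
  · have hy' : v⁻¹ * y * v ∉ Subgroup.centralizer (P : Set G) := fun h => hy (by
      rw [show y = v * (v⁻¹ * y * v) * v⁻¹ by group, Subgroup.mem_centralizer_iff.1 h v hv,
        mul_inv_cancel_right]
      exact h)
    rw [coeff_emb_of_not_mem _ _ hy, coeff_emb_of_not_mem _ _ hy']

/-- The simple module of the block of `C_G(P)`. -/
theorem exists_simple_top {ε : KG M G} (hε : IsLocalIdem P ε)
    (hne : pbar M P e * br P ε ≠ 0) :
    ∃ (d : ℕ) (τ : Representation (ResField M) (Subgroup.centralizer (P : Set G))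
        (Fin d → ResField M)),
      τ.asAlgebraHom (bar M e) = 1 ∧ Function.Surjective τ.asAlgebraHom ∧
      (∀ ε' : KG M G, IsLocalIdem P ε' → pbar M P e * br P ε' ≠ 0 →
        τ.asAlgebraHom (toSub (Subgroup.centralizer (P : Set G)) ε') ≠ 0) := by
  obtain ⟨hP, he, -, -⟩ := (isBrauerPairOf_iff hM).1 hmax.1
  haveI := DefectOne.resField_isAlgClosed (M := M) hM
  obtain ⟨d, τ, hi, h1⟩ := CyclicDefect.exists_simple_on (isIdempotentElem_bar he)
    (isClassCoeff_bar e) (bar_ne_zero he)
  haveI := hi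
  have hl : blockRank p e = 1 := by
    have := (bel_facts hM hmax hab le_rfl (inf_le_right : FreeAt M P e P)).2.1
    rwa [bel_unique hM hP he Relation.ReflTransGen.refl] at this
  obtain ⟨N, hN⟩ := rad_pow hM he hl hi h1
  refine ⟨d, τ, h1, CyclicDefect.asAlgebraHom_surjective τ, fun ε' hε' hne' h0 => hne' ?_⟩
  have habs := absorbs_of_local hM hP he hε' hne' P le_rfl
  rw [bel_unique hM hP he Relation.ReflTransGen.refl] at habs
  have hx : toSub (Subgroup.centralizer (P : Set G)) ε' ∈ rad e τ := (mem_rad he).2 ⟨habs, h0⟩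
  have hp := Submodule.pow_mem_pow (rad e τ) hx N
  rw [hN, Submodule.mem_bot] at hp
  rw [← emb_tos, idem_eq_zero_of_nilpotent (tos_idem hM hP hε'.1 hε'.2.1 le_rfl) ⟨N, hp⟩,
    map_zero, mul_zero]

/-- Two local idempotents in the block are equivalent. -/
theorem exists_link {ε ε' : KG M G} (hε : IsLocalIdem P ε) (hne : pbar M P e * br P ε ≠ 0)
    (hε' : IsLocalIdem P ε') (hne' : pbar M P e * br P ε' ≠ 0) :
    ∃ a c : KG M G, Fixd P a ∧ Fixd P c ∧ a * c = ε ∧ c * a = ε' := by
  classical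
  obtain ⟨hP, he, -, -⟩ := (isBrauerPairOf_iff hM).1 hmax.1
  obtain ⟨d, τ, h1, hsurj, hτ0⟩ := exists_simple_top hM hmax hab hε hne
  set x := toSub (Subgroup.centralizer (P : Set G)) ε with hx
  set x' := toSub (Subgroup.centralizer (P : Set G)) ε' with hx'
  have hvec : ∀ ε'' : KG M G, IsLocalIdem P ε'' → pbar M P e * br P ε'' ≠ 0 →
      ∃ (w : Fin d → ResField M) (i : Fin d),
        τ.asAlgebraHom (toSub (Subgroup.centralizer (P : Set G)) ε'') w = w ∧ w i ≠ 0 := by
    intro ε'' h hn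
    obtain ⟨v, hv⟩ : ∃ v, τ.asAlgebraHom (toSub (Subgroup.centralizer (P : Set G)) ε'') v ≠ 0 := by
      by_contra hc
      push Not at hc
      exact hτ0 ε'' h hn (LinearMap.ext hc)
    obtain ⟨i, hi⟩ := Function.ne_iff.1 hv
    refine ⟨_, i, ?_, hi⟩
    rw [← Module.End.mul_apply, ← map_mul, (tos_idem hM hP h.1 h.2.1 le_rfl).eq]
  obtain ⟨w, i, hw, hwi⟩ := hvec ε hε hne
  obtain ⟨w', i', hw', hwi'⟩ := hvec ε' hε' hne'
  obtain ⟨A, hA⟩ := hsurj (((LinearMap.proj i' : (Fin d → ResField M) →ₗ[ResField M] ResField M)).smulRight ((w' i')⁻¹ • w))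
  obtain ⟨A', hA'⟩ := hsurj (((LinearMap.proj i : (Fin d → ResField M) →ₗ[ResField M] ResField M)).smulRight ((w i)⁻¹ • w'))
  have hAw : τ.asAlgebraHom A w' = w := by
    rw [hA]; simp [smul_smul, mul_inv_cancel₀ hwi']
  have hAw' : τ.asAlgebraHom A' w = w' := by
    rw [hA']; simp [smul_smul, mul_inv_cancel₀ hwi]
  set Ā := emb (Subgroup.centralizer (P : Set G)) A with hĀ
  set Ā' := emb (Subgroup.centralizer (P : Set G)) A' with hĀ'
  have f1 : Fixd P Ā := fixd_emb hM A
  have f1' : Fixd P Ā' := fixd_emb hM A'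
  set a := ε * Ā * ε' with ha
  set c₀ := ε' * Ā' * ε with hc₀
  have fa : Fixd P a := (hε.2.1.mul f1).mul hε'.2.1
  have fc : Fixd P c₀ := (hε'.2.1.mul f1').mul hε.2.1
  have hC : Star.InC ε (a * c₀) := by
    constructor
    · rw [ha]; simp only [← mul_assoc, hε.1.eq]
    · rw [hc₀]; simp only [mul_assoc, hε.1.eq]
  have htos : ∀ {r s : KG M G}, Fixd P r → Fixd P s →
      toSub (Subgroup.centralizer (P : Set G)) (r * s) =
        toSub (Subgroup.centralizer (P : Set G)) r * toSub (Subgroup.centralizer (P : Set G)) s :=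
    fun hr hs => toSub_br_mul hM hP hr hs
  have hnn : ¬ IsNilpotent (a * c₀) := by
    rintro ⟨m, hm⟩
    have hpow : ∀ k, τ.asAlgebraHom (toSub (Subgroup.centralizer (P : Set G))
        ((a * c₀) ^ (k + 1))) w = w := by
      have hone : τ.asAlgebraHom (toSub (Subgroup.centralizer (P : Set G)) (a * c₀)) w = w := by
        rw [htos fa fc, ha, hc₀, htos (hε.2.1.mul f1) hε'.2.1, htos hε.2.1 f1,
          htos (hε'.2.1.mul f1') hε.2.1, htos hε'.2.1 f1', hĀ, hĀ', toSub_emb, toSub_emb, ← hx,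
          ← hx']
        simp only [map_mul, Module.End.mul_apply]
        rw [← hx] at hw
        rw [← hx'] at hw'
        rw [hw, hAw', hw', hw', hAw, hw]
      intro k
      induction k with
      | zero => rwa [zero_add, pow_one]
      | succ k ih =>
        rw [pow_succ, htos ((fa.mul fc).pow _) (fa.mul fc), map_mul, Module.End.mul_apply, hone, ih]
    have h := hpow m
    rw [pow_succ, hm, zero_mul, show toSub (Subgroup.centralizer (P : Set G)) (0 : KG M G) = 0 from
      alg_ext fun _ => rfl, map_zero, LinearMap.zero_apply] at h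
    exact hwi (by rw [← h]; rfl)
  obtain ⟨z, fz, hzC, hz⟩ :=
    (isInvC_or_nilpotent hM hε (fa.mul fc) hC).resolve_right hnn
  refine ⟨a, c₀ * z, fa, fc.mul fz, by rw [← mul_assoc, hz], ?_⟩
  have hac : a * (c₀ * z) = ε := by rw [← mul_assoc, hz]
  have hcε : c₀ * z * ε = c₀ * z := by rw [mul_assoc, hzC.2]
  have hidem : IsIdempotentElem (c₀ * z * a) := by
    show c₀ * z * a * (c₀ * z * a) = c₀ * z * a
    calc c₀ * z * a * (c₀ * z * a) = c₀ * z * (a * (c₀ * z)) * a := by simp only [mul_assoc]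
      _ = _ := by rw [hac, hcε]
  refine (hε'.2.2.2 _ hidem ((fc.mul fz).mul fa) ⟨?_, ?_⟩).resolve_left fun h0 => hε.2.2.1 ?_
  · rw [hc₀]; simp only [← mul_assoc, hε'.1.eq]
  · rw [ha]; simp only [mul_assoc, hε'.1.eq]
  · calc ε = a * (c₀ * z) * (a * (c₀ * z)) := by rw [hac, hε.1.eq]
      _ = a * (c₀ * z * a) * (c₀ * z) := by simp only [mul_assoc]
      _ = 0 := by rw [h0, mul_zero, zero_mul]

/-- Equivalent local idempotents have the same ranks. -/
theorem rn_local {ε ε' : KG M G} (hε : IsLocalIdem P ε) (hne : pbar M P e * br P ε ≠ 0)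
    (hε' : IsLocalIdem P ε') (hne' : pbar M P e * br P ε' ≠ 0) {Q : Subgroup G} (hQ : Q ≤ P)
    (hfree : FreeAt M P e Q) : rn p M P e ε Q = rn p M P e ε' Q := by
  obtain ⟨a, c, fa, fc, hac, hca⟩ := exists_link hM hmax hab hε hne hε' hne'
  obtain ⟨η, hη⟩ := exists_mem_bel hM hmax hab hQ
  have hQp : IsPGroup p Q := hmax.1.1.1.to_le hQ
  rw [rn_eq hM hmax hab hε.1 hε.2.1 hQ hfree hη, rn_eq hM hmax hab hε'.1 hε'.2.1 hQ hfree hη,
    ← hac, ← hca, toSub_br_mul hM hQp (fa.mono hQ) (fc.mono hQ),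
    toSub_br_mul hM hQp (fc.mono hQ) (fa.mono hQ)]
  refine theta_swap hM (Char.isClassFunction_of_isIrr η.2) ?_ ?_
  · rw [← toSub_br_mul hM hQp (fa.mono hQ) (fc.mono hQ), hac]
    exact tos_idem hM hmax.1.1.1 hε.1 hε.2.1 hQ
  · rw [← toSub_br_mul hM hQp (fc.mono hQ) (fa.mono hQ), hca]
    exact tos_idem hM hmax.1.1.1 hε'.1 hε'.2.1 hQ

/-- The rank at the defect group is prime to the characteristic. -/
theorem redC_rn_ne_zero {ε : KG M G} (hε : IsLocalIdem P ε) (hne : pbar M P e * br P ε ≠ 0) :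
    redC M (rn p M P e ε P) ≠ 0 := by
  classical
  haveI := Fintype.ofFinite (Subgroup.centralizer (P : Set G))
  obtain ⟨hP, he, -, -⟩ := (isBrauerPairOf_iff hM).1 hmax.1
  obtain ⟨d, τ, h1, hsurj, hτ0⟩ := exists_simple_top hM hmax hab hε hne
  set x := toSub (Subgroup.centralizer (P : Set G)) ε with hx
  have hxi : IsIdempotentElem x := tos_idem hM hP hε.1 hε.2.1 le_rfl
  -- the trace does not vanish
  have htr : LinearMap.trace (ResField M) _ (τ.asAlgebraHom x) ≠ 0 := by
    obtain ⟨v, hv⟩ : ∃ v, τ.asAlgebraHom x v ≠ 0 := by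
      by_contra hc
      push Not at hc
      exact hτ0 ε hε hne (LinearMap.ext hc)
    obtain ⟨i, hi⟩ := Function.ne_iff.1 hv
    set w := τ.asAlgebraHom x v with hw
    obtain ⟨A, hA⟩ := hsurj (((LinearMap.proj i : (Fin d → ResField M) →ₗ[ResField M] ResField M)).smulRight ((w i)⁻¹ • w))
    set Ā := emb (Subgroup.centralizer (P : Set G)) A with hĀ
    have fĀ : Fixd P Ā := fixd_emb hM A
    obtain ⟨γ, m, hm⟩ := exists_scalar hM hε ((hε.2.1.mul fĀ).mul hε.2.1) (InC.sandwich hε.1 Ā)
    set ν := ε * Ā * ε - γ • ε with hν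
    have fν : Fixd P ν := ((hε.2.1.mul fĀ).mul hε.2.1).sub (hε.2.1.smul γ)
    have hνt : toSub (Subgroup.centralizer (P : Set G)) ν = x * A * x - γ • x := by
      rw [hν, show toSub (Subgroup.centralizer (P : Set G)) (ε * Ā * ε - γ • ε) =
        toSub (Subgroup.centralizer (P : Set G)) (ε * Ā * ε) - γ • x from alg_ext fun c => by
          simp [hx], toSub_br_mul hM hP (hε.2.1.mul fĀ) hε.2.1, toSub_br_mul hM hP hε.2.1 fĀ, hĀ,
        toSub_emb, ← hx]
    have hnil : IsNilpotent (toSub (Subgroup.centralizer (P : Set G)) ν) := by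
      have hp : ∀ k, toSub (Subgroup.centralizer (P : Set G)) (ν ^ (k + 1)) =
          toSub (Subgroup.centralizer (P : Set G)) ν ^ (k + 1) := by
        intro k
        induction k with
        | zero => rw [zero_add, pow_one, pow_one]
        | succ k ih => rw [pow_succ, toSub_br_mul hM hP (fν.pow _) fν, ih, ← pow_succ]
      refine ⟨m + 1, ?_⟩
      rw [← hp m, pow_succ, hm, zero_mul]
      exact alg_ext fun _ => rfl
    have ht := (LinearMap.isNilpotent_trace_of_isNilpotent (hnil.map τ.asAlgebraHom)).eq_zero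
    rw [hνt, map_sub, map_mul τ.asAlgebraHom, map_mul τ.asAlgebraHom, map_smul τ.asAlgebraHom,
      map_sub, map_smul] at ht
    have hfix : τ.asAlgebraHom x w = w := by
      rw [hw, ← Module.End.mul_apply, ← map_mul, hxi.eq]
    have hone : LinearMap.trace (ResField M) _
        (τ.asAlgebraHom x * τ.asAlgebraHom A * τ.asAlgebraHom x) = 1 := by
      rw [LinearMap.trace_mul_comm, ← mul_assoc, ← map_mul, hxi.eq, hA,
        show τ.asAlgebraHom x * ((LinearMap.proj i : (Fin d → ResField M) →ₗ[ResField M] ResField M)).smulRight ((w i)⁻¹ • w) = ((LinearMap.proj i : (Fin d → ResField M) →ₗ[ResField M] ResField M)).smulRight ((w i)⁻¹ • w) from LinearMap.ext fun z => by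
          simp [Module.End.mul_apply, map_smul, hfix],
        LinearMap.trace_smulRight]
      simpa using inv_mul_cancel₀ (a := w i) hi
    rw [hone] at ht
    intro h0
    rw [h0, smul_zero, sub_zero] at ht
    exact one_ne_zero ht
  -- the trace is a combination of reductions
  obtain ⟨η, hη⟩ := exists_mem_bel hM hmax hab (le_refl P)
  rw [rn_eq hM hmax hab hε.1 hε.2.1 le_rfl inf_le_right hη]
  intro h0
  obtain ⟨X, hX, hXx, -⟩ := exists_lift_one (M := M) hxi
  let L : ((Subgroup.centralizer (P : Set G)) → ResField M) →ₗ[ResField M] ResField M :=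
    { toFun := fun f => ∑ g, x.coeff g * f g
      map_add' := fun f g => by simp [mul_add, Finset.sum_add_distrib]
      map_smul' := fun c f => by
        simp only [Pi.smul_apply, smul_eq_mul, RingHom.id_apply, Finset.mul_sum]
        exact Finset.sum_congr rfl fun _ _ => by ring }
  have hred : ∀ η' ∈ e, L (DefectOne.redFun M η') = 0 := by
    intro η' hη'
    have hr := rn_eq hM hmax hab hε.1 hε.2.1 le_rfl inf_le_right hη
    rw [← bel_unique hM hP he Relation.ReflTransGen.refl] at hη'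
    rw [← rn_eq hM hmax hab hε.1 hε.2.1 le_rfl inf_le_right hη,
      rn_eq hM hmax hab hε.1 hε.2.1 le_rfl inf_le_right hη',
      theta_one hM (Char.isClassFunction_of_isIrr η'.2) hX hXx, pair_eq_sum] at h0
    show ∑ g, x.coeff g * redC M ((η' : _ → ℂ) g) = 0
    refine Eq.trans ?_ h0
    have hint : ∀ g, (η' : Subgroup.centralizer (P : Set G) → ℂ) g ∈ locRing M := fun g =>
      irr_mem_locRing η' g
    rw [redC_sum _ fun g _ => mul_mem (intR_toC X g) (hint g)]
    refine Finset.sum_congr rfl fun g _ => ?_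
    rw [redC_mul (intR_toC X g) (hint g), coeff_toC, redC_coe, ← hXx, coeff_toK]
  have hspan : ∀ f ∈ Submodule.span (ResField M) (DefectOne.redFun M '' e), L f = 0 := by
    intro f hf
    induction hf using Submodule.span_induction with
    | mem f hf => obtain ⟨η', hη', rfl⟩ := hf; exact hred η' hη'
    | zero => exact map_zero L
    | add f g _ _ hf hg => rw [map_add, hf, hg, add_zero]
    | smul c f _ hf => rw [map_smul, hf, smul_zero]
  refine htr ?_
  rw [← hspan _ (trace_mem_span hM he τ h1)]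
  show _ = ∑ g, x.coeff g * LinearMap.trace _ _ (τ g)
  conv_lhs => rw [eq_sum_single x]
  simp [map_sum, Representation.asAlgebraHom_single]

end Values

end Cfsg.Agent.Lib.FreeInertial
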