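import Cfsg.Agent.Lib.FreeInertial.Local

/-!
# Decomposition numbers as virtual characters of the defect group
-/

set_option autoImplicit false
set_option linter.unusedSectionVars false
set_option linter.style.haveILetI false
set_option maxHeartbeats 800000

namespace Cfsg.Agent.Lib.FreeInertial

open Cfsg Cfsg.Agent.Lib Cfsg.Agent.Lib.Block Cfsg.Agent.Lib.BrauerPairs Cfsg.Agent.Lib.Star
open Cfsg.Agent.Lib.Watanabe (conj_mem_of_stab)
open scoped ComplexConjugate

universe u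

variable {p : ℕ} {M : Ideal AlgInt} [M.IsPrime] {G : Type u} [Group G] [Finite G]
  {B : Set (IrrCharacter G)} {P : Subgroup G} {e : CBlock P}

/-- Conjugation of a lift. -/
noncomputable def cjR (t : G) (E : RG M G) : RG M G :=
  MonoidAlgebra.single t 1 * E * MonoidAlgebra.single t⁻¹ 1

theorem isIdempotentElem_cjR (t : G) {E : RG M G} (hE : IsIdempotentElem E) :
    IsIdempotentElem (cjR t E) := by
  have h1 : (MonoidAlgebra.single t⁻¹ (1 : locRing M)) * MonoidAlgebra.single t 1 = 1 := by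
    rw [MonoidAlgebra.single_mul_single, inv_mul_cancel, one_mul, MonoidAlgebra.one_def]
  show cjR t E * cjR t E = cjR t E
  calc cjR t E * cjR t E = MonoidAlgebra.single t 1 * E *
        (MonoidAlgebra.single t⁻¹ 1 * MonoidAlgebra.single t 1) * E *
          MonoidAlgebra.single t⁻¹ 1 := by simp only [cjR, mul_assoc]
    _ = _ := by rw [h1, mul_one, mul_assoc (MonoidAlgebra.single t (1 : locRing M)), hE.eq]; rfl

theorem toK_cjR (t : G) (E : RG M G) : toK (cjR t E) = cj t (toK E) := by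
  rw [cjR, map_mul, map_mul, toK_single, toK_single]
  exact (CyclicDefect.cj_eq_mul t (toK E)).symm

theorem commute_cjR (t u : G) {E : RG M G} (h : Commute (MonoidAlgebra.single u 1) E) :
    Commute (MonoidAlgebra.single (t * u * t⁻¹) 1) (cjR t E) := by
  have h1 : (MonoidAlgebra.single (t * u * t⁻¹) (1 : locRing M)) * MonoidAlgebra.single t 1 =
      MonoidAlgebra.single t 1 * MonoidAlgebra.single u 1 := by
    rw [MonoidAlgebra.single_mul_single, MonoidAlgebra.single_mul_single, inv_mul_cancel_right]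
  have h2 : (MonoidAlgebra.single t⁻¹ (1 : locRing M)) * MonoidAlgebra.single (t * u * t⁻¹) 1 =
      MonoidAlgebra.single u 1 * MonoidAlgebra.single t⁻¹ 1 := by
    rw [MonoidAlgebra.single_mul_single, MonoidAlgebra.single_mul_single,
      show t⁻¹ * (t * u * t⁻¹) = u * t⁻¹ by group]
  show _ = _
  calc MonoidAlgebra.single (t * u * t⁻¹) 1 * cjR t E
      = MonoidAlgebra.single (t * u * t⁻¹) 1 * MonoidAlgebra.single t 1 * E *
          MonoidAlgebra.single t⁻¹ 1 := by simp only [cjR, mul_assoc]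
    _ = MonoidAlgebra.single t 1 * (MonoidAlgebra.single u 1 * E) *
          MonoidAlgebra.single t⁻¹ 1 := by rw [h1]; simp only [mul_assoc]
    _ = MonoidAlgebra.single t 1 * E *
          (MonoidAlgebra.single u 1 * MonoidAlgebra.single t⁻¹ 1) := by
        rw [h.eq]; simp only [mul_assoc]
    _ = _ := by rw [← h2]; simp only [cjR, mul_assoc]

section Values

variable (hM : IsPModular p M) (hmax : IsMaximalBrauerPair p M B P e)
  (hab : ∀ x ∈ P, ∀ y ∈ P, x * y = y * x)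
  (hfree : ∀ Q : Subgroup G, Q ≤ P → Q ≠ ⊥ → FreeAt M P e Q)

include hM hmax hab hfree

open scoped Classical in
/-- A signed version of the decomposition numbers is a family of invariant virtual characters. -/
theorem exists_virtual {A : Type u} [CommGroup A] [Fintype A] (i : A →* G)
    (hinj : Function.Injective i) (hmemP : ∀ a, i a ∈ P) [Nontrivial A] :
    ∃ σ : A → ℂ, (∀ x, σ x * σ x = 1) ∧ (∀ x, conj (σ x) = σ x) ∧
      ∀ χ : IrrCharacter G, ∃ D : A → ℂ, D ∈ Vr A ∧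
        (∀ t ∈ stab M P e, ∀ x y : A, (i y) = t * i x * t⁻¹ → D y = D x) ∧
        ∀ x : A, x ≠ 1 → D x = dv p M P e (χ : G → ℂ) (i x) * σ x := by
  obtain ⟨hP, he, hB, -⟩ := (isBrauerPairOf_iff hM).1 hmax.1
  haveI := resField_charP (M := M) hM
  haveI : Fact p.Prime := ⟨hM.1⟩
  obtain ⟨ε, hε, hne'⟩ := exists_local_idem (M := M) hM hP he
  have habs := absorbs_of_local hM hP he hε hne'
  have hPp : IsPGroup p A := fun a => by
    obtain ⟨k, hk⟩ := hP ⟨i a, hmemP a⟩
    exact ⟨k, hinj (by rw [map_pow, map_one]; exact congrArg Subtype.val hk)⟩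
  -- integral ranks
  have hnat : ∀ Q : Subgroup G, ∃ r : ℤ, Q ≤ P → rn p M P e ε Q = (r : ℂ) := by
    intro Q
    by_cases hQ : Q ≤ P
    · obtain ⟨n, hn⟩ := exists_nat_rn hM hmax hε.1 hε.2.1 hQ
      exact ⟨n, fun _ => by rw [hn]; push_cast; rfl⟩
    · exact ⟨0, fun h => absurd h hQ⟩
  choose rz hrz using hnat
  have hcast : ∀ z : ℤ, redC M (z : ℂ) = (z : ResField M) := fun z => by
    rw [show ((z : ℤ) : ℂ) = ((z : locRing M) : ℂ) by simp, redC_coe, map_intCast]
  have hc : ¬ (p : ℤ) ∣ rz P := by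
    intro h
    refine redC_rn_ne_zero hM hmax hab hε hne' ?_
    rw [hrz P le_rfl, hcast, (CharP.intCast_eq_zero_iff (ResField M) p _).2 h]
  have hsq : ∀ Q : Subgroup G, Q ≤ P → Q ≠ ⊥ → (p : ℤ) ∣ rz Q * rz Q - rz P * rz P := by
    intro Q hQ hQ1
    have h := redC_rn_sq_top hM hmax hab hε.1 hε.2.1 habs hQ (hfree Q hQ hQ1)
    rw [hrz Q hQ, hrz P le_rfl, ← Int.cast_mul, ← Int.cast_mul, hcast, hcast, ← sub_eq_zero,
      ← Int.cast_sub, CharP.intCast_eq_zero_iff (ResField M) p] at h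
    exact h
  have hr0 : ∀ Q : Subgroup G, Q ≤ P → Q ≠ ⊥ → rz Q ≠ 0 := fun Q hQ hQ1 h => hc (by
    have h2 := hsq Q hQ hQ1
    rw [h, mul_zero, zero_sub, dvd_neg] at h2
    exact ((Nat.prime_iff_prime_int.1 hM.1).dvd_or_dvd h2).elim id id)
  let up : Subgroup A → Subgroup G := fun Q => Q.map i
  have hup : ∀ Q : Subgroup A, up Q ≤ P := by
    rintro Q _ ⟨a, -, rfl⟩
    exact hmemP a
  have hup1 : ∀ Q : Subgroup A, Q ≠ ⊥ → up Q ≠ ⊥ := fun Q hQ h =>
    hQ ((Subgroup.map_eq_bot_iff_of_injective Q hinj).1 h)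
  let F : Subgroup A → ℤ := fun Q => nrm p (rz P) (rz (up Q))
  have hFs : ∀ Q, Q ≠ ⊥ → signMod p ∣ F Q - rz P := fun Q hQ =>
    nrm_congr hM.1 hc (hsq _ (hup Q) (hup1 Q hQ))
  let sg : Subgroup A → ℂ := fun Q => if F Q = rz (up Q) then 1 else -1
  have hsg : ∀ Q, (rz (up Q) : ℂ) = sg Q * (F Q : ℂ) := by
    intro Q
    simp only [sg]
    split_ifs with h
    · rw [h, one_mul]
    · rw [show F Q = -rz (up Q) from (nrm_eq_or p (rz P) (rz (up Q))).resolve_left h]
      simp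
  have hsgsq : ∀ Q, sg Q * sg Q = 1 := fun Q => by simp only [sg]; split_ifs <;> simp
  have hsgc : ∀ Q, conj (sg Q) = sg Q := fun Q => by simp only [sg]; split_ifs <;> simp
  -- joins
  have hFv : ∀ Q : Subgroup A, Q ≠ ⊥ →
      (fun x => (F (Q ⊔ Subgroup.zpowers x) : ℂ)) ∈ Vr A := by
    intro Q hQ
    obtain ⟨ω, hω, hωi, hmem⟩ := exists_twist hM hmax hab hε.1 hε.2.1 habs (hup Q)
      (hfree _ (hup Q) (hup1 Q hQ)) i hmemP
    have hne2 : ∀ x, Q ⊔ Subgroup.zpowers x ≠ ⊥ := fun x h => hQ (le_bot_iff.1 (le_sup_left.trans h.le))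
    refine mem_of_twist hM.1 hPp hc (fun x => hFs _ (hne2 x)) (fun k hk x => ?_) (fun x => ?_) hmem
      (ω := fun x => ω x * sg (Q ⊔ Subgroup.zpowers x)) (fun x => ?_) (fun x => ?_) fun x => ?_
    · show F (Q ⊔ Subgroup.zpowers (x ^ k)) = F (Q ⊔ Subgroup.zpowers x)
      congr 2
      refine Subgroup.eq_of_le_of_card_ge (Subgroup.zpowers_le.2 (pow_mem (Subgroup.mem_zpowers x) k)) ?_
      rw [Nat.card_zpowers, Nat.card_zpowers,
        (Nat.Coprime.coprime_dvd_right (orderOf_dvd_natCard x) hk).symm.orderOf_pow]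
    · show F (Q ⊔ Subgroup.zpowers x⁻¹) = F (Q ⊔ Subgroup.zpowers x)
      rw [Subgroup.zpowers_inv]
    · show ω x * rn p M P e ε (up Q ⊔ Subgroup.zpowers (i x)) = _
      rw [← MonoidHom.map_zpowers, ← Subgroup.map_sup]
      show ω x * rn p M P e ε (up (Q ⊔ Subgroup.zpowers x)) = _
      rw [hrz _ (hup _), hsg]
      ring
    · show ω x * sg _ * (ω x⁻¹ * sg _) = 1
      rw [Subgroup.zpowers_inv, mul_mul_mul_comm, hω, hsgsq, one_mul]
    · exact (hωi x).mul (by simp only [sg]; split_ifs <;> simp [isIntegral_one])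
  obtain ⟨ρ, hρV, hρc, hρ⟩ := exists_cyclic_fn hM.1 hPp
    inferInstance F (fun Q hQ => dvd_signMod.trans (hFs Q hQ)) hFv
  have hzp : ∀ x : A, x ≠ 1 → Subgroup.zpowers x ≠ ⊥ := fun x hx h =>
    hx (Subgroup.zpowers_eq_bot.1 h)
  have hupz : ∀ x : A, up (Subgroup.zpowers x) = Subgroup.zpowers (i x) := fun x => by
    show (Subgroup.zpowers x).map i = _
    rw [MonoidHom.map_zpowers]
  have hfz : ∀ x : A, x ≠ 1 → FreeAt M P e (Subgroup.zpowers (i x)) := fun x hx =>
    hfree _ (Subgroup.zpowers_le.2 (hmemP x)) fun h => hx (hinj ((Subgroup.zpowers_eq_bot.1 h).trans (map_one i).symm))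
  -- invariance of the ranks
  have hrinv : ∀ t ∈ stab M P e, ∀ x y : A, x ≠ 1 → (i y) = t * i x * t⁻¹ →
      rn p M P e (cj t ε) (Subgroup.zpowers (i y)) = rn p M P e ε (Subgroup.zpowers (i x)) ∧
      rn p M P e ε (Subgroup.zpowers (i y)) = rn p M P e ε (Subgroup.zpowers (i x)) := by
    intro t ht x y hx hy
    have hy1 : y ≠ 1 := by
      rintro rfl
      refine hx (hinj ?_)
      rw [map_one] at hy ⊢
      calc (i x) = t⁻¹ * (t * i x * t⁻¹) * t := by group
        _ = 1 := by rw [← hy]; group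
    have hsj : sj t (Subgroup.zpowers (i x)) = Subgroup.zpowers (i y) := by
      rw [hy]; exact (MulAut.conj t).toMonoidHom.map_zpowers (i x)
    obtain ⟨hl, hn⟩ := isLocalIdem_cj ht hε hne'
    have h1 := rn_cj hM hmax hab ht hε.1 hε.2.1 hl.1 hl.2.1 (Subgroup.zpowers_le.2 (hmemP x)) (hfz x hx)
      (by rw [hsj]; exact hfz y hy1)
    rw [hsj] at h1
    exact ⟨h1, by rw [rn_local hM hmax hab hε hne' hl hn (Subgroup.zpowers_le.2 (hmemP y)) (hfz y hy1), h1]⟩
  refine ⟨fun x => sg (Subgroup.zpowers x), fun x => hsgsq _, fun x => hsgc _, fun χ => ?_⟩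
  obtain ⟨E, hE, hEK, hEc⟩ := exists_lift_one hε.1
  have hEc' : ∀ v ∈ P, Commute (MonoidAlgebra.single v 1) E := fun v hv => hEc v (hε.2.1 v hv)
  have hch := isCharacter_pair_idem (Char.isCharacter_of_isIrr χ.2) P (hE.map toC) fun v hv => by
    have := (hEc' v hv).map (toC (M := M))
    rwa [toC_single] at this
  have hg : (fun x : A => pair (χ : G → ℂ) (toC E * MonoidAlgebra.single (i x) 1)) ∈ Vr A :=
    mem_of_character (Char.isCharacter_comp hch (i.codRestrict P hmemP))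
  have hgv : ∀ x : A, x ≠ 1 → pair (χ : G → ℂ) (toC E * MonoidAlgebra.single (i x) 1) =
      dv p M P e (χ : G → ℂ) (i x) * rn p M P e ε (Subgroup.zpowers (i x)) := fun x hx =>
    pair_eq_dv_mul_rn hM hmax hab (Char.isClassFunction_of_isIrr χ.2) hε.1 hε.2.1 habs hE hEK (hmemP x)
      (hEc' _ (hmemP x)) (hfz x hx)
  have hρ0 : ∀ x, ¬ (p : ℤ) ∣ ρ x := fun x hx => hc (by
    have := dvd_sub hx (hρc x)
    rwa [sub_sub_cancel] at this)
  have hdiv : ∀ x : A, x ≠ 1 → pair (χ : G → ℂ) (toC E * MonoidAlgebra.single (i x) 1) /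
      (ρ x : ℂ) = dv p M P e (χ : G → ℂ) (i x) * sg (Subgroup.zpowers x) := by
    intro x hx
    rw [hgv x hx, div_eq_iff (Int.cast_ne_zero.2 fun h => hρ0 x (by rw [h]; exact dvd_zero _)),
      hρ x hx, mul_assoc, ← hsg, hupz, hrz _ (Subgroup.zpowers_le.2 (hmemP x))]
  obtain ⟨D, hD, hDx⟩ := exists_div hM.1 hPp hg hρV hρ0 fun x hx => by
    rw [hdiv x hx]
    exact (isIntegral_dv hM hmax hab (Char.isCharacter_of_isIrr χ.2) _).mul
      (by simp only [sg]; split_ifs <;> simp [isIntegral_one])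
  refine ⟨D, hD, fun t ht x y hy => ?_, fun x hx => (hDx x hx).trans (hdiv x hx)⟩
  by_cases hx : x = 1
  · subst hx
    rw [show y = 1 from hinj (by rw [hy]; simp)]
  have hy1 : y ≠ 1 := by
    rintro rfl
    refine hx (hinj ?_)
    rw [map_one] at hy ⊢
    calc (i x) = t⁻¹ * (t * i x * t⁻¹) * t := by group
      _ = 1 := by rw [← hy]; group
  obtain ⟨h1, h2⟩ := hrinv t ht x y hx hy
  obtain ⟨hl, hn⟩ := isLocalIdem_cj ht hε hne'
  have hE' : toK (cjR t E) = cj t ε := by rw [toK_cjR, hEK]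
  have hgy := pair_eq_dv_mul_rn hM hmax hab (Char.isClassFunction_of_isIrr χ.2) hl.1 hl.2.1
    (absorbs_of_local hM hP he hl hn) (isIdempotentElem_cjR t hE) hE' (hmemP y)
    (by rw [hy]; exact commute_cjR t _ (hEc' _ (hmemP x))) (hfz y hy1)
  have hpc : pair (χ : G → ℂ) (toC (cjR t E) * MonoidAlgebra.single (i y) 1) =
      pair (χ : G → ℂ) (toC E * MonoidAlgebra.single (i x) 1) := by
    rw [cjR, map_mul, map_mul, toC_single, toC_single, hy]
    exact pair_conj_single (Char.isClassFunction_of_isIrr χ.2) (toC E) t (i x)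
  rw [hpc, hgv x hx, h1] at hgy
  have hd : dv p M P e (χ : G → ℂ) (i y) = dv p M P e (χ : G → ℂ) (i x) := by
    refine mul_right_cancel₀ ?_ hgy.symm
    rw [hrz _ (Subgroup.zpowers_le.2 (hmemP x))]
    exact Int.cast_ne_zero.2 (hr0 _ (Subgroup.zpowers_le.2 (hmemP x)) fun h =>
      hx (hinj ((Subgroup.zpowers_eq_bot.1 h).trans (map_one i).symm)))
  have hrr : rz (up (Subgroup.zpowers y)) = rz (up (Subgroup.zpowers x)) := by
    rw [hupz, hupz]
    have := hrz _ (Subgroup.zpowers_le.2 (hmemP y))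
    rw [h2, hrz _ (Subgroup.zpowers_le.2 (hmemP x))] at this
    exact_mod_cast this.symm
  rw [hDx y hy1, hDx x hx, hdiv y hy1, hdiv x hx, hd]
  simp only [sg, F, hrr]

end Values

end Cfsg.Agent.Lib.FreeInertial
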